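import Mathlib
import Cfsg.Agent.Lib.Helper1.UniqP

namespace Cfsg.Agent.Lib.Helper6.AbConj

open Subgroup

theorem key {G : Type*} [Group G] [Finite G]
    (hB : ∀ A B : Subgroup G, IsMulCommutative ↥A → IsMulCommutative ↥B →
      Nat.card ↥A = Nat.card ↥B → ∃ g : G, B = A.map (MulAut.conj g).toMonoidHom)
    (p : ℕ) [Fact p.Prime] (P : Sylow p G) :
    (∀ x ∈ (P : Subgroup G), x ^ p = 1) ∨
    (∀ H K : Subgroup ↥(P : Subgroup G), Nat.card H = p → Nat.card K = p → H = K) := by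
  classical
  have hp : p.Prime := Fact.out
  by_contra hcon
  push_neg at hcon
  obtain ⟨⟨x, hxP, hx⟩, H, K, hH, hK, hHK⟩ := hcon
  -- element of order p^2
  obtain ⟨k, hk⟩ : ∃ k : ℕ, orderOf x = p ^ k := by
    obtain ⟨k, hk⟩ := (IsPGroup.iff_orderOf.1 P.isPGroup') ⟨x, hxP⟩
    exact ⟨k, by rw [← hk, Subgroup.orderOf_mk]⟩
  have hk2 : 2 ≤ k := by
    by_contra hlt
    apply hx
    have : orderOf x ∣ p := by
      rw [hk]
      have : k ≤ 1 := by omega
      calc p ^ k ∣ p ^ 1 := pow_dvd_pow p this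
        _ = p := pow_one p
    exact orderOf_dvd_iff_pow_eq_one.1 this
  set c := x ^ (p ^ (k - 2)) with hc
  have hoc : orderOf c = p ^ 2 := by
    have h0 : orderOf x ≠ 0 := (orderOf_pos x).ne'
    have hd : p ^ 2 ∣ orderOf x := by rw [hk]; exact pow_dvd_pow p hk2
    have := orderOf_pow_orderOf_div (x := x) (n := p ^ 2) h0 hd
    have hdiv : orderOf x / p ^ 2 = p ^ (k - 2) := by
      rw [hk]
      exact Nat.pow_div hk2 hp.pos
    rwa [hdiv] at this
  have hcC : Nat.card (zpowers c) = p ^ 2 := by rw [Nat.card_zpowers, hoc]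
  -- central element of order p in P
  haveI : Nontrivial ↥(P : Subgroup G) := by
    have h1 : 1 < Nat.card H := by rw [hH]; exact hp.one_lt
    have h2 : Nat.card H ≤ Nat.card ↥(P : Subgroup G) :=
      Nat.card_le_card_of_injective _ H.subtype_injective
    exact Finite.one_lt_card_iff_nontrivial.1 (lt_of_lt_of_le h1 h2)
  have hcen := IsPGroup.center_nontrivial (P.isPGroup')
  obtain ⟨⟨z, hz⟩, hz1⟩ := exists_ne (1 : center ↥(P : Subgroup G))
  have hz1' : z ≠ 1 := fun h => hz1 (Subtype.ext h)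
  obtain ⟨j, hj⟩ := (IsPGroup.iff_orderOf.1 P.isPGroup') z
  have hj1 : 1 ≤ j := by
    by_contra hlt
    have : j = 0 := by omega
    rw [this, pow_zero, orderOf_eq_one_iff] at hj
    exact hz1' hj
  set z' := z ^ (p ^ (j - 1)) with hz'
  have hoz' : orderOf z' = p := by
    have h0 : orderOf z ≠ 0 := (orderOf_pos z).ne'
    have hd : p ∣ orderOf z := by rw [hj]; exact dvd_pow_self p (by omega)
    have := orderOf_pow_orderOf_div (x := z) (n := p) h0 hd
    have hdiv : orderOf z / p = p ^ (j - 1) := by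
      rw [hj]
      conv_lhs => rw [show p ^ j / p = p ^ j / p ^ 1 by rw [pow_one]]
      exact Nat.pow_div hj1 hp.pos
    rwa [hdiv] at this
  have hz'c : z' ∈ center ↥(P : Subgroup G) := pow_mem hz _
  set Z0 : Subgroup ↥(P : Subgroup G) := zpowers z' with hZ0
  have hZ0c : Nat.card Z0 = p := by rw [hZ0, Nat.card_zpowers, hoz']
  obtain ⟨A, hA, hAZ⟩ : ∃ A : Subgroup ↥(P : Subgroup G), Nat.card A = p ∧ A ≠ Z0 := by
    by_cases h : H = Z0
    · exact ⟨K, hK, fun h' => hHK (h.trans h'.symm)⟩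
    · exact ⟨H, hH, h⟩
  have hdisj : A ⊓ Z0 = ⊥ := by
    have hd : Nat.card (A ⊓ Z0 : Subgroup ↥(P : Subgroup G)) ∣ p := by
      have := Subgroup.card_dvd_of_le (inf_le_left : A ⊓ Z0 ≤ A)
      rwa [hA] at this
    rcases (Nat.dvd_prime hp).1 hd with h1 | h1
    · exact Subgroup.card_eq_one.1 h1
    · exfalso
      have e1 : A ⊓ Z0 = A := Subgroup.eq_of_le_of_card_ge inf_le_left (by rw [h1, hA])
      have e2 : A ⊓ Z0 = Z0 := Subgroup.eq_of_le_of_card_ge inf_le_right (by rw [h1, hZ0c])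
      exact hAZ (e1.symm.trans e2)
  have hcomm : ∀ (m : A) (n : Z0), Commute (A.subtype m) (Z0.subtype n) := by
    intro m n
    have hn : (n : ↥(P : Subgroup G)) ∈ center ↥(P : Subgroup G) := by
      obtain ⟨i, hi⟩ := mem_zpowers_iff.1 n.2
      rw [← hi]; exact zpow_mem hz'c i
    exact (Subgroup.mem_center_iff.1 hn (m : ↥(P : Subgroup G)))
  set f : A × Z0 →* ↥(P : Subgroup G) := A.subtype.noncommCoprod Z0.subtype hcomm with hf
  have hfinj : Function.Injective f := by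
    rw [hf, MonoidHom.noncommCoprod_injective]
    refine ⟨A.subtype_injective, Z0.subtype_injective, ?_⟩
    rw [Subgroup.range_subtype, Subgroup.range_subtype, disjoint_iff]
    exact hdisj
  have hEc : Nat.card f.range = p ^ 2 := by
    rw [← Nat.card_congr (MonoidHom.ofInjective hfinj).toEquiv, Nat.card_prod, hA, hZ0c, sq]
  have hEexp : ∀ y ∈ f.range, y ^ p = 1 := by
    rintro _ ⟨⟨a, n⟩, rfl⟩
    have ha : a ^ p = 1 := by
      have := pow_card_eq_one' (G := A) (x := a)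
      rwa [hA] at this
    have hn : n ^ p = 1 := by
      have := pow_card_eq_one' (G := Z0) (x := n)
      rwa [hZ0c] at this
    rw [← map_pow, Prod.pow_mk, ha, hn]
    exact map_one f
  have hEcomm : ∀ y₁ ∈ f.range, ∀ y₂ ∈ f.range, y₁ * y₂ = y₂ * y₁ := by
    rintro _ ⟨⟨a₁, n₁⟩, rfl⟩ _ ⟨⟨a₂, n₂⟩, rfl⟩
    haveI : Fact p.Prime := ⟨hp⟩
    haveI : IsCyclic A := isCyclic_of_prime_card hA
    haveI : IsCyclic Z0 := isCyclic_of_prime_card hZ0c
    rw [← map_mul, ← map_mul]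
    congr 1
    refine Prod.ext ?_ ?_
    · exact (IsCyclic.commutative).is_comm.comm a₁ a₂
    · exact (IsCyclic.commutative).is_comm.comm n₁ n₂
  -- transport to G
  set E' : Subgroup G := f.range.map (P : Subgroup G).subtype with hE'
  have hE'c : Nat.card E' = p ^ 2 := by
    rw [hE', Subgroup.card_map_of_injective (Subgroup.subtype_injective _), hEc]
  have hE'comm : IsMulCommutative ↥E' := by
    refine ⟨⟨fun a b => ?_⟩⟩
    obtain ⟨y₁, hy₁, e₁⟩ := Subgroup.mem_map.1 a.2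
    obtain ⟨y₂, hy₂, e₂⟩ := Subgroup.mem_map.1 b.2
    apply Subtype.ext
    show (a : G) * (b : G) = (b : G) * (a : G)
    rw [← e₁, ← e₂, ← map_mul, ← map_mul, hEcomm y₁ hy₁ y₂ hy₂]
  have hCcomm : IsMulCommutative ↥(zpowers c) := inferInstance
  obtain ⟨g, hg⟩ := hB E' (zpowers c) hE'comm hCcomm (by rw [hE'c, hcC])
  have hcmem : c ∈ E'.map (MulAut.conj g).toMonoidHom := hg ▸ mem_zpowers c
  obtain ⟨e, he, hec⟩ := Subgroup.mem_map.1 hcmem
  obtain ⟨y, hy, hye⟩ := Subgroup.mem_map.1 he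
  have hep : e ^ p = 1 := by
    rw [← hye, ← map_pow, hEexp y hy, map_one]
  have hcp : c ^ p = 1 := by
    rw [← hec, ← map_pow, hep, map_one]
  have : p ^ 2 ∣ p := hoc ▸ orderOf_dvd_of_pow_eq_one hcp
  have h2 : p ^ 2 ≤ p := Nat.le_of_dvd hp.pos this
  have h3 : p < p ^ 2 := by
    have := hp.one_lt
    nlinarith
  omega

end Cfsg.Agent.Lib.Helper6.AbConj
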