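import Mathlib

set_option autoImplicit false

namespace Cfsg.Agent.Lib.Helper6.AffClos

theorem affine_of_triples {p : ℕ} [Fact p.Prime] (hp : p ≠ 2) {d : ℕ}
    (σ : Equiv.Perm (Fin d → ZMod p))
    (h : ∀ x y z : Fin d → ZMod p, ∃ (A : (Fin d → ZMod p) ≃ₗ[ZMod p] (Fin d → ZMod p))
      (b : Fin d → ZMod p), σ x = A x + b ∧ σ y = A y + b ∧ σ z = A z + b) :
    ∃ (A : (Fin d → ZMod p) ≃ₗ[ZMod p] (Fin d → ZMod p)) (b : Fin d → ZMod p),
      ∀ x, σ x = A x + b := by
  have key : ∀ (x y : Fin d → ZMod p) (t : ZMod p),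
      σ ((1 - t) • x + t • y) = (1 - t) • σ x + t • σ y := by
    intro x y t
    obtain ⟨A, b, h1, h2, h3⟩ := h x y ((1 - t) • x + t • y)
    rw [h3, h1, h2, map_add, map_smul, map_smul]
    module
  have h2 : (2 : ZMod p) ≠ 0 := by
    intro h0
    have h1 : ((2 : ℕ) : ZMod p) = 0 := by exact_mod_cast h0
    rw [ZMod.natCast_eq_zero_iff] at h1
    have hp' := (Nat.prime_dvd_prime_iff_eq (Fact.out : p.Prime) Nat.prime_two).mp h1
    exact hp hp'
  have hsm : ∀ (t : ZMod p) (y : Fin d → ZMod p), σ (t • y) - σ 0 = t • (σ y - σ 0) := by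
    intro t y
    have h1 := key 0 y t
    rw [smul_zero, zero_add] at h1
    rw [h1]; module
  have hadd : ∀ x y : Fin d → ZMod p, σ (x + y) - σ 0 = (σ x - σ 0) + (σ y - σ 0) := by
    intro x y
    obtain ⟨c, hc⟩ : ∃ c : ZMod p, c = (2 : ZMod p)⁻¹ := ⟨_, rfl⟩
    have hc2 : 2 * c = 1 := by rw [hc]; exact mul_inv_cancel₀ h2
    have hc1 : 1 - c = c := by linear_combination (-1 : ZMod p) * hc2
    have hc0 : c ≠ 0 := by rw [hc]; exact inv_ne_zero h2
    have E1 := key x y c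
    have E2 := key 0 (x + y) c
    rw [hc1] at E1 E2
    rw [smul_zero, zero_add] at E2
    rw [← smul_add] at E1
    rw [E2] at E1
    have E3 : c • (σ 0 + σ (x + y)) = c • (σ x + σ y) := by rw [smul_add, smul_add]; exact E1
    have E4 := smul_right_injective (Fin d → ZMod p) hc0 E3
    have E5 : σ (x + y) = σ x + σ y - σ 0 := by rw [← E4]; abel
    rw [E5]; abel
  let L : (Fin d → ZMod p) →ₗ[ZMod p] (Fin d → ZMod p) :=
    { toFun := fun x => σ x - σ 0
      map_add' := hadd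
      map_smul' := fun t y => by simp only [RingHom.id_apply]; exact hsm t y }
  have hinj : Function.Injective L := by
    intro x y hxy
    have h1 : σ x - σ 0 = σ y - σ 0 := hxy
    exact σ.injective (sub_left_injective h1)
  refine ⟨LinearEquiv.ofInjectiveEndo L hinj, σ 0, fun x => ?_⟩
  rw [LinearEquiv.coe_ofInjectiveEndo]
  show σ x = (σ x - σ 0) + σ 0
  abel

theorem closure_iff (p : ℕ) [Fact p.Prime] (hp : p ≠ 2) (d : ℕ) (hd : 3 ≤ d)
    (G : Subgroup (Equiv.Perm (Fin d → ZMod p)))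
    (haff : (G : Set (Equiv.Perm (Fin d → ZMod p))) ⊆ {τ : Equiv.Perm (Fin d → ZMod p) |
      ∃ (A : (Fin d → ZMod p) ≃ₗ[ZMod p] (Fin d → ZMod p)) (b : Fin d → ZMod p),
        ∀ x, τ x = A x + b})
    (htrans : ∀ b : Fin d → ZMod p, ∃ g ∈ G, ∀ x, g x = x + b)
    (hsl : ∀ A : (Fin d → ZMod p) ≃ₗ[ZMod p] (Fin d → ZMod p),
      LinearMap.det (A : (Fin d → ZMod p) →ₗ[ZMod p] (Fin d → ZMod p)) = 1 →
        ∃ g ∈ G, ∀ x, g x = A x)
    (σ : Equiv.Perm (Fin d → ZMod p)) :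
    (∀ t : Fin 3 → (Fin d → ZMod p), ∃ g ∈ G, ∀ i, σ (t i) = g (t i)) ↔
      σ ∈ {τ : Equiv.Perm (Fin d → ZMod p) |
        ∃ (A : (Fin d → ZMod p) ≃ₗ[ZMod p] (Fin d → ZMod p)) (b : Fin d → ZMod p),
          ∀ x, τ x = A x + b} := by
  constructor
  · intro hσ
    apply affine_of_triples hp σ
    intro x y z
    obtain ⟨g, hg, hgi⟩ := hσ ![x, y, z]
    obtain ⟨A, b, hAb⟩ := haff hg
    have h0 : σ x = g x := hgi 0
    have h1 : σ y = g y := hgi 1
    have h2 : σ z = g z := hgi 2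
    refine ⟨A, b, ?_, ?_, ?_⟩
    · rw [h0, hAb]
    · rw [h1, hAb]
    · rw [h2, hAb]
  · rintro ⟨A, b, hσ⟩ t
    let W : Submodule (ZMod p) (Fin d → ZMod p) :=
      Submodule.span (ZMod p) {t 1 - t 0, t 2 - t 0}
    have hWlt : W < ⊤ := by
      rw [lt_top_iff_ne_top]; intro htop
      have h1 : Module.finrank (ZMod p) W ≤ 2 := by
        have h3 := finrank_span_finset_le_card (R := ZMod p)
          ({t 1 - t 0, t 2 - t 0} : Finset (Fin d → ZMod p))
        have hcard : ({t 1 - t 0, t 2 - t 0} : Finset (Fin d → ZMod p)).card ≤ 2 :=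
          Finset.card_le_two
        simp only [Finset.coe_insert, Finset.coe_singleton] at h3
        exact h3.trans hcard
      have h2 : Module.finrank (ZMod p) W = d := by
        rw [htop, finrank_top]; simp
      omega
    obtain ⟨f, hf0, hfW⟩ := Submodule.exists_le_ker_of_lt_top W hWlt
    obtain ⟨e, he⟩ : ∃ e, f e = 1 := by
      obtain ⟨e0, he0⟩ : ∃ e0, f e0 ≠ 0 := by
        by_contra hcon
        push Not at hcon
        exact hf0 (LinearMap.ext hcon)
      exact ⟨(f e0)⁻¹ • e0, by rw [map_smul, smul_eq_mul, inv_mul_cancel₀ he0]⟩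
    have hdetA : LinearMap.det (A : (Fin d → ZMod p) →ₗ[ZMod p] (Fin d → ZMod p)) ≠ 0 :=
      (LinearEquiv.isUnit_det' A).ne_zero
    obtain ⟨c, hc⟩ : ∃ c : ZMod p,
        c = (LinearMap.det (A : (Fin d → ZMod p) →ₗ[ZMod p] (Fin d → ZMod p)))⁻¹ := ⟨_, rfl⟩
    let D : (Fin d → ZMod p) →ₗ[ZMod p] (Fin d → ZMod p) :=
      LinearMap.transvection f ((c - 1) • e)
    have hDdet : LinearMap.det D = c := by
      show LinearMap.det (LinearMap.transvection f ((c - 1) • e)) = c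
      rw [LinearMap.transvection.det, map_smul, he, smul_eq_mul, mul_one]; ring
    have hDfix : ∀ w ∈ W, D w = w := by
      intro w hw
      have h1 : f w = 0 := hfW hw
      show w + f w • ((c - 1) • e) = w
      rw [h1, zero_smul, add_zero]
    have hBdet : LinearMap.det
        ((A : (Fin d → ZMod p) →ₗ[ZMod p] (Fin d → ZMod p)) ∘ₗ D) = 1 := by
      rw [LinearMap.det_comp, hDdet, hc, mul_inv_cancel₀ hdetA]
    let B : (Fin d → ZMod p) ≃ₗ[ZMod p] (Fin d → ZMod p) :=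
      LinearMap.equivOfDetNeZero
        ((A : (Fin d → ZMod p) →ₗ[ZMod p] (Fin d → ZMod p)) ∘ₗ D) (by rw [hBdet]; exact one_ne_zero)
    have hBcoe : (B : (Fin d → ZMod p) →ₗ[ZMod p] (Fin d → ZMod p)) =
        (A : (Fin d → ZMod p) →ₗ[ZMod p] (Fin d → ZMod p)) ∘ₗ D :=
      LinearEquiv.coe_ofIsUnitDet _
    have hBapp : ∀ x, B x = A (D x) := fun x => by
      have h1 := congrArg (fun φ => φ x) hBcoe
      exact h1
    obtain ⟨g1, hg1, hg1x⟩ := hsl B (by rw [hBcoe]; exact hBdet)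
    obtain ⟨g2, hg2, hg2x⟩ := htrans (A (t 0) + b - B (t 0))
    refine ⟨g2 * g1, G.mul_mem hg2 hg1, fun i => ?_⟩
    rw [hσ, Equiv.Perm.mul_apply, hg2x, hg1x]
    have hi : t i - t 0 ∈ W := by
      fin_cases i
      · simp
      · exact Submodule.subset_span (by simp)
      · exact Submodule.subset_span (by simp)
    have hBW : B (t i - t 0) = A (t i - t 0) := by
      rw [hBapp, hDfix _ hi]
    rw [map_sub, map_sub] at hBW
    have h5 : B (t i) = A (t i) - A (t 0) + B (t 0) := by rw [← hBW]; abel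
    rw [h5]; abel

theorem cases2 : ∀ x : Fin 2 → ZMod 2,
    x = 0 ∨ x = ![1, 0] ∨ x = ![0, 1] ∨ x = ![1, 0] + ![0, 1] := by decide

theorem ne2a : (0 : Fin 2 → ZMod 2) ≠ ![1, 0] + ![0, 1] := by decide

theorem ne2b : (![1, 0] : Fin 2 → ZMod 2) ≠ ![1, 0] + ![0, 1] := by decide

theorem ne2c : (![0, 1] : Fin 2 → ZMod 2) ≠ ![1, 0] + ![0, 1] := by decide

theorem plane_closed (p : ℕ) [Fact p.Prime] (G : Subgroup (Equiv.Perm (Fin 2 → ZMod p)))
    (haff : (G : Set (Equiv.Perm (Fin 2 → ZMod p))) ⊆ {τ : Equiv.Perm (Fin 2 → ZMod p) |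
      ∃ (A : (Fin 2 → ZMod p) ≃ₗ[ZMod p] (Fin 2 → ZMod p)) (b : Fin 2 → ZMod p),
        ∀ x, τ x = A x + b})
    (σ : Equiv.Perm (Fin 2 → ZMod p))
    (hσ : ∀ t : Fin 3 → (Fin 2 → ZMod p), ∃ g ∈ G, ∀ i, σ (t i) = g (t i)) : σ ∈ G := by
  obtain ⟨g, hg, hgi⟩ := hσ ![0, ![1, 0], ![0, 1]]
  have h0 : σ 0 = g 0 := hgi 0
  have h1 : σ ![1, 0] = g ![1, 0] := hgi 1
  have h2 : σ ![0, 1] = g ![0, 1] := hgi 2
  suffices hsg : σ = g by rw [hsg]; exact hg
  by_cases hp2 : p = 2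
  · subst hp2
    have hcases : ∀ x : Fin 2 → ZMod 2,
        x = 0 ∨ x = ![1, 0] ∨ x = ![0, 1] ∨ x = ![1, 0] + ![0, 1] := cases2
    apply Equiv.ext; intro x
    rcases hcases x with rfl | rfl | rfl | rfl
    · exact h0
    · exact h1
    · exact h2
    · obtain ⟨w, hw⟩ : ∃ w, g w = σ (![1, 0] + ![0, 1]) := g.surjective _
      rcases hcases w with rfl | rfl | rfl | rfl
      · exfalso
        rw [← h0] at hw
        exact ne2a (σ.injective hw)
      · exfalso
        rw [← h1] at hw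
        exact ne2b (σ.injective hw)
      · exfalso
        rw [← h2] at hw
        exact ne2c (σ.injective hw)
      · exact hw.symm
  · obtain ⟨A, b, hAb⟩ := affine_of_triples hp2 σ (fun x y z => by
      obtain ⟨g', hg', hgi'⟩ := hσ ![x, y, z]
      obtain ⟨A', b', hAb'⟩ := haff hg'
      exact ⟨A', b', by rw [show σ x = g' x from hgi' 0, hAb'],
        by rw [show σ y = g' y from hgi' 1, hAb'], by rw [show σ z = g' z from hgi' 2, hAb']⟩)
    obtain ⟨A', b', hAb'⟩ := haff hg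
    have hb : b = b' := by
      have h3 := h0
      rw [hAb, hAb', map_zero, map_zero, zero_add, zero_add] at h3
      exact h3
    have hA1 : A ![1, 0] = A' ![1, 0] := by
      have h3 := h1
      rw [hAb, hAb', hb] at h3
      exact add_right_cancel h3
    have hA2 : A ![0, 1] = A' ![0, 1] := by
      have h3 := h2
      rw [hAb, hAb', hb] at h3
      exact add_right_cancel h3
    apply Equiv.ext; intro x
    rw [hAb, hAb', hb]
    congr 1
    have hx : x = x 0 • ![1, 0] + x 1 • ![0, 1] := by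
      ext i; fin_cases i <;> simp
    rw [hx, map_add, map_add, map_smul, map_smul, map_smul, map_smul, hA1, hA2]

end Cfsg.Agent.Lib.Helper6.AffClos
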