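import Mathlib

namespace Cfsg.Agent.Lib.Helper6.AffSL2

universe u

@[ext]
structure Aff (k : ℕ) (F : Type u) [Field F] where
  v : Matrix (Fin 2) (Fin k) F
  a : Matrix.SpecialLinearGroup (Fin 2) F

variable {k : ℕ} {F : Type u} [Field F]

instance instGroupAff : Group (Aff k F) where
  mul x y := ⟨x.v + x.a.1 * y.v, x.a * y.a⟩
  one := ⟨0, 1⟩
  inv x := ⟨-((x.a⁻¹).1 * x.v), x.a⁻¹⟩
  mul_assoc x y z := by
    apply Aff.ext
    · show (x.v + x.a.1 * y.v) + (x.a * y.a).1 * z.v = x.v + x.a.1 * (y.v + y.a.1 * z.v)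
      rw [Matrix.SpecialLinearGroup.coe_mul, Matrix.mul_add, Matrix.mul_assoc, add_assoc]
    · exact mul_assoc _ _ _
  one_mul x := by
    apply Aff.ext
    · show (0 : Matrix (Fin 2) (Fin k) F) + (1 : Matrix.SpecialLinearGroup (Fin 2) F).1 * x.v = x.v
      rw [Matrix.SpecialLinearGroup.coe_one, Matrix.one_mul, zero_add]
    · exact one_mul _
  mul_one x := by
    apply Aff.ext
    · show x.v + x.a.1 * (0 : Matrix (Fin 2) (Fin k) F) = x.v
      rw [Matrix.mul_zero, add_zero]
    · exact mul_one _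
  inv_mul_cancel x := by
    apply Aff.ext
    · show -((x.a⁻¹).1 * x.v) + (x.a⁻¹).1 * x.v = 0
      exact neg_add_cancel _
    · exact inv_mul_cancel _

theorem mul_v (x y : Aff k F) : (x * y).v = x.v + x.a.1 * y.v := rfl
theorem mul_a (x y : Aff k F) : (x * y).a = x.a * y.a := rfl
theorem one_v : (1 : Aff k F).v = 0 := rfl
theorem one_a : (1 : Aff k F).a = 1 := rfl

def proj (k : ℕ) (F : Type u) [Field F] : Aff k F →* Matrix.SpecialLinearGroup (Fin 2) F where
  toFun := Aff.a
  map_one' := rfl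
  map_mul' _ _ := rfl

def incl (k : ℕ) (F : Type u) [Field F] : Matrix.SpecialLinearGroup (Fin 2) F →* Aff k F where
  toFun A := ⟨0, A⟩
  map_one' := rfl
  map_mul' A B := by
    apply Aff.ext
    · show (0 : Matrix (Fin 2) (Fin k) F) = 0 + A.1 * 0
      rw [Matrix.mul_zero, add_zero]
    · rfl

theorem incl_injective : Function.Injective (incl k F) := by
  intro A B h
  exact congrArg Aff.a h

theorem pow_a (x : Aff k F) (n : ℕ) : (x ^ n).a = x.a ^ n := map_pow (proj k F) x n

def equivProd (k : ℕ) (F : Type u) [Field F] :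
    Aff k F ≃ Matrix (Fin 2) (Fin k) F × Matrix.SpecialLinearGroup (Fin 2) F where
  toFun x := (x.v, x.a)
  invFun p := ⟨p.1, p.2⟩
  left_inv _ := rfl
  right_inv _ := rfl

instance instFiniteAff [Finite F] : Finite (Aff k F) := Finite.of_equiv _ (equivProd k F).symm

theorem card_eq [Finite F] : Nat.card (Aff k F) =
    ((Nat.card F) ^ k) ^ 2 * Nat.card (Matrix.SpecialLinearGroup (Fin 2) F) := by
  rw [Nat.card_congr (equivProd k F), Nat.card_prod]
  congr 1
  show Nat.card (Fin 2 → Fin k → F) = _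
  rw [Nat.card_fun, Nat.card_fun, Nat.card_fin, Nat.card_fin]

theorem exists_small (H₀ : Type u) [Group H₀] [Finite H₀] :
    ∃ (H : Type) (_ : Group H) (_ : Finite H), Nonempty (H ≃* H₀) := by
  let e := (Finite.equivFin H₀).symm
  exact ⟨Fin (Nat.card H₀), e.group, inferInstance, ⟨e.mulEquiv⟩⟩

section char2

variable [CharP F 2]

theorem sq_eq_one_of_trace (A : Matrix.SpecialLinearGroup (Fin 2) F) (h : A.1.trace = 0) :
    A ^ 2 = 1 := by
  have h2 : (2 : F) = 0 := CharTwo.two_eq_zero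
  have hdet := A.2
  rw [Matrix.det_fin_two] at hdet
  rw [Matrix.trace_fin_two] at h
  have h00 : (A.1 * A.1) 0 0 = 1 := by
    rw [Matrix.mul_apply, Fin.sum_univ_two]
    linear_combination (A.1 0 0) * h - hdet - h2
  have h01 : (A.1 * A.1) 0 1 = 0 := by
    rw [Matrix.mul_apply, Fin.sum_univ_two]
    linear_combination (A.1 0 1) * h
  have h10 : (A.1 * A.1) 1 0 = 0 := by
    rw [Matrix.mul_apply, Fin.sum_univ_two]
    linear_combination (A.1 1 0) * h
  have h11 : (A.1 * A.1) 1 1 = 1 := by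
    rw [Matrix.mul_apply, Fin.sum_univ_two]
    linear_combination (A.1 1 1) * h - hdet - h2
  apply Subtype.ext
  rw [Matrix.SpecialLinearGroup.coe_pow, Matrix.SpecialLinearGroup.coe_one, pow_two]
  ext i j
  fin_cases i <;> fin_cases j
  · simpa using h00
  · simpa using h01
  · simpa using h10
  · simpa using h11

theorem det_one_sub (A : Matrix.SpecialLinearGroup (Fin 2) F) :
    (1 - A.1).det = A.1.trace := by
  have h2 : (2 : F) = 0 := CharTwo.two_eq_zero
  have hdet := A.2
  rw [Matrix.det_fin_two] at hdet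
  have e01 : (1 : Matrix (Fin 2) (Fin 2) F) 0 1 = 0 := Matrix.one_apply_ne (by decide)
  have e10 : (1 : Matrix (Fin 2) (Fin 2) F) 1 0 = 0 := Matrix.one_apply_ne (by decide)
  rw [Matrix.det_fin_two, Matrix.trace_fin_two]
  simp only [Matrix.sub_apply, Matrix.one_apply_eq, e01, e10]
  linear_combination hdet + (1 - A.1 0 0 - A.1 1 1) * h2

theorem pow_order_sq (x : Aff k F) : (x ^ orderOf x.a) ^ 2 = 1 := by
  have ha : (x ^ orderOf x.a).a = 1 := by rw [pow_a, pow_orderOf_eq_one]
  apply Aff.ext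
  · rw [pow_two, mul_v, ha, one_v, Matrix.SpecialLinearGroup.coe_one, Matrix.one_mul]
    ext i j
    exact CharTwo.add_self_eq_zero _
  · rw [pow_two, mul_a, ha, one_mul, one_a]

theorem pow_order_eq_one (x : Aff k F) (ht : x.a.1.trace ≠ 0) : x ^ orderOf x.a = 1 := by
  have ha : (x ^ orderOf x.a).a = 1 := by rw [pow_a, pow_orderOf_eq_one]
  have hcomm : x * x ^ orderOf x.a = x ^ orderOf x.a * x := by rw [← pow_succ', ← pow_succ]
  have hv := congrArg Aff.v hcomm
  rw [mul_v, mul_v, ha, Matrix.SpecialLinearGroup.coe_one, Matrix.one_mul] at hv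
  have h0 : x.a.1 * (x ^ orderOf x.a).v = (x ^ orderOf x.a).v := by
    rw [add_comm] at hv
    exact add_right_cancel hv
  have h1 : (1 - x.a.1) * (x ^ orderOf x.a).v = 0 := by
    rw [Matrix.sub_mul, Matrix.one_mul, h0, sub_self]
  have hdet : IsUnit (1 - x.a.1).det := by
    rw [det_one_sub]; exact isUnit_iff_ne_zero.mpr ht
  have h2 : (x ^ orderOf x.a).v = 0 := by
    have h3 : (1 - x.a.1)⁻¹ * ((1 - x.a.1) * (x ^ orderOf x.a).v) =
        (1 - x.a.1)⁻¹ * (0 : Matrix (Fin 2) (Fin k) F) := by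
      rw [h1]
    rw [← Matrix.mul_assoc, Matrix.nonsing_inv_mul _ hdet, Matrix.one_mul, Matrix.mul_zero] at h3
    exact h3
  apply Aff.ext
  · rw [h2, one_v]
  · rw [ha, one_a]

theorem orderOf_a (x : Aff k F) (p q : ℕ) (hp : p.Prime) (hq : q.Prime) (hpq : p ≠ q)
    (hx : orderOf x = p * q) : orderOf x.a = p * q := by
  have hpq0 : p * q ≠ 0 := Nat.mul_ne_zero hp.ne_zero hq.ne_zero
  have hr : orderOf x.a ∣ p * q := by
    apply orderOf_dvd_of_pow_eq_one
    rw [← pow_a, ← hx, pow_orderOf_eq_one, one_a]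
  have h2r : p * q ∣ orderOf x.a * 2 := by
    rw [← hx]
    apply orderOf_dvd_of_pow_eq_one
    rw [pow_mul]; exact pow_order_sq x
  obtain ⟨m, hm⟩ := hr
  have hr0 : orderOf x.a ≠ 0 := by
    intro h; rw [h, zero_mul] at hm; exact hpq0 hm
  rw [hm] at h2r
  have hm2 : m ∣ 2 := Nat.dvd_of_mul_dvd_mul_left (Nat.pos_of_ne_zero hr0) h2r
  rcases (Nat.dvd_prime Nat.prime_two).mp hm2 with rfl | rfl
  · rw [hm, mul_one]
  · exfalso
    have ht : x.a.1.trace ≠ 0 := by
      intro ht
      have hsq := sq_eq_one_of_trace x.a ht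
      have hd : orderOf x.a ∣ 2 := orderOf_dvd_of_pow_eq_one hsq
      have hle : orderOf x.a ≤ 2 := Nat.le_of_dvd (by norm_num) hd
      have h4 : p * q ≤ 4 := by omega
      have hp2 := hp.two_le
      have hq2 := hq.two_le
      have hp' : p ≤ 2 := by
        by_contra hcon
        have hcon' : 3 ≤ p := by omega
        nlinarith
      have hq' : q ≤ 2 := by
        by_contra hcon
        have hcon' : 3 ≤ q := by omega
        nlinarith
      omega
    have h1 := pow_order_eq_one x ht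
    have hd : p * q ∣ orderOf x.a := by
      rw [← hx]; exact orderOf_dvd_of_pow_eq_one h1
    rw [hm] at hd
    have := Nat.le_of_dvd (Nat.pos_of_ne_zero hr0) hd
    omega

theorem center_eq_bot : Subgroup.center (Matrix.SpecialLinearGroup (Fin 2) F) = ⊥ := by
  rw [eq_bot_iff]
  intro A hA
  rw [Matrix.SpecialLinearGroup.mem_center_iff] at hA
  obtain ⟨r, hr, hA⟩ := hA
  rw [Fintype.card_fin] at hr
  have hr1 : r = 1 := by
    have h2 : (2 : F) = 0 := CharTwo.two_eq_zero
    have h3 : (r - 1) ^ 2 = 0 := by linear_combination hr - r * h2 + h2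
    exact sub_eq_zero.mp (pow_eq_zero_iff (by norm_num) |>.mp h3)
  rw [Subgroup.mem_bot]
  apply Subtype.ext
  rw [← hA, hr1]
  simp

noncomputable def pslEquiv (F : Type u) [Field F] [CharP F 2] :
    Matrix.SpecialLinearGroup (Fin 2) F ≃* Matrix.ProjectiveSpecialLinearGroup (Fin 2) F :=
  MulEquiv.ofBijective (QuotientGroup.mk' _)
    ⟨by rw [← MonoidHom.ker_eq_bot_iff, QuotientGroup.ker_mk', center_eq_bot],
      QuotientGroup.mk'_surjective _⟩

theorem two_dvd_card [Finite F] : 2 ∣ Nat.card (Matrix.SpecialLinearGroup (Fin 2) F) := by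
  let u : Matrix.SpecialLinearGroup (Fin 2) F := ⟨!![1, 1; 0, 1], by simp [Matrix.det_fin_two]⟩
  have hu : orderOf u = 2 := by
    apply orderOf_eq_prime
    · apply Subtype.ext
      rw [Matrix.SpecialLinearGroup.coe_pow, Matrix.SpecialLinearGroup.coe_one, pow_two]
      show !![1, 1; 0, 1] * !![1, 1; 0, 1] = (1 : Matrix (Fin 2) (Fin 2) F)
      rw [Matrix.mul_fin_two, Matrix.one_fin_two]
      simp [CharTwo.add_self_eq_zero]
    · intro h
      have h3 := congrArg (fun M : Matrix.SpecialLinearGroup (Fin 2) F => M.1 0 1) h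
      simp [u] at h3
  have h4 := orderOf_dvd_natCard u
  rwa [hu] at h4

theorem main (F : Type u) [Field F] [Fintype F] [CharP F 2] (N : ℕ) :
    ∃ (H : Type) (_ : Group H) (_ : Finite H), N < Nat.card H ∧
      (∀ p : ℕ, p.Prime →
        (p ∣ Nat.card (Matrix.SpecialLinearGroup (Fin 2) F) ↔ p ∣ Nat.card H)) ∧
      (∀ p q : ℕ, p.Prime → q.Prime → p ≠ q →
        ((∃ g : Matrix.SpecialLinearGroup (Fin 2) F, orderOf g = p * q) ↔
          (∃ g : H, orderOf g = p * q))) := by
  obtain ⟨H, iG, iF, ⟨e⟩⟩ := exists_small (Aff N F)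
  obtain ⟨f, -, hf⟩ := FiniteField.card F 2
  have hcard : Nat.card H = 2 ^ ((f : ℕ) * (N * 2)) *
      Nat.card (Matrix.SpecialLinearGroup (Fin 2) F) := by
    rw [Nat.card_congr e.toEquiv, card_eq, Nat.card_eq_fintype_card, hf, ← pow_mul, ← pow_mul]
  have hs : 0 < Nat.card (Matrix.SpecialLinearGroup (Fin 2) F) := Nat.card_pos
  refine ⟨H, iG, iF, ?_, ?_, ?_⟩
  · rw [hcard]
    have h1 : N < 2 ^ N := Nat.lt_two_pow_self
    have h2 : 2 ^ N ≤ 2 ^ ((f : ℕ) * (N * 2)) := by
      apply Nat.pow_le_pow_right (by norm_num)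
      have := f.pos
      nlinarith
    have h3 : 2 ^ ((f : ℕ) * (N * 2)) ≤ 2 ^ ((f : ℕ) * (N * 2)) *
        Nat.card (Matrix.SpecialLinearGroup (Fin 2) F) := Nat.le_mul_of_pos_right _ hs
    omega
  · intro p hp
    rw [hcard]
    constructor
    · intro h
      exact h.mul_left _
    · intro h
      rcases (Nat.Prime.dvd_mul hp).mp h with h | h
      · have h2 := (Nat.prime_dvd_prime_iff_eq hp Nat.prime_two).mp (hp.dvd_of_dvd_pow h)
        rw [h2]
        exact two_dvd_card
      · exact h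
  · intro p q hp hq hpq
    constructor
    · rintro ⟨g, hg⟩
      refine ⟨e.symm (incl N F g), ?_⟩
      rw [MulEquiv.orderOf_eq, orderOf_injective (incl N F) incl_injective, hg]
    · rintro ⟨g, hg⟩
      refine ⟨(e g).a, orderOf_a (e g) p q hp hq hpq ?_⟩
      rw [MulEquiv.orderOf_eq]
      exact hg

end char2

end Cfsg.Agent.Lib.Helper6.AffSL2
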