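import Mathlib

set_option autoImplicit false

namespace Cfsg.Agent.Lib.Helper6.PolyFun

open Polynomial

section
variable (p : ℕ) [Fact p.Prime] (K : Type*) [Field K] [CharP K p]

/-- Evaluation of a polynomial at the points of `ZMod p`. -/
noncomputable def ev : K[X] →ₗ[K] (ZMod p → K) where
  toFun P := fun j => P.eval (ZMod.cast j : K)
  map_add' P Q := by ext j; simp
  map_smul' a P := by ext j; simp

/-- The shift `f ↦ f (· - 1)`. -/
def sh : (ZMod p → K) →ₗ[K] (ZMod p → K) where
  toFun f := fun j => f (j - 1)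
  map_add' f g := rfl
  map_smul' a f := rfl

/-- The difference operator. -/
def D : (ZMod p → K) →ₗ[K] (ZMod p → K) := sh p K - LinearMap.id

theorem cast_inj : Function.Injective (ZMod.cast : ZMod p → K) := by
  intro a b h
  have h1 := (ZMod.castHom (dvd_refl p) K).injective
  exact h1 (by simpa using h)

theorem cast_sub_one (j : ZMod p) : (ZMod.cast (j - 1) : K) = ZMod.cast j - 1 := by
  have h := map_sub (ZMod.castHom (dvd_refl p) K) j 1
  simpa using h

theorem ev_apply (P : K[X]) (j : ZMod p) : ev p K P j = P.eval (ZMod.cast j : K) := rfl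

theorem sh_ev (P : K[X]) : sh p K (ev p K P) = ev p K (P.comp (X - C 1)) := by
  ext j
  show P.eval (ZMod.cast (j - 1) : K) = (P.comp (X - C 1)).eval (ZMod.cast j : K)
  rw [cast_sub_one, eval_comp]; simp

theorem ev_injOn (P : K[X]) (hP : P.degree < p) (h : ev p K P = 0) : P = 0 := by
  by_cases hP0 : P = 0
  · exact hP0
  apply eq_zero_of_natDegree_lt_card_of_eval_eq_zero P (cast_inj p K)
  · intro j; exact congrFun h j
  · rw [ZMod.card]; exact (natDegree_lt_iff_degree_lt hP0).mpr hP

/-- Polynomial functions of degree `< r`. -/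
noncomputable def PF (r : ℕ) : Submodule K (ZMod p → K) := (degreeLT K r).map (ev p K)

theorem mem_PF (r : ℕ) (f : ZMod p → K) :
    f ∈ PF p K r ↔ ∃ P : K[X], P.degree < r ∧ ∀ j : ZMod p, f j = P.eval (ZMod.cast j : K) := by
  constructor
  · rintro ⟨P, hP, rfl⟩
    exact ⟨P, mem_degreeLT.mp hP, fun j => rfl⟩
  · rintro ⟨P, hP, hf⟩
    exact ⟨P, mem_degreeLT.mpr hP, by ext j; exact (hf j).symm⟩

theorem finrank_PF (r : ℕ) (hr : r ≤ p) : Module.finrank K (PF p K r) = r := by
  have h1 : PF p K r = LinearMap.range ((ev p K).comp (degreeLT K r).subtype) := by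
    rw [LinearMap.range_comp, Submodule.range_subtype]; rfl
  rw [h1, LinearMap.finrank_range_of_inj]
  · rw [LinearEquiv.finrank_eq (degreeLTEquiv K r)]; simp
  · intro ⟨P, hP⟩ ⟨Q, hQ⟩ h
    apply Subtype.ext
    have h2 : ev p K (P - Q) = 0 := by rw [map_sub]; exact sub_eq_zero.mpr h
    have h3 : (P - Q).degree < p :=
      lt_of_lt_of_le (mem_degreeLT.mp ((degreeLT K r).sub_mem hP hQ)) (by exact_mod_cast hr)
    exact sub_eq_zero.mp (ev_injOn p K _ h3 h2)

theorem D_PF (r : ℕ) (f : ZMod p → K) (hf : f ∈ PF p K (r + 1)) : D p K f ∈ PF p K r := by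
  obtain ⟨P, hP, rfl⟩ := hf
  have hP' : P.degree < (r + 1 : ℕ) := mem_degreeLT.mp hP
  refine ⟨P.comp (X - C 1) - P, ?_, ?_⟩
  · rw [SetLike.mem_coe, mem_degreeLT]
    by_cases hQ0 : P.comp (X - C 1) - P = 0
    · rw [hQ0, degree_zero]; exact WithBot.bot_lt_coe _
    · have hP0 : P ≠ 0 := by
        intro h0; apply hQ0; rw [h0]; simp
      have hlc : (P.comp (X - C 1)).leadingCoeff = P.leadingCoeff := by
        rw [leadingCoeff_comp (by rw [natDegree_X_sub_C]; exact one_ne_zero), leadingCoeff_X_sub_C,
          one_pow, mul_one]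
      have hc0 : P.comp (X - C 1) ≠ 0 := by
        intro h0
        rw [h0, leadingCoeff_zero] at hlc
        exact hP0 (leadingCoeff_eq_zero.mp hlc.symm)
      have hd : (P.comp (X - C 1)).degree = P.degree := by
        rw [degree_eq_natDegree hc0, degree_eq_natDegree hP0, natDegree_comp, natDegree_X_sub_C,
          mul_one]
      have h1 := degree_sub_lt_left hd hc0 hlc
      rw [hd] at h1
      have h2 : (P.comp (X - C 1) - P).natDegree < P.natDegree := natDegree_lt_natDegree hQ0 h1
      have h3 : P.natDegree < r + 1 := (natDegree_lt_iff_degree_lt hP0).mpr hP'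
      exact (natDegree_lt_iff_degree_lt hQ0).mp (by omega)
  · show ev p K (P.comp (X - C 1) - P) = D p K (ev p K P)
    rw [map_sub, ← sh_ev]; rfl

theorem ker_D_le : LinearMap.ker (D p K) ≤ Submodule.span K {(fun _ => (1:K))} := by
  intro f hf
  have h1 : ∀ j : ZMod p, f (j - 1) = f j := fun j => by
    have h0 : f (j - 1) - f j = 0 := congrFun (LinearMap.mem_ker.mp hf) j
    exact sub_eq_zero.mp h0
  have h2 : ∀ n : ℕ, f (-(n : ZMod p)) = f 0 := by
    intro n
    induction n with
    | zero => simp
    | succ n ih =>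
      rw [← ih]
      have h3 := h1 (-(n : ZMod p))
      rw [← h3]; congr 1; push_cast; ring
  have h3 : ∀ j : ZMod p, f j = f 0 := by
    intro j
    have h4 := h2 (-j).val
    rwa [ZMod.natCast_zmod_val, neg_neg] at h4
  rw [Submodule.mem_span_singleton]
  exact ⟨f 0, by ext j; simp [h3 j]⟩

theorem finrank_ker_D_le : Module.finrank K (LinearMap.ker (D p K)) ≤ 1 := by
  refine (Submodule.finrank_mono (ker_D_le p K)).trans ?_
  rw [finrank_span_singleton]
  intro h
  have h1 := congrFun h 0
  simp at h1

theorem finrank_ker_pow_le (k : ℕ) : Module.finrank K (LinearMap.ker ((D p K)^k)) ≤ k := by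
  induction k with
  | zero => simp [Module.End.one_eq_id]
  | succ k ih =>
    have h1 := LinearMap.finrank_range_add_finrank_ker
      (((D p K)^k).comp (LinearMap.ker ((D p K)^(k+1))).subtype)
    have h2 : Module.finrank K (LinearMap.range
        (((D p K)^k).comp (LinearMap.ker ((D p K)^(k+1))).subtype)) ≤ 1 := by
      have h4 : LinearMap.range (((D p K)^k).comp (LinearMap.ker ((D p K)^(k+1))).subtype)
          ≤ LinearMap.ker (D p K) := by
        rintro _ ⟨⟨x, hx⟩, rfl⟩
        rw [LinearMap.mem_ker]
        show D p K (((D p K)^k) x) = 0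
        rw [← Module.End.mul_apply, ← pow_succ']
        exact LinearMap.mem_ker.mp hx
      exact (Submodule.finrank_mono h4).trans (finrank_ker_D_le p K)
    have h3 : Module.finrank K (LinearMap.ker
        (((D p K)^k).comp (LinearMap.ker ((D p K)^(k+1))).subtype)) ≤ k := by
      have h4 : (LinearMap.ker (((D p K)^k).comp
          (LinearMap.ker ((D p K)^(k+1))).subtype)).map (LinearMap.ker ((D p K)^(k+1))).subtype
          ≤ LinearMap.ker ((D p K)^k) := by
        rintro _ ⟨x, hx, rfl⟩
        exact hx
      rw [← Submodule.finrank_map_subtype_eq]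
      exact (Submodule.finrank_mono h4).trans ih
    omega

theorem PF_le_ker (r : ℕ) : PF p K r ≤ LinearMap.ker ((D p K)^r) := by
  induction r with
  | zero =>
    intro f hf
    obtain ⟨P, hP, rfl⟩ := hf
    have h1 : P.degree < (0 : ℕ) := mem_degreeLT.mp hP
    have h2 : P = 0 := by
      by_contra h0
      have h3 := (natDegree_lt_iff_degree_lt h0).mpr h1
      omega
    rw [h2]; simp
  | succ r ih =>
    intro f hf
    rw [LinearMap.mem_ker, pow_succ, Module.End.mul_apply]
    exact LinearMap.mem_ker.mp (ih (D_PF p K r f hf))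

theorem ker_eq_PF (r : ℕ) (hr : r ≤ p) : LinearMap.ker ((D p K)^r) = PF p K r :=
  (Submodule.eq_of_le_of_finrank_le (PF_le_ker p K r)
    (by rw [finrank_PF p K r hr]; exact finrank_ker_pow_le p K r)).symm

theorem main (W : Submodule K (ZMod p → K)) (hW : ∀ f ∈ W, (fun j => f (j - 1)) ∈ W) :
    ∃ r : ℕ, r ≤ p ∧ Module.finrank K W = r ∧ W = PF p K r := by
  have hDW : ∀ f ∈ W, D p K f ∈ W := fun f hf => W.sub_mem (hW f hf) hf
  have hDkW : ∀ (k : ℕ) (f : ZMod p → K), f ∈ W → ((D p K)^k) f ∈ W := by
    intro k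
    induction k with
    | zero => intro f hf; simpa using hf
    | succ k ih => intro f hf; rw [pow_succ', Module.End.mul_apply]; exact hDW _ (ih f hf)
  have htop : LinearMap.ker ((D p K)^p) = ⊤ := by
    rw [ker_eq_PF p K p le_rfl]
    apply Submodule.eq_top_of_finrank_eq
    rw [finrank_PF p K p le_rfl]; simp
  have hex : ∃ s, W ≤ LinearMap.ker ((D p K)^s) := ⟨p, by rw [htop]; exact le_top⟩
  classical
  obtain ⟨s, hs, hsmin⟩ : ∃ s, W ≤ LinearMap.ker ((D p K)^s) ∧
      ∀ m, m < s → ¬ W ≤ LinearMap.ker ((D p K)^m) :=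
    ⟨Nat.find hex, Nat.find_spec hex, fun m hm => Nat.find_min hex hm⟩
  have hsp : s ≤ p := by
    by_contra hlt
    exact hsmin p (by omega) (by rw [htop]; exact le_top)
  have hge : s ≤ Module.finrank K W := by
    rcases Nat.eq_zero_or_pos s with h0 | hpos
    · omega
    · have hmin : ¬ W ≤ LinearMap.ker ((D p K)^(s-1)) := hsmin (s - 1) (by omega)
      obtain ⟨f, hfW, hf⟩ := SetLike.not_le_iff_exists.mp hmin
      have hchain : ∀ k, k ≤ s →
          k ≤ Module.finrank K ↥(W ⊓ LinearMap.ker ((D p K)^k)) := by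
        intro k
        induction k with
        | zero => intro _; exact Nat.zero_le _
        | succ k ih =>
          intro hk
          have hlt : W ⊓ LinearMap.ker ((D p K)^k) < W ⊓ LinearMap.ker ((D p K)^(k+1)) := by
            refine lt_of_le_of_ne ?_ ?_
            · exact inf_le_inf_left W (fun x hx => by
                rw [LinearMap.mem_ker] at hx ⊢
                rw [pow_succ', Module.End.mul_apply, hx, map_zero])
            · intro heq
              have hg : ((D p K)^(s-1-k)) f ∈ W ⊓ LinearMap.ker ((D p K)^(k+1)) := by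
                refine Submodule.mem_inf.mpr ⟨hDkW _ f hfW, ?_⟩
                rw [LinearMap.mem_ker, ← Module.End.mul_apply, ← pow_add,
                  show k + 1 + (s - 1 - k) = s by omega]
                exact LinearMap.mem_ker.mp (hs hfW)
              rw [← heq] at hg
              have h5 := LinearMap.mem_ker.mp (Submodule.mem_inf.mp hg).2
              rw [← Module.End.mul_apply, ← pow_add, show k + (s - 1 - k) = s - 1 by omega] at h5
              exact hf (LinearMap.mem_ker.mpr h5)
          have h6 := Submodule.finrank_lt_finrank_of_lt hlt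
          have h7 := ih (by omega)
          omega
      exact (hchain s le_rfl).trans (Submodule.finrank_mono inf_le_left)
  have hle : Module.finrank K W ≤ s :=
    (Submodule.finrank_mono hs).trans (finrank_ker_pow_le p K s)
  have hWs : Module.finrank K W = s := le_antisymm hle hge
  refine ⟨s, hsp, hWs, ?_⟩
  rw [← ker_eq_PF p K s hsp]
  exact Submodule.eq_of_le_of_finrank_le hs ((finrank_ker_pow_le p K s).trans hge)

end

end Cfsg.Agent.Lib.Helper6.PolyFun
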