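import Mathlib
import Cfsg.Agent.Lib.Helper6.PolyFun

set_option autoImplicit false

namespace Cfsg.Agent.Lib.Helper6.Agl1

open Polynomial Cfsg.Agent.Lib.Helper6.PolyFun

theorem affine_of_pow_diff (p : ℕ) [Fact p.Prime] (σ : ZMod p → ZMod p) (d : ℕ) (hd1 : 1 ≤ d)
    (hd2 : 2 * d ≤ p - 1) (h : ∀ x y : ZMod p, (σ x - σ y)^d = (x - y)^d) :
    ∃ e₁ e₀ : ZMod p, ∀ x, σ x = e₁ * x + e₀ := by
  have hp2 : 2 ≤ p := (Fact.out : p.Prime).two_le
  obtain ⟨b, hb⟩ : ∃ b : Fin (d+1) → (ZMod p → ZMod p), b = fun (k : Fin (d+1)) (x : ZMod p) => (σ x)^k.val := ⟨_, rfl⟩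
  obtain ⟨c, hc⟩ : ∃ c : ZMod p → (ZMod p → ZMod p), c = fun y x => (x - y)^d := ⟨_, rfl⟩
  have hU'U : Submodule.span (ZMod p) (Set.range c) ≤ Submodule.span (ZMod p) (Set.range b) := by
    rw [Submodule.span_le]
    rintro _ ⟨y, rfl⟩
    have hexp : c y = ∑ k : Fin (d+1), ((-σ y)^(d - (k:ℕ)) * (d.choose k : ZMod p)) • b k := by
      ext x
      rw [hc, hb]
      show (x - y)^d = _
      rw [← h x y, sub_eq_add_neg, add_pow, Finset.sum_apply,
        ← Fin.sum_univ_eq_sum_range (fun m => (σ x)^m * (-σ y)^(d - m) * (d.choose m : ZMod p))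
          (d+1)]
      refine Finset.sum_congr rfl (fun k _ => ?_)
      show _ = ((-σ y)^(d - (k:ℕ)) * (d.choose k : ZMod p)) * (σ x)^(k:ℕ)
      ring
    rw [hexp]
    exact Submodule.sum_mem _ (fun k _ => Submodule.smul_mem _ _ (Submodule.subset_span ⟨k, rfl⟩))
  have hU'sh : ∀ f ∈ Submodule.span (ZMod p) (Set.range c),
      (fun j => f (j - 1)) ∈ Submodule.span (ZMod p) (Set.range c) := by
    intro f hf
    have h1 : (Submodule.span (ZMod p) (Set.range c)).map (sh p (ZMod p)) ≤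
        Submodule.span (ZMod p) (Set.range c) := by
      rw [Submodule.map_span_le]
      rintro _ ⟨y, rfl⟩
      apply Submodule.subset_span
      refine ⟨y + 1, ?_⟩
      ext x
      rw [hc]
      show (x - (y + 1))^d = (x - 1 - y)^d
      ring
    exact h1 ⟨f, hf, rfl⟩
  obtain ⟨r, hr, hfr, hUr⟩ := PolyFun.main p (ZMod p) _ hU'sh
  have hdr : d < r := by
    have h0 : c 0 ∈ Submodule.span (ZMod p) (Set.range c) := Submodule.subset_span ⟨0, rfl⟩
    rw [hUr, mem_PF] at h0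
    obtain ⟨P, hP, hPe⟩ := h0
    have hPn : P.natDegree < p := by
      by_cases hP0 : P = 0
      · rw [hP0]; simp; omega
      · have h1 := (natDegree_lt_iff_degree_lt hP0).mpr hP
        omega
    have hXP : (X : (ZMod p)[X])^d = P := by
      apply eq_of_natDegree_lt_card_of_eval_eq _ _ (f := (id : ZMod p → ZMod p))
        Function.injective_id
      · intro j
        have h1 := hPe j
        rw [ZMod.cast_id] at h1
        rw [hc] at h1
        simp only [id, eval_pow, eval_X]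
        rw [← h1]
        show j^d = (j - 0)^d
        rw [sub_zero]
      · rw [ZMod.card, natDegree_X_pow]
        exact max_lt (by omega) hPn
    rw [← hXP, degree_X_pow] at hP
    exact_mod_cast hP
  have hPFU : PF p (ZMod p) (d+1) ≤ Submodule.span (ZMod p) (Set.range b) := by
    refine le_trans ?_ hU'U
    rw [hUr]
    exact Submodule.map_mono (degreeLT_mono (by omega))
  have hUfr : Module.finrank (ZMod p) (Submodule.span (ZMod p) (Set.range b)) ≤ d + 1 := by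
    have h1 := finrank_range_le_card (R := ZMod p) b
    simpa [Set.finrank] using h1
  have hPFeq : PF p (ZMod p) (d+1) = Submodule.span (ZMod p) (Set.range b) :=
    Submodule.eq_of_le_of_finrank_le hPFU
      (by rw [finrank_PF p (ZMod p) (d+1) (by omega)]; exact hUfr)
  have hQ : ∀ k : ℕ, k ≤ d → ∃ Q : (ZMod p)[X], Q.natDegree ≤ d ∧
      ∀ j : ZMod p, (σ j)^k = Q.eval j := by
    intro k hk
    have hmem : b ⟨k, by omega⟩ ∈ PF p (ZMod p) (d+1) := by
      rw [hPFeq]; exact Submodule.subset_span ⟨_, rfl⟩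
    rw [mem_PF] at hmem
    obtain ⟨Q, hQd, hQe⟩ := hmem
    refine ⟨Q, ?_, fun j => ?_⟩
    · by_cases hQ0 : Q = 0
      · rw [hQ0]; simp
      · have h1 := (natDegree_lt_iff_degree_lt hQ0).mpr hQd
        omega
    · have h1 := hQe j
      rw [ZMod.cast_id, hb] at h1
      exact h1
  obtain ⟨P, hPd, hPe⟩ := hQ 1 hd1
  have hPe' : ∀ j, σ j = P.eval j := fun j => by
    have h1 := hPe j
    rwa [pow_one] at h1
  have he : P.natDegree ≤ 1 := by
    by_contra hcon
    have he2 : 2 ≤ P.natDegree := by omega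
    obtain ⟨e, he_def⟩ : ∃ e, e = P.natDegree := ⟨_, rfl⟩
    rw [← he_def] at he2 hPd
    have hk1 : d / e + 1 ≤ d := by
      have h1 : d / e ≤ d / 2 := Nat.div_le_div_left he2 (by norm_num)
      omega
    have hk2 : d < (d / e + 1) * e := by
      have h1 := Nat.div_add_mod d e
      have h2 := Nat.mod_lt d (show 0 < e by omega)
      nlinarith
    have hk3 : (d / e + 1) * e ≤ 2 * d := by
      have h1 := Nat.div_mul_le_self d e
      nlinarith
    obtain ⟨Q, hQd, hQe⟩ := hQ (d / e + 1) hk1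
    have hPQ : P^(d / e + 1) = Q := by
      apply eq_of_natDegree_lt_card_of_eval_eq _ _ (f := (id : ZMod p → ZMod p))
        Function.injective_id
      · intro j
        simp only [id]
        rw [eval_pow, ← hPe' j, hQe j]
      · rw [ZMod.card, natDegree_pow, ← he_def]
        exact max_lt (by omega) (by omega)
    have h3 : (P^(d / e + 1)).natDegree = (d / e + 1) * e := by
      rw [natDegree_pow, ← he_def]
    rw [hPQ] at h3
    omega
  have hP1 := eq_X_add_C_of_natDegree_le_one he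
  refine ⟨P.coeff 1, P.coeff 0, fun x => ?_⟩
  rw [hPe' x]
  conv_lhs => rw [hP1]
  simp

theorem two_closed (p : ℕ) [Fact p.Prime] (G : Subgroup (Equiv.Perm (ZMod p)))
    (hG : ∀ g ∈ G, ∃ a : (ZMod p)ˣ, ∃ b : ZMod p, ∀ x, g x = (a : ZMod p) * x + b)
    (htrans : ∀ b : ZMod p, ∃ g ∈ G, ∀ x, g x = x + b)
    (hne : ∃ σ : Equiv.Perm (ZMod p),
      (∃ a : (ZMod p)ˣ, ∃ b : ZMod p, ∀ x, σ x = (a : ZMod p) * x + b) ∧ σ ∉ G)
    (σ : Equiv.Perm (ZMod p)) (hσ : ∀ x y : ZMod p, ∃ g ∈ G, σ x = g x ∧ σ y = g y) : σ ∈ G := by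
  obtain ⟨A, hA⟩ : ∃ A : Subgroup (ZMod p)ˣ,
      A = G.comap (MulAction.toPermHom (ZMod p)ˣ (ZMod p)) := ⟨_, rfl⟩
  have hAmem : ∀ u : (ZMod p)ˣ, u ∈ A ↔ MulAction.toPermHom (ZMod p)ˣ (ZMod p) u ∈ G :=
    fun u => by rw [hA]; exact Iff.rfl
  have hperm : ∀ (u : (ZMod p)ˣ) (x : ZMod p),
      MulAction.toPermHom (ZMod p)ˣ (ZMod p) u x = (u : ZMod p) * x := fun u x => rfl
  have K1 : ∀ g ∈ G, ∃ u ∈ A, ∃ b : ZMod p, ∀ x, g x = (u : ZMod p) * x + b := by
    intro g hg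
    obtain ⟨u, b, hub⟩ := hG g hg
    obtain ⟨τ, hτ, hτx⟩ := htrans (-b)
    refine ⟨u, ?_, b, hub⟩
    rw [hAmem]
    have h1 : MulAction.toPermHom (ZMod p)ˣ (ZMod p) u = τ * g := by
      apply Equiv.ext; intro x
      rw [hperm, Equiv.Perm.mul_apply, hτx, hub]; ring
    rw [h1]; exact G.mul_mem hτ hg
  have K2 : A ≠ ⊤ := by
    intro htop
    obtain ⟨σ', ⟨u, b, hub⟩, hσ'⟩ := hne
    apply hσ'
    obtain ⟨τ, hτ, hτx⟩ := htrans b
    have hu : MulAction.toPermHom (ZMod p)ˣ (ZMod p) u ∈ G :=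
      (hAmem u).mp (by rw [htop]; exact Subgroup.mem_top u)
    have h1 : σ' = τ * MulAction.toPermHom (ZMod p)ˣ (ZMod p) u := by
      apply Equiv.ext; intro x
      rw [Equiv.Perm.mul_apply, hτx, hperm, hub]
    rw [h1]; exact G.mul_mem hτ hu
  obtain ⟨d, hd⟩ : ∃ d, d = Nat.card A := ⟨_, rfl⟩
  have hcardU : Nat.card (ZMod p)ˣ = p - 1 := by
    rw [Nat.card_eq_fintype_card, ZMod.card_units]
  have hd_dvd : d ∣ p - 1 := by rw [hd, ← hcardU]; exact Subgroup.card_subgroup_dvd_card A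
  have hd_ne : d ≠ p - 1 := by
    intro h; apply K2
    exact Subgroup.eq_top_of_card_eq A (by rw [← hd, h, hcardU])
  have hp2 : 2 ≤ p := (Fact.out : p.Prime).two_le
  have hd1 : 1 ≤ d := by rw [hd]; exact Nat.card_pos
  have hd2 : 2 * d ≤ p - 1 := by
    obtain ⟨k, hk⟩ := hd_dvd
    have hk2 : 2 ≤ k := by
      rcases Nat.lt_or_ge k 2 with h | h
      · interval_cases k
        · omega
        · exfalso; apply hd_ne; omega
      · exact h
    calc 2 * d ≤ k * d := Nat.mul_le_mul_right d hk2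
      _ = p - 1 := by rw [hk, mul_comm]
  have hpow : ∀ u ∈ A, (u : ZMod p)^d = 1 := by
    intro u hu
    have h1 : (⟨u, hu⟩ : A)^(Nat.card A) = 1 := pow_card_eq_one'
    have h2 : u^d = 1 := by rw [hd]; exact congrArg Subtype.val h1
    rw [← Units.val_pow_eq_pow_val, h2, Units.val_one]
  have hkey : ∀ x y : ZMod p, (σ x - σ y)^d = (x - y)^d := by
    intro x y
    obtain ⟨g, hg, hx, hy⟩ := hσ x y
    obtain ⟨u, hu, b, hub⟩ := K1 g hg
    rw [hx, hy, hub, hub]
    have h1 : (u : ZMod p) * x + b - ((u : ZMod p) * y + b) = (u : ZMod p) * (x - y) := by ring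
    rw [h1, mul_pow, hpow u hu, one_mul]
  obtain ⟨e₁, e₀, he⟩ := affine_of_pow_diff p σ d hd1 hd2 hkey
  obtain ⟨g, hg, h0, h1⟩ := hσ 0 1
  obtain ⟨u, b, hub⟩ := hG g hg
  have hsg : σ = g := by
    apply Equiv.ext; intro x
    rw [he x, hub x]
    have hb : e₀ = b := by
      have h3 := h0
      rw [he, hub] at h3
      simpa using h3
    have hu' : e₁ = u := by
      have h3 := h1
      rw [he, hub, hb] at h3
      simpa using h3
    rw [hb, hu']
  rw [hsg]; exact hg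

/-- An explicit affine permutation. -/
def affPerm (p : ℕ) (u : (ZMod p)ˣ) (b : ZMod p) : Equiv.Perm (ZMod p) where
  toFun z := (u : ZMod p) * z + b
  invFun z := ((u⁻¹ : (ZMod p)ˣ) : ZMod p) * (z - b)
  left_inv z := by
    show ((u⁻¹ : (ZMod p)ˣ) : ZMod p) * ((u : ZMod p) * z + b - b) = z
    rw [add_sub_cancel_right, ← mul_assoc, Units.inv_mul, one_mul]
  right_inv z := by
    show (u : ZMod p) * (((u⁻¹ : (ZMod p)ˣ) : ZMod p) * (z - b)) + b = z
    rw [← mul_assoc, Units.mul_inv, one_mul, sub_add_cancel]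

theorem pair_affine (p : ℕ) [Fact p.Prime] (σ : Equiv.Perm (ZMod p)) (x y : ZMod p) :
    ∃ g : Equiv.Perm (ZMod p), (∃ a : (ZMod p)ˣ, ∃ b : ZMod p, ∀ z, g z = (a : ZMod p) * z + b) ∧
      σ x = g x ∧ σ y = g y := by
  by_cases hxy : x = y
  · subst hxy
    refine ⟨affPerm p 1 (σ x - x), ⟨1, σ x - x, fun z => rfl⟩, ?_, ?_⟩
    · show σ x = ((1 : (ZMod p)ˣ) : ZMod p) * x + (σ x - x)
      rw [Units.val_one]; ring
    · show σ x = ((1 : (ZMod p)ˣ) : ZMod p) * x + (σ x - x)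
      rw [Units.val_one]; ring
  · have hyx : y - x ≠ 0 := sub_ne_zero.mpr (Ne.symm hxy)
    have hs : σ y - σ x ≠ 0 := sub_ne_zero.mpr (fun h => hxy (σ.injective h).symm)
    have ha : (σ y - σ x) / (y - x) ≠ 0 := div_ne_zero hs hyx
    refine ⟨affPerm p (Units.mk0 _ ha) (σ x - (σ y - σ x) / (y - x) * x),
      ⟨Units.mk0 _ ha, _, fun z => rfl⟩, ?_, ?_⟩
    · show σ x = (σ y - σ x) / (y - x) * x + (σ x - (σ y - σ x) / (y - x) * x)
      ring
    · show σ y = (σ y - σ x) / (y - x) * y + (σ x - (σ y - σ x) / (y - x) * x)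
      field_simp
      ring

theorem three_closed (p : ℕ) [Fact p.Prime] (σ : Equiv.Perm (ZMod p))
    (h : ∀ t : ZMod p, ∃ a : (ZMod p)ˣ, ∃ b : ZMod p,
      σ 0 = (a : ZMod p) * 0 + b ∧ σ 1 = (a : ZMod p) * 1 + b ∧ σ t = (a : ZMod p) * t + b) :
    ∃ a : (ZMod p)ˣ, ∃ b : ZMod p, ∀ x, σ x = (a : ZMod p) * x + b := by
  have hne : σ 1 - σ 0 ≠ 0 := sub_ne_zero.mpr (fun h1 => one_ne_zero (σ.injective h1))
  refine ⟨Units.mk0 _ hne, σ 0, fun t => ?_⟩
  obtain ⟨a, b, h0, h1, ht⟩ := h t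
  show σ t = (σ 1 - σ 0) * t + σ 0
  rw [ht, h1, h0]; ring

end Cfsg.Agent.Lib.Helper6.Agl1
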