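import Mathlib

set_option autoImplicit false

namespace Cfsg.Agent.Lib.Helper6.AltPClosed

theorem sylow_mul_closed {G : Type*} [Group G] [Finite G] {p : ℕ} [Fact p.Prime]
    (h : ∀ P : Sylow p G, (P : Subgroup G).Normal) (x y : G) (hx : x ^ p = 1) (hy : y ^ p = 1) :
    ∃ k, (x * y) ^ (p ^ k) = 1 := by
  obtain ⟨P⟩ : Nonempty (Sylow p G) := inferInstance
  haveI := h P
  have hmem : ∀ z : G, z ^ p = 1 → z ∈ (P : Subgroup G) := by
    intro z hz
    have hzp : IsPGroup p (Subgroup.zpowers z) := by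
      rintro ⟨w, hw⟩
      obtain ⟨i, rfl⟩ := Subgroup.mem_zpowers_iff.mp hw
      refine ⟨1, Subtype.ext ?_⟩
      simp only [pow_one, Subgroup.coe_pow, Subgroup.coe_one]
      rw [← zpow_natCast, ← zpow_mul, mul_comm, zpow_mul, zpow_natCast, hz, one_zpow]
    obtain ⟨Q, hQ⟩ := hzp.exists_le_sylow
    obtain ⟨g, hg⟩ := MulAction.exists_smul_eq G P Q
    have hQP : Q = P := by rw [← hg, Sylow.smul_eq_of_normal]
    rw [← hQP]; exact hQ (Subgroup.mem_zpowers z)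
  have hxy : x * y ∈ (P : Subgroup G) := (P : Subgroup G).mul_mem (hmem x hx) (hmem y hy)
  obtain ⟨k, hk⟩ := P.isPGroup' ⟨x * y, hxy⟩
  exact ⟨k, by simpa using congrArg Subtype.val hk⟩

theorem odd_pow_swap {α : Type*} (σ : Equiv.Perm α) (a b : α) (h1 : σ a = b) (h2 : σ b = a)
    (m : ℕ) (hm : Odd m) : (σ ^ m) a = b := by
  obtain ⟨j, rfl⟩ := hm
  have h3 : (σ ^ 2) a = a := by rw [pow_two, Equiv.Perm.mul_apply, h1, h2]
  rw [pow_succ, Equiv.Perm.mul_apply, h1, pow_mul]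
  have h4 : ((σ ^ 2) ^ j) b = b := by
    apply Equiv.Perm.pow_apply_eq_self_of_apply_eq_self
    rw [pow_two, Equiv.Perm.mul_apply, h2, h1]
  exact h4

theorem three_dvd_of_pow_fix {α : Type*} (σ : Equiv.Perm α) (a b c : α) (h1 : σ a = b)
    (h2 : σ b = c) (h3 : σ c = a) (hab : b ≠ a) (hac : c ≠ a) (m : ℕ) (hm : (σ ^ m) a = a) :
    3 ∣ m := by
  have h4 : (σ ^ 3) a = a := by
    rw [pow_succ, pow_two, Equiv.Perm.mul_apply, Equiv.Perm.mul_apply, h1, h2, h3]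
  have h5 : ∀ q : ℕ, ((σ ^ 3) ^ q) a = a := fun q =>
    Equiv.Perm.pow_apply_eq_self_of_apply_eq_self h4 q
  have h6 : m = m % 3 + 3 * (m / 3) := by omega
  rw [h6, pow_add, pow_mul, Equiv.Perm.mul_apply, h5] at hm
  have h7 : m % 3 < 3 := Nat.mod_lt _ (by norm_num)
  rcases Nat.lt_or_ge (m % 3) 1 with h | h
  · omega
  · exfalso
    have h8 : m % 3 = 1 ∨ m % 3 = 2 := by omega
    rcases h8 with h8 | h8
    · rw [h8, pow_one, h1] at hm; exact hab hm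
    · rw [h8, pow_two, Equiv.Perm.mul_apply, h1, h2] at hm; exact hac hm

theorem three_cycle {α : Type*} [DecidableEq α] [Fintype α] (a b c : α) (hab : a ≠ b)
    (hac : a ≠ c) (hbc : b ≠ c) :
    (Equiv.Perm.sign (Equiv.swap a b * Equiv.swap a c) = 1 ∧
      (Equiv.swap a b * Equiv.swap a c) ^ 3 = 1 ∧
      (Equiv.swap a b * Equiv.swap a c) a = c ∧ (Equiv.swap a b * Equiv.swap a c) c = b ∧
      (Equiv.swap a b * Equiv.swap a c) b = a ∧
      ∀ v, v ≠ a → v ≠ b → v ≠ c → (Equiv.swap a b * Equiv.swap a c) v = v) := by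
  have h3 := Equiv.Perm.isThreeCycle_swap_mul_swap_same hab hac hbc
  refine ⟨h3.sign, ?_, ?_, ?_, ?_, ?_⟩
  · rw [← h3.orderOf]; exact pow_orderOf_eq_one _
  · rw [Equiv.Perm.mul_apply, Equiv.swap_apply_left, Equiv.swap_apply_of_ne_of_ne hac.symm hbc.symm]
  · rw [Equiv.Perm.mul_apply, Equiv.swap_apply_right, Equiv.swap_apply_left]
  · rw [Equiv.Perm.mul_apply, Equiv.swap_apply_of_ne_of_ne hab.symm hbc, Equiv.swap_apply_right]
  · intro v hva hvb hvc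
    rw [Equiv.Perm.mul_apply, Equiv.swap_apply_of_ne_of_ne hva hvc,
      Equiv.swap_apply_of_ne_of_ne hva hvb]

theorem exists_bad (n p : ℕ) (hn : 5 ≤ n) (hpp : p.Prime) (hp : p ≠ 2) (hlt : p < n)
    (l : Fin n) (hl : l = ⟨n - 1, by omega⟩) :
    ∃ σ1 σ2 : Equiv.Perm (Fin n), Equiv.Perm.sign σ1 = 1 ∧ Equiv.Perm.sign σ2 = 1 ∧
      σ1 l = l ∧ σ2 l = l ∧
      σ1 ^ p = 1 ∧ σ2 ^ p = 1 ∧ σ1 ≠ 1 ∧ ∀ j : ℕ, (σ1 * σ2) ^ (p ^ j) ≠ 1 := by
  have hp3 : 3 ≤ p := by have := hpp.two_le; omega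
  obtain ⟨a0, ha0⟩ : ∃ a : Fin n, a = ⟨0, by omega⟩ := ⟨_, rfl⟩
  obtain ⟨a1, ha1⟩ : ∃ a : Fin n, a = ⟨1, by omega⟩ := ⟨_, rfl⟩
  obtain ⟨a2, ha2⟩ : ∃ a : Fin n, a = ⟨2, by omega⟩ := ⟨_, rfl⟩
  obtain ⟨a3, ha3⟩ : ∃ a : Fin n, a = ⟨3, by omega⟩ := ⟨_, rfl⟩
  have h01 : a0 ≠ a1 := by rw [ha0, ha1]; simp
  have h02 : a0 ≠ a2 := by rw [ha0, ha2]; simp
  have h03 : a0 ≠ a3 := by rw [ha0, ha3]; simp
  have h12 : a1 ≠ a2 := by rw [ha1, ha2]; simp
  have h13 : a1 ≠ a3 := by rw [ha1, ha3]; simp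
  have h23 : a2 ≠ a3 := by rw [ha2, ha3]; simp
  have hl0 : l ≠ a0 := by rw [hl, ha0, Ne, Fin.mk.injEq]; omega
  have hl1 : l ≠ a1 := by rw [hl, ha1, Ne, Fin.mk.injEq]; omega
  have hl2 : l ≠ a2 := by rw [hl, ha2, Ne, Fin.mk.injEq]; omega
  have hl3 : l ≠ a3 := by rw [hl, ha3, Ne, Fin.mk.injEq]; omega
  by_cases hp3' : p = 3
  · subst hp3'
    obtain ⟨s1, t1, u1, v1, w1, f1⟩ := three_cycle a0 a1 a2 h01 h02 h12
    obtain ⟨s2, t2, u2, v2, w2, f2⟩ := three_cycle a0 a1 a3 h01 h03 h13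
    refine ⟨_, _, s1, s2, f1 l hl0 hl1 hl2, f2 l hl0 hl1 hl3, t1, t2, ?_, ?_⟩
    · intro h1
      have h2 := u1
      rw [h1] at h2
      exact h02 h2
    · intro j hj
      have hx0 : ((Equiv.swap a0 a1 * Equiv.swap a0 a2) * (Equiv.swap a0 a1 * Equiv.swap a0 a3)) a0
          = a3 := by
        rw [Equiv.Perm.mul_apply, u2, f1 a3 h03.symm h13.symm h23.symm]
      have hx3 : ((Equiv.swap a0 a1 * Equiv.swap a0 a2) * (Equiv.swap a0 a1 * Equiv.swap a0 a3)) a3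
          = a0 := by
        rw [Equiv.Perm.mul_apply, v2, w1]
      have h2 := odd_pow_swap _ a0 a3 hx0 hx3 (3^j) (Odd.pow (by decide))
      rw [hj] at h2
      exact h03 h2
  · have hp5 : 5 ≤ p := by
      rcases Nat.lt_or_ge p 5 with h | h
      · exfalso
        interval_cases p
        · exact hp3' rfl
        · exact (by decide : ¬ Nat.Prime 4) hpp
      · exact h
    obtain ⟨s1, t1, u1, v1, w1, f1⟩ := three_cycle a0 a1 a2 h01 h02 h12
    obtain ⟨i, hi⟩ : ∃ i : Fin n, i = ⟨p - 1, by omega⟩ := ⟨_, rfl⟩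
    obtain ⟨c, hc⟩ : ∃ c : Equiv.Perm (Fin n), c = Fin.cycleRange i := ⟨_, rfl⟩
    haveI : NeZero n := ⟨by omega⟩
    have hi0 : i ≠ a0 := by rw [hi, ha0, Ne, Fin.mk.injEq]; omega
    have hi1 : i ≠ a1 := by rw [hi, ha1, Ne, Fin.mk.injEq]; omega
    have hi2 : i ≠ a2 := by rw [hi, ha2, Ne, Fin.mk.injEq]; omega
    have hc0 : c a0 = a1 := by
      rw [hc]; apply Fin.ext
      rw [Fin.coe_cycleRange_of_lt (by rw [ha0, hi, Fin.lt_def]; show 0 < p - 1; omega), ha0, ha1]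
    have hc1 : c a1 = a2 := by
      rw [hc]; apply Fin.ext
      rw [Fin.coe_cycleRange_of_lt (by rw [ha1, hi, Fin.lt_def]; show 1 < p - 1; omega), ha1, ha2]
    have hc2 : c a2 = a3 := by
      rw [hc]; apply Fin.ext
      rw [Fin.coe_cycleRange_of_lt (by rw [ha2, hi, Fin.lt_def]; show 2 < p - 1; omega), ha2, ha3]
    have hci : c i = a0 := by
      rw [hc]; apply Fin.ext
      rw [Fin.coe_cycleRange_of_le le_rfl, if_pos rfl, ha0]
    have hcl : c l = l := by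
      rw [hc]; exact Fin.cycleRange_of_gt (by rw [hi, hl, Fin.lt_def]; show p - 1 < n - 1; omega)
    have hcs : Equiv.Perm.sign c = 1 := by
      rw [hc, Fin.sign_cycleRange, hi]
      have h1 : Even (p - 1) := by
        rcases hpp.eq_two_or_odd' with h | h
        · exact absurd h hp
        · obtain ⟨k, hk⟩ := h; exact ⟨k, by omega⟩
      exact h1.neg_one_pow
    have hcp : c ^ p = 1 := by
      have h1 : orderOf c = p := by
        have hi00 : i ≠ 0 := by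
          intro h0
          have h2 := congrArg Fin.val h0
          rw [hi] at h2
          simp at h2
          omega
        rw [← Equiv.Perm.lcm_cycleType, hc, Fin.cycleType_cycleRange hi00, Multiset.lcm_singleton,
          normalize_eq, hi]
        show p - 1 + 1 = p
        omega
      rw [← h1]; exact pow_orderOf_eq_one c
    obtain ⟨d, hd⟩ : ∃ d : Equiv.Perm (Fin n), d = Equiv.swap a0 a1 * Equiv.swap a0 a2 := ⟨_, rfl⟩
    rw [← hd] at s1 t1 u1 v1 w1 f1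
    refine ⟨d * c * d⁻¹, c⁻¹, ?_, ?_, ?_, ?_, ?_, ?_, ?_, ?_⟩
    · rw [Equiv.Perm.sign_mul, Equiv.Perm.sign_mul, Equiv.Perm.sign_inv, s1, hcs]; rfl
    · rw [Equiv.Perm.sign_inv, hcs]
    · have hdl : d l = l := f1 l hl0 hl1 hl2
      have hdl' : d⁻¹ l = l := by rw [Equiv.Perm.inv_eq_iff_eq, hdl]
      rw [Equiv.Perm.mul_apply, Equiv.Perm.mul_apply, hdl', hcl, hdl]
    · rw [Equiv.Perm.inv_eq_iff_eq, hcl]
    · rw [conj_pow, hcp, mul_one, mul_inv_cancel]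
    · rw [inv_pow, hcp, inv_one]
    · intro h1
      have h3 : c = 1 := by
        have h2 : d⁻¹ * (d * c * d⁻¹) * d = c := by group
        rw [h1] at h2; rw [← h2]; group
      rw [h3] at hc0
      exact h01 hc0
    · intro j hj
      have hx0 : (d * c * d⁻¹ * c⁻¹) a0 = a2 := by
        have e1 : c⁻¹ a0 = i := by rw [Equiv.Perm.inv_eq_iff_eq, hci]
        have e2 : d⁻¹ i = i := by rw [Equiv.Perm.inv_eq_iff_eq]; exact (f1 i hi0 hi1 hi2).symm
        rw [Equiv.Perm.mul_apply, Equiv.Perm.mul_apply, Equiv.Perm.mul_apply, e1, e2, hci, u1]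
      have hx2 : (d * c * d⁻¹ * c⁻¹) a2 = a3 := by
        have e1 : c⁻¹ a2 = a1 := by rw [Equiv.Perm.inv_eq_iff_eq, hc1]
        have e2 : d⁻¹ a1 = a2 := by rw [Equiv.Perm.inv_eq_iff_eq, v1]
        rw [Equiv.Perm.mul_apply, Equiv.Perm.mul_apply, Equiv.Perm.mul_apply, e1, e2, hc2,
          f1 a3 h03.symm h13.symm h23.symm]
      have hx3 : (d * c * d⁻¹ * c⁻¹) a3 = a0 := by
        have e1 : c⁻¹ a3 = a2 := by rw [Equiv.Perm.inv_eq_iff_eq, hc2]
        have e2 : d⁻¹ a2 = a0 := by rw [Equiv.Perm.inv_eq_iff_eq, u1]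
        rw [Equiv.Perm.mul_apply, Equiv.Perm.mul_apply, Equiv.Perm.mul_apply, e1, e2, hc0, w1]
      have h3 := three_dvd_of_pow_fix _ a0 a2 a3 hx0 hx2 hx3 h02.symm h03.symm (p^j)
        (by rw [hj]; rfl)
      have h4 : 3 ∣ p := Nat.Prime.dvd_of_dvd_pow Nat.prime_three h3
      have h5 := (Nat.prime_dvd_prime_iff_eq Nat.prime_three hpp).mp h4
      omega

theorem main (n p : ℕ) (hn : 5 ≤ n) [Fact p.Prime] (hp : p ≠ 2) (hpn : p ≤ n)
    (h : ∀ H : Subgroup ↥(alternatingGroup (Fin n)), H ≠ ⊤ → p ∣ Nat.card ↥H →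
      ∀ P : Sylow p ↥H, (P : Subgroup ↥H).Normal) : n = p := by
  by_contra hne
  have hlt : p < n := lt_of_le_of_ne hpn (Ne.symm hne)
  have hpp : p.Prime := Fact.out
  obtain ⟨l, hl⟩ : ∃ a : Fin n, a = ⟨n - 1, by omega⟩ := ⟨_, rfl⟩
  obtain ⟨σ1, σ2, s1, s2, f1, f2, p1, p2, ne1, hbad⟩ := exists_bad n p hn hpp hp hlt l hl
  let K : Subgroup ↥(alternatingGroup (Fin n)) :=
    (MulAction.stabilizer (Equiv.Perm (Fin n)) l).subgroupOf (alternatingGroup (Fin n))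
  have hKmem : ∀ g : ↥(alternatingGroup (Fin n)),
      g ∈ K ↔ (g : Equiv.Perm (Fin n)) l = l := fun g => by
    show g ∈ (MulAction.stabilizer (Equiv.Perm (Fin n)) l).subgroupOf
      (alternatingGroup (Fin n)) ↔ _
    rw [Subgroup.mem_subgroupOf, MulAction.mem_stabilizer_iff, Equiv.Perm.smul_def]
  have hKtop : K ≠ ⊤ := by
    intro htop
    obtain ⟨a0, ha0⟩ : ∃ a : Fin n, a = ⟨0, by omega⟩ := ⟨_, rfl⟩
    obtain ⟨a1, ha1⟩ : ∃ a : Fin n, a = ⟨1, by omega⟩ := ⟨_, rfl⟩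
    have hl0 : l ≠ a0 := by rw [hl, ha0, Ne, Fin.mk.injEq]; omega
    have hl1 : l ≠ a1 := by rw [hl, ha1, Ne, Fin.mk.injEq]; omega
    have h01 : a0 ≠ a1 := by rw [ha0, ha1]; simp
    obtain ⟨s, -, u, -, -, -⟩ := three_cycle l a0 a1 hl0 hl1 h01
    have hmem : (⟨_, Equiv.Perm.mem_alternatingGroup.mpr s⟩ : ↥(alternatingGroup (Fin n))) ∈ K := by
      rw [htop]; exact Subgroup.mem_top _
    rw [hKmem] at hmem
    exact hl1 (hmem.symm.trans u)
  let k1 : ↥K := ⟨⟨σ1, Equiv.Perm.mem_alternatingGroup.mpr s1⟩, (hKmem _).mpr f1⟩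
  let k2 : ↥K := ⟨⟨σ2, Equiv.Perm.mem_alternatingGroup.mpr s2⟩, (hKmem _).mpr f2⟩
  have hk1p : k1 ^ p = 1 := by
    apply Subtype.ext; apply Subtype.ext
    simp only [Subgroup.coe_pow, Subgroup.coe_one]
    exact p1
  have hk2p : k2 ^ p = 1 := by
    apply Subtype.ext; apply Subtype.ext
    simp only [Subgroup.coe_pow, Subgroup.coe_one]
    exact p2
  have hk1ne : k1 ≠ 1 := by
    intro h1
    apply ne1
    have h2 := congrArg
      (fun k : ↥K => ((k : ↥(alternatingGroup (Fin n))) : Equiv.Perm (Fin n))) h1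
    exact h2
  have hpK : p ∣ Nat.card ↥K := by
    have h1 : orderOf k1 = p := orderOf_eq_prime hk1p hk1ne
    rw [← h1]; exact orderOf_dvd_natCard k1
  have hcl := h K hKtop hpK
  obtain ⟨j, hj⟩ := sylow_mul_closed hcl k1 k2 hk1p hk2p
  apply hbad j
  have h2 := congrArg
    (fun k : ↥K => ((k : ↥(alternatingGroup (Fin n))) : Equiv.Perm (Fin n))) hj
  simpa using h2

end Cfsg.Agent.Lib.Helper6.AltPClosed
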