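import Mathlib
import Cfsg.Prelude.Def_OddOrderLocal

set_option autoImplicit false

namespace Cfsg.Agent.Lib.Helper6.CTMat

open Matrix

theorem ti_of_ct {Γ : Type*} [Group Γ]
    (hct : ∀ a b c : Γ, b ≠ 1 → a * b = b * a → b * c = c * b → a * c = c * a) (x : Γ) :
    Cfsg.IsTISubset ((Subgroup.centralizer ({x} : Set Γ) : Subgroup Γ) : Set Γ) := by
  intro g hg y hy hgy
  by_contra hy1
  apply hg
  have hyx : y * x = x * y :=
    (Subgroup.mem_centralizer_iff.1 hy x (Set.mem_singleton x)).symm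
  by_cases hx1 : x = 1
  · subst hx1
    rw [Subgroup.mem_normalizer_iff]
    intro z
    constructor <;> intro _ <;>
      (rw [Subgroup.mem_centralizer_iff]; intro w hw
       rw [Set.mem_singleton_iff] at hw; rw [hw, one_mul, mul_one])
  have hy'x : (g * y * g⁻¹) * x = x * (g * y * g⁻¹) :=
    (Subgroup.mem_centralizer_iff.1 hgy x (Set.mem_singleton x)).symm
  have hy'1 : g * y * g⁻¹ ≠ 1 := by
    intro h
    apply hy1
    have e : y = g⁻¹ * (g * y * g⁻¹) * g := by group
    rw [e, h]; group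
  rw [Subgroup.mem_normalizer_iff]
  intro z
  constructor
  · intro hz
    have hzx : z * x = x * z :=
      (Subgroup.mem_centralizer_iff.1 hz x (Set.mem_singleton x)).symm
    have hzy : z * y = y * z := hct z x y hx1 hzx hyx.symm
    have h1 : (g * z * g⁻¹) * (g * y * g⁻¹) = (g * y * g⁻¹) * (g * z * g⁻¹) := by
      calc (g * z * g⁻¹) * (g * y * g⁻¹) = g * (z * y) * g⁻¹ := by group
        _ = g * (y * z) * g⁻¹ := by rw [hzy]
        _ = _ := by group
    have h2 := hct (g * z * g⁻¹) (g * y * g⁻¹) x hy'1 h1 hy'x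
    rw [Subgroup.mem_centralizer_iff]
    intro w hw
    rw [Set.mem_singleton_iff] at hw
    rw [hw]; exact h2.symm
  · intro hz
    have hzx : (g * z * g⁻¹) * x = x * (g * z * g⁻¹) :=
      (Subgroup.mem_centralizer_iff.1 hz x (Set.mem_singleton x)).symm
    have h1 : (g * z * g⁻¹) * (g * y * g⁻¹) = (g * y * g⁻¹) * (g * z * g⁻¹) :=
      hct _ x _ hx1 hzx hy'x.symm
    have hzy : z * y = y * z := by
      have e1 : z * y = g⁻¹ * ((g * z * g⁻¹) * (g * y * g⁻¹)) * g := by group
      rw [e1, h1]; group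
    have h2 := hct z y x hy1 hzy hyx
    rw [Subgroup.mem_centralizer_iff]
    intro w hw
    rw [Set.mem_singleton_iff] at hw
    rw [hw]; exact h2.symm

theorem mat_comm {F : Type*} [Field F] (A B B' : Matrix (Fin 2) (Fin 2) F)
    (hA : A 0 1 ≠ 0 ∨ A 1 0 ≠ 0 ∨ A 0 0 ≠ A 1 1) (h : A * B = B * A) (h' : A * B' = B' * A) :
    B * B' = B' * B := by
  have r1 := congrFun (congrFun h 0) 0
  have r2 := congrFun (congrFun h 0) 1
  have r3 := congrFun (congrFun h 1) 0
  have r1' := congrFun (congrFun h' 0) 0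
  have r2' := congrFun (congrFun h' 0) 1
  have r3' := congrFun (congrFun h' 1) 0
  simp only [Matrix.mul_apply, Fin.sum_univ_two] at r1 r2 r3 r1' r2' r3'
  have key : B 0 1 * B' 1 0 - B' 0 1 * B 1 0 = 0 ∧
      B' 0 1 * (B 0 0 - B 1 1) - B 0 1 * (B' 0 0 - B' 1 1) = 0 ∧
      B 1 0 * (B' 0 0 - B' 1 1) - B' 1 0 * (B 0 0 - B 1 1) = 0 := by
    by_cases hb : A 0 1 = 0
    · by_cases hc : A 1 0 = 0
      · have had : A 0 0 - A 1 1 ≠ 0 := by
          rcases hA with h0 | h0 | h0
          · exact absurd hb h0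
          · exact absurd hc h0
          · exact sub_ne_zero.2 h0
        have hf : B 0 1 = 0 := by
          have : (A 0 0 - A 1 1) * B 0 1 = 0 := by
            rw [hb] at r2; linear_combination r2
          exact (mul_eq_zero.1 this).resolve_left had
        have hg : B 1 0 = 0 := by
          have : (A 0 0 - A 1 1) * B 1 0 = 0 := by
            rw [hc] at r3; linear_combination -r3
          exact (mul_eq_zero.1 this).resolve_left had
        have hf' : B' 0 1 = 0 := by
          have : (A 0 0 - A 1 1) * B' 0 1 = 0 := by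
            rw [hb] at r2'; linear_combination r2'
          exact (mul_eq_zero.1 this).resolve_left had
        have hg' : B' 1 0 = 0 := by
          have : (A 0 0 - A 1 1) * B' 1 0 = 0 := by
            rw [hc] at r3'; linear_combination -r3'
          exact (mul_eq_zero.1 this).resolve_left had
        simp [hf, hg, hf', hg']
      · have k1 : B 0 1 * B' 1 0 - B' 0 1 * B 1 0 = 0 := by
          have : A 1 0 * (B 0 1 * B' 1 0 - B' 0 1 * B 1 0) = 0 := by
            linear_combination (-(B' 1 0)) * r1 + B 1 0 * r1'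
          exact (mul_eq_zero.1 this).resolve_left hc
        have k3 : B 1 0 * (B' 0 0 - B' 1 1) - B' 1 0 * (B 0 0 - B 1 1) = 0 := by
          have : A 1 0 * (B 1 0 * (B' 0 0 - B' 1 1) - B' 1 0 * (B 0 0 - B 1 1)) = 0 := by
            linear_combination B 1 0 * r3' - B' 1 0 * r3
          exact (mul_eq_zero.1 this).resolve_left hc
        have k2 : B' 0 1 * (B 0 0 - B 1 1) - B 0 1 * (B' 0 0 - B' 1 1) = 0 := by
          have : A 1 0 * (B' 0 1 * (B 0 0 - B 1 1) - B 0 1 * (B' 0 0 - B' 1 1)) = 0 := by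
            linear_combination B' 0 1 * r3 - B 0 1 * r3' - (A 0 0 - A 1 1) * k1
          exact (mul_eq_zero.1 this).resolve_left hc
        exact ⟨k1, k2, k3⟩
    · have k1 : B 0 1 * B' 1 0 - B' 0 1 * B 1 0 = 0 := by
        have : A 0 1 * (B 0 1 * B' 1 0 - B' 0 1 * B 1 0) = 0 := by
          linear_combination B 0 1 * r1' - B' 0 1 * r1
        exact (mul_eq_zero.1 this).resolve_left hb
      have k2 : B' 0 1 * (B 0 0 - B 1 1) - B 0 1 * (B' 0 0 - B' 1 1) = 0 := by
        have : A 0 1 * (B' 0 1 * (B 0 0 - B 1 1) - B 0 1 * (B' 0 0 - B' 1 1)) = 0 := by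
          linear_combination (-(B' 0 1)) * r2 + B 0 1 * r2'
        exact (mul_eq_zero.1 this).resolve_left hb
      have k3 : B 1 0 * (B' 0 0 - B' 1 1) - B' 1 0 * (B 0 0 - B 1 1) = 0 := by
        have : A 0 1 * (B 1 0 * (B' 0 0 - B' 1 1) - B' 1 0 * (B 0 0 - B 1 1)) = 0 := by
          linear_combination (-(B 1 0)) * r2' + B' 1 0 * r2 - (A 0 0 - A 1 1) * k1
        exact (mul_eq_zero.1 this).resolve_left hb
      exact ⟨k1, k2, k3⟩
  obtain ⟨k1, k2, k3⟩ := key
  ext i j
  fin_cases i <;> fin_cases j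
  · simp only [Matrix.mul_apply, Fin.sum_univ_two]
    show B 0 0 * B' 0 0 + B 0 1 * B' 1 0 = B' 0 0 * B 0 0 + B' 0 1 * B 1 0
    linear_combination k1
  · simp only [Matrix.mul_apply, Fin.sum_univ_two]
    show B 0 0 * B' 0 1 + B 0 1 * B' 1 1 = B' 0 0 * B 0 1 + B' 0 1 * B 1 1
    linear_combination k2
  · simp only [Matrix.mul_apply, Fin.sum_univ_two]
    show B 1 0 * B' 0 0 + B 1 1 * B' 1 0 = B' 1 0 * B 0 0 + B' 1 1 * B 1 0
    linear_combination k3
  · simp only [Matrix.mul_apply, Fin.sum_univ_two]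
    show B 1 0 * B' 0 1 + B 1 1 * B' 1 1 = B' 1 0 * B 0 1 + B' 1 1 * B 1 1
    linear_combination (-1 : F) * k1

theorem sl_ct {F : Type*} [Field F] [CharP F 2] (a b c : SpecialLinearGroup (Fin 2) F)
    (hb : b ≠ 1) (hab : a * b = b * a) (hbc : b * c = c * b) : a * c = c * a := by
  have h2 : (2 : F) = 0 := by exact_mod_cast CharP.cast_eq_zero F 2
  have hns : (b : Matrix (Fin 2) (Fin 2) F) 0 1 ≠ 0 ∨ (b : Matrix (Fin 2) (Fin 2) F) 1 0 ≠ 0 ∨
      (b : Matrix (Fin 2) (Fin 2) F) 0 0 ≠ (b : Matrix (Fin 2) (Fin 2) F) 1 1 := by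
    by_contra hcon
    push_neg at hcon
    obtain ⟨h01, h10, h00⟩ := hcon
    apply hb
    have hdet := b.det_coe
    rw [Matrix.det_fin_two, h01, h10, ← h00] at hdet
    have h1 : ((b : Matrix (Fin 2) (Fin 2) F) 0 0 - 1) ^ 2 = 0 := by
      linear_combination hdet + (1 - (b : Matrix (Fin 2) (Fin 2) F) 0 0) * h2
    have hx : (b : Matrix (Fin 2) (Fin 2) F) 0 0 = 1 :=
      sub_eq_zero.1 ((pow_eq_zero_iff (by norm_num : (2 : ℕ) ≠ 0)).1 h1)
    apply Subtype.ext
    ext i j
    fin_cases i <;> fin_cases j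
    · simpa using hx
    · simpa using h01
    · simpa using h10
    · simpa using h00.symm.trans hx
  have e1 : (b : Matrix (Fin 2) (Fin 2) F) * (a : Matrix (Fin 2) (Fin 2) F) =
      (a : Matrix (Fin 2) (Fin 2) F) * (b : Matrix (Fin 2) (Fin 2) F) := by
    have := congrArg Subtype.val hab
    simpa using this.symm
  have e2 : (b : Matrix (Fin 2) (Fin 2) F) * (c : Matrix (Fin 2) (Fin 2) F) =
      (c : Matrix (Fin 2) (Fin 2) F) * (b : Matrix (Fin 2) (Fin 2) F) := by
    have := congrArg Subtype.val hbc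
    simpa using this
  have e3 := mat_comm _ _ _ hns e1 e2
  apply Subtype.ext
  simpa using e3

theorem psl_ct {F : Type*} [Field F] [CharP F 2]
    (a b c : ProjectiveSpecialLinearGroup (Fin 2) F) (hb : b ≠ 1)
    (hab : a * b = b * a) (hbc : b * c = c * b) : a * c = c * a := by
  have h2 : (2 : F) = 0 := by exact_mod_cast CharP.cast_eq_zero F 2
  have hcen : Subgroup.center (SpecialLinearGroup (Fin 2) F) = ⊥ := by
    rw [eq_bot_iff]
    intro z hz
    obtain ⟨r, hr, hrz⟩ := Matrix.SpecialLinearGroup.mem_center_iff.1 hz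
    rw [Subgroup.mem_bot]
    simp only [Fintype.card_fin] at hr
    have h1 : (r - 1) ^ 2 = 0 := by
      linear_combination hr + (1 - r) * h2
    have hr1 : r = 1 := sub_eq_zero.1 ((pow_eq_zero_iff (by norm_num : (2 : ℕ) ≠ 0)).1 h1)
    apply Subtype.ext
    rw [← hrz, hr1]
    simp
  have hinj : ∀ u v : SpecialLinearGroup (Fin 2) F,
      (QuotientGroup.mk u : ProjectiveSpecialLinearGroup (Fin 2) F) = QuotientGroup.mk v →
      u = v := by
    intro u v huv
    have := QuotientGroup.eq.1 huv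
    rw [hcen, Subgroup.mem_bot] at this
    exact inv_mul_eq_one.1 this
  obtain ⟨a', rfl⟩ := QuotientGroup.mk_surjective a
  obtain ⟨b', rfl⟩ := QuotientGroup.mk_surjective b
  obtain ⟨c', rfl⟩ := QuotientGroup.mk_surjective c
  have hb' : b' ≠ 1 := by
    rintro rfl
    exact hb rfl
  have h1 : a' * b' = b' * a' := hinj _ _ hab
  have h3 : b' * c' = c' * b' := hinj _ _ hbc
  have h4 := sl_ct a' b' c' hb' h1 h3
  show (QuotientGroup.mk (a' * c') : ProjectiveSpecialLinearGroup (Fin 2) F) =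
    QuotientGroup.mk (c' * a')
  rw [h4]

end Cfsg.Agent.Lib.Helper6.CTMat
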