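import Mathlib
import Cfsg.Agent.Lib.Helper6.CycMod

set_option autoImplicit false

namespace Cfsg.Agent.Lib.Helper6.CycGrp

open Polynomial

theorem exists_auts {A : Type*} [CommGroup A] [Finite A] {p q : ℕ} [Fact p.Prime] [Fact q.Prime]
    (hexp : ∀ a : A, a ^ p = 1) (hirr : Irreducible (cyclotomic q (ZMod p)))
    (c : A ≃* A) (hcq : c ^ q = 1) (hfix : ∀ a, c a = a → a = 1) :
    (∀ u u' : A, u ≠ 1 → u' ≠ 1 → ∃ L : A ≃* A, L u = u' ∧ ∀ a, L (c a) = c (L a)) ∧
    (∀ m : ℕ, ¬ q ∣ m → ∃ S : A ≃* A, ∀ a, S (c a) = (c ^ m) (S a)) := by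
  classical
  letI : Module (ZMod p) (Additive A) := AddCommGroup.zmodModule (n := p) (G := Additive A)
    (fun x => congrArg Additive.ofMul (hexp x.toMul))
  have hq : q.Prime := Fact.out
  let lin : (A ≃* A) → (Additive A →ₗ[ZMod p] Additive A) := fun d =>
    (MulEquiv.toAdditive d : Additive A ≃+ Additive A).toAddMonoidHom.toZModLinearMap p
  have lin_apply : ∀ (d : A ≃* A) (v : Additive A), lin d v = Additive.ofMul (d v.toMul) :=
    fun d v => rfl
  have lin_pow : ∀ (d : A ≃* A) (n : ℕ) (v : Additive A),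
      ((lin d) ^ n) v = Additive.ofMul ((d ^ n) v.toMul) := by
    intro d n
    induction n with
    | zero => intro v; simp
    | succ n ih =>
      intro v
      rw [pow_succ, Module.End.mul_apply, ih, lin_apply, pow_succ, MulAut.mul_apply]
      simp
  have hΦ : ∀ d : A ≃* A, d ^ q = 1 → (∀ a, d a = a → a = 1) →
      aeval (lin d) (cyclotomic q (ZMod p)) = 0 := by
    intro d hdq hdfix
    apply CycMod.aeval_cyclotomic_eq_zero q (lin d)
    · ext v
      rw [lin_pow, hdq]
      simp
    · intro v hv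
      have h1 : d v.toMul = v.toMul := congrArg Additive.toMul hv
      have h2 := hdfix _ h1
      exact congrArg Additive.ofMul h2
  refine ⟨?_, ?_⟩
  · intro u u' hu hu'
    obtain ⟨L, hLu, hL⟩ := CycMod.exists_equiv_vec _ hirr (lin c) (hΦ c hcq hfix)
      (Additive.ofMul u) (Additive.ofMul u') (by simpa using hu) (by simpa using hu')
    refine ⟨MulEquiv.toAdditive.symm L, ?_, ?_⟩
    · exact congrArg Additive.toMul hLu
    · intro a
      exact congrArg Additive.toMul (hL (Additive.ofMul a))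
  · intro m hm
    have hcop : Nat.Coprime m q := (Nat.Coprime.symm ((Nat.Prime.coprime_iff_not_dvd hq).mpr hm))
    have hdq : (c ^ m) ^ q = 1 := by rw [← pow_mul, mul_comm, pow_mul, hcq, one_pow]
    have hdfix : ∀ a, (c ^ m) a = a → a = 1 := by
      intro a ha
      apply hfix
      obtain ⟨k, -, hk⟩ := Nat.exists_mul_mod_eq_one_of_coprime hcop hq.one_lt
      have h1 : ∀ j : ℕ, ((c ^ m) ^ j) a = a := by
        intro j
        induction j with
        | zero => simp
        | succ j ih => rw [pow_succ, MulAut.mul_apply, ha, ih]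
      have h2 := h1 k
      rw [← pow_mul, ← Nat.div_add_mod (m * k) q, hk, pow_add, pow_mul, hcq, one_pow, one_mul,
        pow_one] at h2
      exact h2
    obtain ⟨S, hS⟩ := CycMod.exists_semi _ hirr (lin c) (lin (c ^ m)) (hΦ c hcq hfix)
      (hΦ (c ^ m) hdq hdfix)
    refine ⟨MulEquiv.toAdditive.symm S, ?_⟩
    intro a
    exact congrArg Additive.toMul (hS (Additive.ofMul a))

theorem irreducible_of_transitive {A : Type*} [CommGroup A] [Finite A] [Nontrivial A] {r s : ℕ}
    [Fact r.Prime] [Fact s.Prime] (hrs : r ≠ s)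
    (hexp : ∀ a : A, a ^ r = 1) (c : A ≃* A) (hcs : c ^ s = 1) (hfix : ∀ a, c a = a → a = 1)
    (G1 : ∀ i : ℕ, 1 ≤ i → i < s → ∃ L : A ≃* A, ∀ a, L (c a) = (c ^ i) (L a))
    (G2 : ∀ w₁ w₂ : A, w₁ ≠ 1 → w₂ ≠ 1 → ∃ (i : ℕ) (L : A ≃* A), L w₁ = w₂ ∧
      ∀ a, L (c a) = (c ^ i) (L a)) :
    Irreducible (cyclotomic s (ZMod r)) := by
  classical
  letI : Module (ZMod r) (Additive A) := AddCommGroup.zmodModule (n := r) (G := Additive A)
    (fun x => congrArg Additive.ofMul (hexp x.toMul))
  let lin : (A ≃* A) → (Additive A →ₗ[ZMod r] Additive A) := fun d =>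
    (MulEquiv.toAdditive d : Additive A ≃+ Additive A).toAddMonoidHom.toZModLinearMap r
  have lin_apply : ∀ (d : A ≃* A) (v : Additive A), lin d v = Additive.ofMul (d v.toMul) :=
    fun d v => rfl
  have lin_pow : ∀ (d : A ≃* A) (n : ℕ) (v : Additive A),
      ((lin d) ^ n) v = Additive.ofMul ((d ^ n) v.toMul) := by
    intro d n
    induction n with
    | zero => intro v; simp
    | succ n ih =>
      intro v
      rw [pow_succ, Module.End.mul_apply, ih, lin_apply, pow_succ, MulAut.mul_apply]
      simp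
  have hΦ : aeval (lin c) (cyclotomic s (ZMod r)) = 0 := by
    apply CycMod.aeval_cyclotomic_eq_zero s (lin c)
    · ext v
      rw [lin_pow, hcs]
      simp
    · intro v hv
      have h1 : c v.toMul = v.toMul := congrArg Additive.toMul hv
      have h2 := hfix _ h1
      exact congrArg Additive.ofMul h2
  apply CycMod.irreducible_cyclotomic_of_transitive hrs (lin c) hΦ
  · intro i hi1 his
    obtain ⟨L, hL⟩ := G1 i hi1 his
    refine ⟨lin L, ?_, ?_⟩
    · intro w
      refine ⟨Additive.ofMul (L.symm w.toMul), ?_⟩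
      rw [lin_apply]
      simp
    · intro v
      rw [lin_pow, lin_apply, lin_apply, lin_apply]
      exact congrArg Additive.ofMul (hL v.toMul)
  · intro w₁ w₂ h1 h2
    obtain ⟨i, L, hLw, hL⟩ := G2 w₁.toMul w₂.toMul (by simpa using h1) (by simpa using h2)
    refine ⟨i, lin L, ?_, ?_, ?_⟩
    · intro v v' hvv
      have h3 : L v.toMul = L v'.toMul := congrArg Additive.toMul hvv
      have h4 := L.injective h3
      exact congrArg Additive.ofMul h4
    · rw [lin_apply, hLw]; rfl
    · intro v
      rw [lin_pow, lin_apply, lin_apply, lin_apply]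
      exact congrArg Additive.ofMul (hL v.toMul)

end Cfsg.Agent.Lib.Helper6.CycGrp
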