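import Mathlib
import Cfsg.Agent.Lib.Helper6.SylowConj

set_option autoImplicit false

namespace Cfsg.Agent.Lib.Helper6.CyclicAut

open Cfsg.Agent.Lib.Helper6.SylowConj

theorem pow_prime_commute {G : Type*} [Group G] [Finite G] {p : ℕ} [Fact p.Prime] (t w x : G)
    (n : ℕ) (ht : orderOf t = p ^ n)
    (hw : w ∈ Subgroup.normalizer ((Subgroup.zpowers t : Subgroup G) : Set G))
    (hx : x ∈ Subgroup.zpowers t) (hx1 : x ≠ 1) (hwx : w * x = x * w) :
    ∃ c : ℕ, w ^ (p ^ c) * t = t * w ^ (p ^ c) := by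
  have hp := (Fact.out : p.Prime)
  obtain ⟨k, hcop, hind⟩ := conj_pow_eq t w hw
  rw [← mem_powers_iff_mem_zpowers, Submonoid.mem_powers_iff] at hx
  obtain ⟨i, rfl⟩ := hx
  have hn : n ≠ 0 := by
    rintro rfl
    rw [pow_zero, orderOf_eq_one_iff] at ht
    apply hx1
    rw [ht, one_pow]
  obtain ⟨m, rfl⟩ := Nat.exists_eq_succ_of_ne_zero hn
  have h1 := hind 1
  rw [pow_one, pow_one] at h1
  have h2 : w * t ^ i * w⁻¹ = t ^ (k * i) := by rw [← conj_pow, h1, ← pow_mul]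
  have h3 : t ^ (k * i) = t ^ i := by rw [← h2, hwx, mul_inv_cancel_right]
  rw [pow_eq_pow_iff_modEq, ht] at h3
  have h4 : ((p ^ (m + 1) : ℕ) : ℤ) ∣ (i : ℤ) - ((k * i : ℕ) : ℤ) := (Nat.modEq_iff_dvd).1 h3
  have h5 : (p : ℤ) ∣ (k : ℤ) - 1 := by
    by_contra hnd
    have hcop' : IsCoprime ((p ^ (m + 1) : ℕ) : ℤ) ((k : ℤ) - 1) := by
      push_cast
      apply IsCoprime.pow_left
      exact (Nat.prime_iff_prime_int.1 hp).coprime_iff_not_dvd.2 hnd
    have h6 : ((p ^ (m + 1) : ℕ) : ℤ) ∣ ((k : ℤ) - 1) * (i : ℤ) := by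
      have : ((k : ℤ) - 1) * (i : ℤ) = -((i : ℤ) - ((k * i : ℕ) : ℤ)) := by
        push_cast
        ring
      rw [this]
      exact (dvd_neg).2 h4
    have h7 := hcop'.dvd_of_dvd_mul_left h6
    have h8 : p ^ (m + 1) ∣ i := Int.natCast_dvd_natCast.1 h7
    apply hx1
    obtain ⟨r, hr⟩ := h8
    rw [hr, pow_mul, ← ht, pow_orderOf_eq_one, one_pow]
  have h9 := dvd_sub_pow_of_dvd_sub h5 m
  refine ⟨m, ?_⟩
  have h10 : k ^ p ^ m ≡ 1 [MOD p ^ (m + 1)] := by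
    rw [Nat.modEq_iff_dvd]
    push_cast
    rw [one_pow] at h9
    have := (dvd_neg).2 h9
    rw [neg_sub] at this
    exact this
  have h11 := hind (p ^ m)
  have h12 : t ^ (k ^ p ^ m) = t ^ 1 := by
    rw [pow_eq_pow_iff_modEq, ht]
    exact h10
  rw [h12, pow_one, mul_inv_eq_iff_eq_mul] at h11
  exact h11

end Cfsg.Agent.Lib.Helper6.CyclicAut
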