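import Mathlib
import Cfsg.Prelude.Def_LocalEven
import Cfsg.Agent.Lib.Helper1.Dih

set_option autoImplicit false

namespace Cfsg.Agent.Lib.Helper6.DihInv

variable {G : Type*} [Group G]

/-- The rotation subgroup of a dihedral group. -/
def rot (n : ℕ) : Subgroup (DihedralGroup n) where
  carrier := {g | ∃ i, g = DihedralGroup.r i}
  mul_mem' := by
    rintro _ _ ⟨i, rfl⟩ ⟨j, rfl⟩
    exact ⟨i + j, DihedralGroup.r_mul_r i j⟩
  one_mem' := ⟨0, DihedralGroup.one_def⟩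
  inv_mem' := by
    rintro _ ⟨i, rfl⟩
    exact ⟨-i, DihedralGroup.inv_r i⟩

theorem mem_rot {n : ℕ} (g : DihedralGroup n) : g ∈ rot n ↔ ∃ i, g = DihedralGroup.r i :=
  Iff.rfl

instance rot_normal (n : ℕ) : (rot n).Normal := by
  constructor
  rintro _ ⟨i, rfl⟩ g
  cases g with
  | r j =>
    exact ⟨i, by rw [DihedralGroup.r_mul_r, DihedralGroup.inv_r, DihedralGroup.r_mul_r]; congr 1; ring⟩
  | sr j =>
    exact ⟨-i, by rw [DihedralGroup.sr_mul_r, DihedralGroup.inv_sr, DihedralGroup.sr_mul_sr]; congr 1; ring⟩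

theorem exists_of_surj {K : Type*} [Group K] [Finite K] {p : ℕ} [Fact p.Prime] (hp : p ≠ 2)
    (φ : K →* DihedralGroup p) (hφ : Function.Surjective φ) :
    ∃ (x : K) (P : Subgroup K), (∃ k : ℕ, orderOf x = 2 ^ k) ∧ IsPGroup p ↥P ∧
      x ∈ Subgroup.normalizer (P : Set K) ∧ ∃ u ∈ P, x * u * x⁻¹ ≠ u := by
  classical
  have hpp : p.Prime := Fact.out
  set L : Subgroup K := (rot p).comap φ with hL
  haveI : L.Normal := by rw [hL]; infer_instance
  obtain ⟨k₁, hk₁⟩ := hφ (DihedralGroup.r 1)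
  obtain ⟨a, b, hb, hab⟩ := Nat.exists_eq_pow_mul_and_not_dvd (orderOf_pos k₁).ne' p hpp.ne_one
  have hv1 : (k₁ ^ b) ^ (p ^ a) = 1 := by
    rw [← pow_mul, mul_comm, ← hab, pow_orderOf_eq_one]
  have hφv : φ (k₁ ^ b) = DihedralGroup.r (b : ZMod p) := by
    rw [map_pow, hk₁, DihedralGroup.r_one_pow]
  have hb0 : (b : ZMod p) ≠ 0 := by
    rw [Ne, ZMod.natCast_eq_zero_iff]; exact hb
  have hvL : k₁ ^ b ∈ L := ⟨b, hφv⟩
  have hQ : IsPGroup p (Subgroup.zpowers (⟨k₁ ^ b, hvL⟩ : ↥L)) := by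
    have hd : orderOf (⟨k₁ ^ b, hvL⟩ : ↥L) ∣ p ^ a := by
      apply orderOf_dvd_of_pow_eq_one
      apply Subtype.ext
      simpa using hv1
    obtain ⟨k, -, hk⟩ := (Nat.dvd_prime_pow hpp).1 hd
    exact IsPGroup.of_card (n := k) (by rw [Nat.card_zpowers, hk])
  obtain ⟨P₁, hP₁⟩ := hQ.exists_le_sylow
  have hfr := Sylow.normalizer_sup_eq_top P₁
  have huP : k₁ ^ b ∈ (P₁ : Subgroup ↥L).map L.subtype :=
    ⟨⟨k₁ ^ b, hvL⟩, hP₁ (Subgroup.mem_zpowers _), rfl⟩
  have hP₀p : IsPGroup p ↥((P₁ : Subgroup ↥L).map L.subtype) := P₁.isPGroup'.map L.subtype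
  obtain ⟨k₀, hk₀⟩ := hφ (DihedralGroup.sr 0)
  have hk₀L : k₀ ∉ L := by
    rintro ⟨i, hi⟩
    rw [hk₀] at hi
    cases hi
  obtain ⟨n, hnN, hnL⟩ : ∃ n ∈ Subgroup.normalizer (((P₁ : Subgroup ↥L).map L.subtype : Subgroup K) : Set K),
      n ∉ L := by
    by_contra hc
    push Not at hc
    have h1 : Subgroup.normalizer (((P₁ : Subgroup ↥L).map L.subtype : Subgroup K) : Set K) ≤ L := hc
    have h2 : Subgroup.normalizer (((P₁ : Subgroup ↥L).map L.subtype : Subgroup K) : Set K) ⊔ L = ⊤ := hfr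
    rw [sup_eq_right.2 h1] at h2
    apply hk₀L; rw [h2]; trivial
  obtain ⟨i, hi⟩ : ∃ i, φ n = DihedralGroup.sr i := by
    cases hφn : φ n with
    | r j => exact absurd ⟨j, hφn⟩ hnL
    | sr j => exact ⟨j, rfl⟩
  obtain ⟨a', b', hb', hab'⟩ := Nat.exists_eq_two_pow_mul_odd (orderOf_pos n).ne'
  refine ⟨n ^ b', (P₁ : Subgroup ↥L).map L.subtype, ?_, hP₀p, Subgroup.pow_mem _ hnN _, k₁ ^ b, huP, ?_⟩
  · have hd : orderOf (n ^ b') ∣ 2 ^ a' := by
      apply orderOf_dvd_of_pow_eq_one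
      rw [← pow_mul, mul_comm, ← hab', pow_orderOf_eq_one]
    obtain ⟨k, -, hk⟩ := (Nat.dvd_prime_pow Nat.prime_two).1 hd
    exact ⟨k, hk⟩
  · intro hc
    have h1 := congrArg φ hc
    rw [map_mul, map_mul, map_inv, map_pow, hi, hφv] at h1
    obtain ⟨c, hc'⟩ := hb'
    have h2 : (DihedralGroup.sr i : DihedralGroup p) ^ b' = DihedralGroup.sr i := by
      rw [hc', pow_succ, pow_mul, pow_two, DihedralGroup.sr_mul_self, one_pow, one_mul]
    rw [h2, DihedralGroup.sr_mul_r, DihedralGroup.inv_sr, DihedralGroup.sr_mul_sr] at h1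
    have h3 : (i - (i + (b : ZMod p))) = (b : ZMod p) := DihedralGroup.r.inj h1
    have h4 : (2 : ZMod p) * (b : ZMod p) = 0 := by linear_combination -h3
    have h5 : (2 : ZMod p) ≠ 0 := by
      intro h
      have h6 : ((2 : ℕ) : ZMod p) = 0 := by exact_mod_cast h
      rw [ZMod.natCast_eq_zero_iff] at h6
      exact hp ((Nat.prime_dvd_prime_iff_eq hpp Nat.prime_two).1 h6)
    rcases mul_eq_zero.1 h4 with h | h
    · exact h5 h
    · exact hb0 h

theorem involves_imp_A [Finite G] {p : ℕ} [Fact p.Prime] (hp : p ≠ 2)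
    (h : Cfsg.Involves (DihedralGroup p) G) :
    ∃ (x : G) (P : Subgroup G), (∃ k : ℕ, orderOf x = 2 ^ k) ∧ IsPGroup p ↥P ∧
      x ∈ Subgroup.normalizer (P : Set G) ∧ x ∉ Subgroup.centralizer (P : Set G) := by
  obtain ⟨K, R, hN, ⟨e⟩⟩ := h
  obtain ⟨x, P, ⟨k, hk⟩, hP, hxN, u, hu, hxu⟩ := exists_of_surj hp
    (e.toMonoidHom.comp (QuotientGroup.mk' (R.subgroupOf K)))
    (e.surjective.comp (QuotientGroup.mk'_surjective _))
  refine ⟨x.1, P.map K.subtype, ⟨k, ?_⟩, hP.map K.subtype, ?_, ?_⟩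
  · rw [← hk]; exact Subgroup.orderOf_coe x
  · rw [Subgroup.mem_normalizer_iff]
    intro h
    constructor
    · rintro ⟨v, hv, rfl⟩
      exact ⟨x * v * x⁻¹, (Subgroup.mem_normalizer_iff.1 hxN v).1 hv, by simp⟩
    · rintro ⟨v, hv, hve⟩
      refine ⟨x⁻¹ * v * x, ?_, ?_⟩
      · have := (Subgroup.mem_normalizer_iff.1 (Subgroup.inv_mem _ hxN) v).1 hv
        simpa using this
      · have hv' : (v : G) = ↑x * h * (↑x)⁻¹ := hve
        show K.subtype (x⁻¹ * v * x) = h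
        simp only [Subgroup.coe_subtype, Subgroup.coe_mul, Subgroup.coe_inv]
        rw [hv']; group
  · intro hc
    apply hxu
    have h1 := Subgroup.mem_centralizer_iff.1 hc u.1 ⟨u, hu, rfl⟩
    apply Subtype.ext
    simp only [Subgroup.coe_mul, Subgroup.coe_inv]
    rw [← h1]; group

theorem A_imp_B [Finite G] {p : ℕ} [Fact p.Prime] (x : G) (P : Subgroup G)
    (hx : ∃ k : ℕ, orderOf x = 2 ^ k) (hP : IsPGroup p ↥P)
    (hxN : x ∈ Subgroup.normalizer (P : Set G)) (hxC : x ∉ Subgroup.centralizer (P : Set G)) :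
    ∃ x y : G, (∃ k : ℕ, orderOf x = 2 ^ k) ∧ (∃ k : ℕ, orderOf y = p ^ k) ∧ y ≠ 1 ∧
      x * y * x⁻¹ = y⁻¹ := by
  classical
  obtain ⟨j, hj⟩ := hx
  have hex : ∃ i : ℕ, x ^ (2 ^ i) ∈ Subgroup.centralizer (P : Set G) :=
    ⟨j, by rw [← hj, pow_orderOf_eq_one]; exact Subgroup.one_mem _⟩
  have hi_mem : x ^ (2 ^ Nat.find hex) ∈ Subgroup.centralizer (P : Set G) := Nat.find_spec hex
  have hi0 : Nat.find hex ≠ 0 := by
    intro h0
    rw [h0, pow_zero, pow_one] at hi_mem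
    exact hxC hi_mem
  obtain ⟨i', hi'⟩ := Nat.exists_eq_succ_of_ne_zero hi0
  have hτ : x ^ (2 ^ i') ∉ Subgroup.centralizer (P : Set G) := Nat.find_min hex (by omega)
  have hτ2 : x ^ (2 ^ i') * x ^ (2 ^ i') ∈ Subgroup.centralizer (P : Set G) := by
    rw [← pow_add, ← two_mul, ← pow_succ', ← Nat.succ_eq_add_one, ← hi']; exact hi_mem
  have hτN : x ^ (2 ^ i') ∈ Subgroup.normalizer (P : Set G) := Subgroup.pow_mem _ hxN _
  have hτord : ∃ k : ℕ, orderOf (x ^ (2 ^ i')) = 2 ^ k := by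
    have hd : orderOf (x ^ (2 ^ i')) ∣ 2 ^ j := by
      rw [← hj]; exact orderOf_pow_dvd _
    obtain ⟨k, -, hk⟩ := (Nat.dvd_prime_pow Nat.prime_two).1 hd
    exact ⟨k, hk⟩
  obtain ⟨r, hr, hrτ⟩ : ∃ r ∈ P, r * x ^ (2 ^ i') ≠ x ^ (2 ^ i') * r := by
    by_contra hc
    push Not at hc
    exact hτ (Subgroup.mem_centralizer_iff.2 hc)
  generalize x ^ (2 ^ i') = τ at hτ2 hτN hτord hrτ
  refine ⟨τ, r⁻¹ * (τ * r * τ⁻¹), hτord, ?_, ?_, ?_⟩
  · have hyP : r⁻¹ * (τ * r * τ⁻¹) ∈ P :=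
      P.mul_mem (P.inv_mem hr) ((Subgroup.mem_normalizer_iff.1 hτN r).1 hr)
    obtain ⟨k, hk⟩ := hP ⟨_, hyP⟩
    have hk' : (r⁻¹ * (τ * r * τ⁻¹)) ^ (p ^ k) = 1 := by simpa using congrArg Subtype.val hk
    obtain ⟨k', -, hk''⟩ := (Nat.dvd_prime_pow Fact.out).1 (orderOf_dvd_of_pow_eq_one hk')
    exact ⟨k', hk''⟩
  · intro hc
    apply hrτ
    have h1 : τ * r * τ⁻¹ = r := by
      calc τ * r * τ⁻¹ = r * (r⁻¹ * (τ * r * τ⁻¹)) := by group
        _ = r := by rw [hc, mul_one]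
    calc r * τ = τ * r * τ⁻¹ * τ := by rw [h1]
      _ = τ * r := by group
  · have h1 := Subgroup.mem_centralizer_iff.1 hτ2 r hr
    have h2 : τ * (r⁻¹ * (τ * r * τ⁻¹)) * τ⁻¹ = τ * r⁻¹ * τ⁻¹ * (τ * τ * r) * τ⁻¹ * τ⁻¹ := by
      group
    rw [h2, ← h1]; group

theorem dihedral_of_gens {Q : Type*} [Group Q] (a b : Q) (n : ℕ) (hn : 0 < n) (hn2 : n ≠ 2)
    (ha : orderOf a = 2) (hb : orderOf b = n) (hab : a * b * a⁻¹ = b⁻¹)
    (htop : Subgroup.closure ({a, b} : Set Q) = ⊤) : Nonempty (Q ≃* DihedralGroup n) := by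
  have haa : a * a = 1 := by rw [← pow_two, ← ha, pow_orderOf_eq_one]
  have hainv : a⁻¹ = a := inv_eq_of_mul_eq_one_left haa
  have hab2 : (a * b) * (a * b) = 1 := by
    have h1 : a * b = b⁻¹ * a := by
      calc a * b = a * b * a⁻¹ * a := by group
        _ = b⁻¹ * a := by rw [hab]
    calc (a * b) * (a * b) = (b⁻¹ * a) * (a * b) := by rw [h1]
      _ = b⁻¹ * (a * a) * b := by group
      _ = 1 := by rw [haa]; group
  have hab1 : a * b ≠ 1 := by
    intro hc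
    have h1 : b = a := by
      have h2 : b = a⁻¹ := eq_inv_of_mul_eq_one_right hc
      rw [h2, hainv]
    rw [h1, ha] at hb
    exact hn2 hb.symm
  have hord : orderOf (a * b) = 2 := orderOf_eq_prime (by rw [pow_two]; exact hab2) hab1
  have hprod : a * (a * b) = b := by rw [← mul_assoc, haa, one_mul]
  have hpos : 0 < orderOf (a * (a * b)) := by rw [hprod, hb]; exact hn
  obtain ⟨e⟩ := Cfsg.Agent.Lib.Helper1.dihedral_closure a (a * b) ha hord hpos
  rw [hprod, hb] at e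
  have hcl : Subgroup.closure ({a, a * b} : Set Q) = ⊤ := by
    rw [eq_top_iff, ← htop, Subgroup.closure_le]
    intro z hz
    rcases hz with h | h
    · rw [h]; exact Subgroup.subset_closure (by simp)
    · rw [Set.mem_singleton_iff] at h
      have h1 : a * (a * b) ∈ Subgroup.closure ({a, a * b} : Set Q) :=
        Subgroup.mul_mem _ (Subgroup.subset_closure (by simp)) (Subgroup.subset_closure (by simp))
      rw [hprod] at h1
      rw [h]; exact h1
  exact ⟨(Subgroup.topEquiv.symm.trans (MulEquiv.subgroupCongr hcl.symm)).trans e⟩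

theorem B_imp_involves {p : ℕ} [Fact p.Prime] (hp : p ≠ 2) (x y : G)
    (hy : ∃ k : ℕ, orderOf y = p ^ k) (hy1 : y ≠ 1)
    (hxy : x * y * x⁻¹ = y⁻¹) : Cfsg.Involves (DihedralGroup p) G := by
  classical
  have hpp : p.Prime := Fact.out
  obtain ⟨k, hk⟩ := hy
  have hk0 : k ≠ 0 := by
    rintro rfl
    rw [pow_zero, orderOf_eq_one_iff] at hk
    exact hy1 hk
  obtain ⟨k', rfl⟩ := Nat.exists_eq_succ_of_ne_zero hk0
  have hy'p : (y ^ (p ^ k')) ^ p = 1 := by
    rw [← pow_mul, ← pow_succ, ← hk, pow_orderOf_eq_one]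
  have hy'1 : y ^ (p ^ k') ≠ 1 := by
    apply pow_ne_one_of_lt_orderOf (pow_pos hpp.pos k').ne'
    rw [hk]; exact Nat.pow_lt_pow_right hpp.one_lt (Nat.lt_succ_self k')
  have hxy' : x * y ^ (p ^ k') * x⁻¹ = (y ^ (p ^ k'))⁻¹ := by
    rw [← conj_pow, hxy, inv_pow]
  generalize y ^ (p ^ k') = y' at hy'p hy'1 hxy'
  have hncomm : x * y' ≠ y' * x := by
    intro hc
    have h1 : y' = y'⁻¹ := by
      rw [← hxy', hc]; group
    have h2 : y' ^ 2 = 1 := by
      rw [pow_two]; nth_rewrite 2 [h1]; exact mul_inv_cancel y'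
    have h3 : orderOf y' = p := orderOf_eq_prime hy'p hy'1
    have h4 : p ∣ 2 := by rw [← h3]; exact orderOf_dvd_of_pow_eq_one h2
    exact hp ((Nat.prime_dvd_prime_iff_eq hpp Nat.prime_two).1 h4)
  have hxK : x ∈ Subgroup.closure ({x, y'} : Set G) := Subgroup.subset_closure (by simp)
  have hyK : y' ∈ Subgroup.closure ({x, y'} : Set G) := Subgroup.subset_closure (by simp)
  have hx2y : x ^ 2 * y' = y' * x ^ 2 := by
    have h1 : x * y' = y'⁻¹ * x := by
      calc x * y' = x * y' * x⁻¹ * x := by group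
        _ = y'⁻¹ * x := by rw [hxy']
    have h2 : x * y'⁻¹ = y' * x := by
      have h3 : x * y'⁻¹ * x⁻¹ = y' := by
        have h4 : x * y'⁻¹ * x⁻¹ = (x * y' * x⁻¹)⁻¹ := by group
        rw [h4, hxy', inv_inv]
      calc x * y'⁻¹ = x * y'⁻¹ * x⁻¹ * x := by group
        _ = y' * x := by rw [h3]
    calc x ^ 2 * y' = x * (x * y') := by rw [pow_two, mul_assoc]
      _ = x * (y'⁻¹ * x) := by rw [h1]
      _ = (x * y'⁻¹) * x := by rw [mul_assoc]
      _ = y' * x * x := by rw [h2]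
      _ = y' * x ^ 2 := by rw [pow_two, mul_assoc]
  have hcent : ∀ k ∈ Subgroup.closure ({x, y'} : Set G), ∀ r ∈ Subgroup.zpowers (x ^ 2),
      k * r = r * k := by
    have hKC : Subgroup.closure ({x, y'} : Set G) ≤ Subgroup.centralizer ({x ^ 2} : Set G) := by
      rw [Subgroup.closure_le]
      intro z hz
      rcases hz with h | h
      · rw [h]
        exact Subgroup.mem_centralizer_singleton_iff.2 (by rw [pow_two]; group)
      · rw [Set.mem_singleton_iff] at h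
        rw [h]
        exact Subgroup.mem_centralizer_singleton_iff.2 hx2y.symm
    intro k hk r hr
    obtain ⟨m, rfl⟩ := Subgroup.mem_zpowers_iff.1 hr
    have h1 : Commute k (x ^ 2) := Subgroup.mem_centralizer_singleton_iff.1 (hKC hk)
    exact (h1.zpow_right m).eq
  have hxR : x ∉ Subgroup.zpowers (x ^ 2) := by
    intro hc
    exact hncomm (hcent y' hyK x hc).symm
  have hyR : y' ∉ Subgroup.zpowers (x ^ 2) := by
    intro hc
    exact hncomm (hcent x hxK y' hc)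
  have hN : ((Subgroup.zpowers (x ^ 2)).subgroupOf (Subgroup.closure ({x, y'} : Set G))).Normal := by
    constructor
    intro n hn g
    rw [Subgroup.mem_subgroupOf] at hn ⊢
    have h1 := hcent g.1 g.2 n.1 hn
    simp only [Subgroup.coe_mul, Subgroup.coe_inv]
    rw [h1, mul_inv_cancel_right]
    exact hn
  refine ⟨Subgroup.closure ({x, y'} : Set G), Subgroup.zpowers (x ^ 2), hN, ?_⟩
  have haa : (QuotientGroup.mk' ((Subgroup.zpowers (x ^ 2)).subgroupOf
      (Subgroup.closure ({x, y'} : Set G))) ⟨x, hxK⟩) ^ 2 = 1 := by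
    rw [← map_pow, QuotientGroup.mk'_apply, QuotientGroup.eq_one_iff, Subgroup.mem_subgroupOf]
    exact Subgroup.mem_zpowers _
  have ha1 : (QuotientGroup.mk' ((Subgroup.zpowers (x ^ 2)).subgroupOf
      (Subgroup.closure ({x, y'} : Set G))) ⟨x, hxK⟩) ≠ 1 := by
    rw [QuotientGroup.mk'_apply, Ne, QuotientGroup.eq_one_iff, Subgroup.mem_subgroupOf]
    exact hxR
  have hbp : (QuotientGroup.mk' ((Subgroup.zpowers (x ^ 2)).subgroupOf
      (Subgroup.closure ({x, y'} : Set G))) ⟨y', hyK⟩) ^ p = 1 := by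
    rw [← map_pow, QuotientGroup.mk'_apply, QuotientGroup.eq_one_iff, Subgroup.mem_subgroupOf]
    have h1 : ((⟨y', hyK⟩ : ↥(Subgroup.closure ({x, y'} : Set G))) ^ p) = 1 := Subtype.ext hy'p
    rw [h1]; exact Subgroup.one_mem _
  have hb1 : (QuotientGroup.mk' ((Subgroup.zpowers (x ^ 2)).subgroupOf
      (Subgroup.closure ({x, y'} : Set G))) ⟨y', hyK⟩) ≠ 1 := by
    rw [QuotientGroup.mk'_apply, Ne, QuotientGroup.eq_one_iff, Subgroup.mem_subgroupOf]
    exact hyR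
  have hab : (QuotientGroup.mk' ((Subgroup.zpowers (x ^ 2)).subgroupOf
      (Subgroup.closure ({x, y'} : Set G))) ⟨x, hxK⟩) *
      (QuotientGroup.mk' ((Subgroup.zpowers (x ^ 2)).subgroupOf
      (Subgroup.closure ({x, y'} : Set G))) ⟨y', hyK⟩) *
      (QuotientGroup.mk' ((Subgroup.zpowers (x ^ 2)).subgroupOf
      (Subgroup.closure ({x, y'} : Set G))) ⟨x, hxK⟩)⁻¹ =
      (QuotientGroup.mk' ((Subgroup.zpowers (x ^ 2)).subgroupOf
      (Subgroup.closure ({x, y'} : Set G))) ⟨y', hyK⟩)⁻¹ := by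
    rw [← map_inv, ← map_mul, ← map_mul, ← map_inv]
    congr 1
    exact Subtype.ext hxy'
  have htop : Subgroup.closure ({QuotientGroup.mk' ((Subgroup.zpowers (x ^ 2)).subgroupOf
      (Subgroup.closure ({x, y'} : Set G))) ⟨x, hxK⟩,
      QuotientGroup.mk' ((Subgroup.zpowers (x ^ 2)).subgroupOf
      (Subgroup.closure ({x, y'} : Set G))) ⟨y', hyK⟩} :
      Set (↥(Subgroup.closure ({x, y'} : Set G)) ⧸ (Subgroup.zpowers (x ^ 2)).subgroupOf
      (Subgroup.closure ({x, y'} : Set G)))) = ⊤ := by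
    rw [eq_top_iff]
    rintro q -
    obtain ⟨k, rfl⟩ := QuotientGroup.mk_surjective q
    have key : Subgroup.closure ({x, y'} : Set G) ≤
        ((Subgroup.closure ({QuotientGroup.mk' ((Subgroup.zpowers (x ^ 2)).subgroupOf
      (Subgroup.closure ({x, y'} : Set G))) ⟨x, hxK⟩,
      QuotientGroup.mk' ((Subgroup.zpowers (x ^ 2)).subgroupOf
      (Subgroup.closure ({x, y'} : Set G))) ⟨y', hyK⟩} :
      Set (↥(Subgroup.closure ({x, y'} : Set G)) ⧸ (Subgroup.zpowers (x ^ 2)).subgroupOf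
      (Subgroup.closure ({x, y'} : Set G))))).comap (QuotientGroup.mk'
        ((Subgroup.zpowers (x ^ 2)).subgroupOf (Subgroup.closure ({x, y'} : Set G))))).map
        (Subgroup.closure ({x, y'} : Set G)).subtype := by
      rw [Subgroup.closure_le]
      intro z hz
      rcases hz with h | h
      · exact ⟨⟨x, hxK⟩, Subgroup.subset_closure (by simp), h.symm⟩
      · rw [Set.mem_singleton_iff] at h
        exact ⟨⟨y', hyK⟩, Subgroup.subset_closure (by simp), h.symm⟩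
    obtain ⟨k', hk', hkk⟩ := key k.2
    have h1 : k' = k := Subtype.ext hkk
    rw [← h1]; exact hk'
  exact dihedral_of_gens _ _ p hpp.pos hp (orderOf_eq_prime haa ha1) (orderOf_eq_prime hbp hb1)
    hab htop

end Cfsg.Agent.Lib.Helper6.DihInv
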