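import Mathlib
import Cfsg.Prelude.Def_Local
import Cfsg.Agent.Lib.Helper2.PComp
import Cfsg.Agent.Lib.Helper6.EqOrdConj
import Cfsg.Agent.Lib.Helper6.TateAux

namespace Cfsg.Agent.Lib.Helper6.EqOrdPSolv

open Subgroup
open Cfsg.Agent.Lib.Helper2

theorem exists_step {H : Type*} [Group H] [Finite H] {p : ℕ} [Fact p.Prime]
    (hsolv : Cfsg.IsPSolvable p H) (hdiv : p ∣ Nat.card H) :
    ∃ K L : Subgroup H, K ≤ L ∧ K.Normal ∧ L.Normal ∧ (Nat.card K).Coprime p ∧
      (∃ m : ℕ, K.relIndex L = p ^ m) ∧ p ∣ Nat.card L := by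
  classical
  have hp : p.Prime := Fact.out
  obtain ⟨n, Hs, h0, hlast, hmono, hnorm, hstep⟩ := hsolv
  have hex : ∃ k : ℕ, ∃ hk : k < n + 1, p ∣ Nat.card (Hs ⟨k, hk⟩) := by
    refine ⟨n, Nat.lt_succ_self n, ?_⟩
    have h1 : Hs ⟨n, Nat.lt_succ_self n⟩ = ⊤ := hlast
    rw [h1, Subgroup.card_top]; exact hdiv
  obtain ⟨hk, hkd⟩ := Nat.find_spec hex
  have hk0 : Nat.find hex ≠ 0 := by
    intro h
    have h1 : Hs ⟨Nat.find hex, hk⟩ = ⊥ := by
      have h2 : (⟨Nat.find hex, hk⟩ : Fin (n + 1)) = 0 := Fin.ext h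
      rw [h2, h0]
    rw [h1, Subgroup.card_bot] at hkd
    exact hp.one_lt.ne' (Nat.dvd_one.1 hkd)
  obtain ⟨j, hj⟩ : ∃ j, Nat.find hex = j + 1 := ⟨Nat.find hex - 1, by omega⟩
  have hjn : j < n := by omega
  set i : Fin n := ⟨j, hjn⟩ with hi
  have hcs : ¬ p ∣ Nat.card (Hs i.castSucc) := by
    intro hd
    have h1 := Nat.find_min hex (m := j) (by omega)
    exact h1 ⟨by omega, hd⟩
  have hsucc : p ∣ Nat.card (Hs i.succ) := by
    have h1 : i.succ = ⟨Nat.find hex, hk⟩ := Fin.ext (show j + 1 = Nat.find hex from hj.symm)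
    rw [h1]; exact hkd
  have hle : Hs i.castSucc ≤ Hs i.succ := hmono (Fin.castSucc_le_succ i)
  refine ⟨Hs i.castSucc, Hs i.succ, hle, hnorm _, hnorm _, ?_, ?_, hsucc⟩
  · exact ((Nat.Prime.coprime_iff_not_dvd hp).2 hcs).symm
  · rcases hstep i with h | h
    · exact h
    · exfalso
      have h1 : Nat.card (Hs i.castSucc) * (Hs i.castSucc).relIndex (Hs i.succ) =
          Nat.card (Hs i.succ) := by
        rw [← relIndex_bot_left, ← relIndex_bot_left]
        exact relIndex_mul_relIndex _ _ _ bot_le hle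
      rw [← h1] at hsucc
      rcases (Nat.Prime.dvd_mul hp).1 hsucc with h2 | h2
      · exact hcs h2
      · exact (Nat.Prime.coprime_iff_not_dvd hp).1 h.symm h2

theorem isPGroup_iff_forall {G : Type*} [Group G] {p : ℕ} (S : Subgroup G) :
    IsPGroup p ↥S ↔ ∀ x ∈ S, ∃ k : ℕ, x ^ (p ^ k) = 1 := by
  constructor
  · intro h x hx
    obtain ⟨k, hk⟩ := h ⟨x, hx⟩
    exact ⟨k, by simpa using congrArg Subtype.val hk⟩
  · intro h x
    obtain ⟨k, hk⟩ := h x x.2
    exact ⟨k, Subtype.ext (by rw [Subgroup.coe_pow, hk, Subgroup.coe_one])⟩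

theorem main {G : Type*} [Group G] [Finite G]
    {p : ℕ} [Fact p.Prime] (hp : p ≠ 2)
    (hC : ∀ H K : Subgroup G, IsPGroup p H → IsPGroup p K → Nat.card H = Nat.card K →
      ∃ g : G, K = H.map (MulAut.conj g).toMonoidHom) (P : Sylow p G)
    (H : Subgroup G) [hHn : H.Normal] (hsolv : Cfsg.IsPSolvable p H) (hdiv : p ∣ Nat.card H) :
    IsMulCommutative P ∧ ((P : Subgroup G) ≤ H ∨ IsCyclic P) := by
  classical
  have hpp : p.Prime := Fact.out
  have hordH : ∀ x : G, orderOf x = p → x ∈ H := by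
    intro x hx
    obtain ⟨h, hh⟩ := exists_prime_orderOf_dvd_card' p hdiv
    have h1 : Nat.card (zpowers (h : G)) = p := by
      rw [Nat.card_zpowers, Subgroup.orderOf_coe, hh]
    have h2 : Nat.card (zpowers x) = p := by rw [Nat.card_zpowers, hx]
    obtain ⟨g, hg⟩ := hC (zpowers (h : G)) (zpowers x)
      (IsPGroup.of_card (n := 1) (by rw [h1, pow_one]))
      (IsPGroup.of_card (n := 1) (by rw [h2, pow_one])) (by rw [h1, h2])
    have hx' : x ∈ (zpowers (h : G)).map (MulAut.conj g).toMonoidHom := hg ▸ mem_zpowers x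
    obtain ⟨y, hy, hyx⟩ := Subgroup.mem_map.1 hx'
    have hyH : y ∈ H := (zpowers_le.2 h.2) hy
    rw [← hyx]
    exact hHn.conj_mem y hyH g
  have hexpH : (∀ x ∈ (P : Subgroup G), x ^ p = 1) → (P : Subgroup G) ≤ H := by
    intro hexp x hx
    by_cases hx1 : x = 1
    · rw [hx1]; exact one_mem _
    · exact hordH x (EqOrdConj.order_p x (hexp x hx) hx1)
  rcases EqOrdConj.main hC P with hcyc | hel | ⟨h2, -⟩ | ⟨-, hnc, hcard, hexp⟩
  · haveI := hcyc
    exact ⟨inferInstance, Or.inr hcyc⟩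
  · exact ⟨hel.1, Or.inl (hexpH hel.2)⟩
  · exact absurd h2 hp
  · exfalso
    have hexp' : ∀ x ∈ (P : Subgroup G), x ^ p = 1 := by
      intro x hx
      have h1 : (⟨x, hx⟩ : ↥(P : Subgroup G)) ^ Monoid.exponent ↥(P : Subgroup G) = 1 :=
        Monoid.pow_exponent_eq_one _
      have h2 : (⟨x, hx⟩ : ↥(P : Subgroup G)) ^ p = 1 :=
        (congrArg (fun n => (⟨x, hx⟩ : ↥(P : Subgroup G)) ^ n) hexp).symm.trans h1
      simpa using congrArg Subtype.val h2
    obtain ⟨K, L, hKL, hKn, hLn, hKcop, ⟨m, hm⟩, hLdiv⟩ := exists_step hsolv hdiv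
    set O : Subgroup G := Cfsg.pPrimeCore p G with hOdef
    haveI hOn : O.Normal := PComp.pPrimeCore_normal p
    have hOcop : (Nat.card O).Coprime p := Local.pPrimeCore_coprime p
    have hHsn : H.IsSubnormal := hHn.isSubnormal
    have hnormImg : ∀ N : Subgroup ↥H, N.Normal →
        H ≤ normalizer ((N.map H.subtype : Subgroup G) : Set G) := by
      intro N hN h hh
      apply Cfsg.Agent.Lib.Helper6.TateAux.mem_normalizer_of_conj_le
      rintro _ ⟨k, hk, rfl⟩
      exact ⟨⟨h, hh⟩ * k * ⟨h, hh⟩⁻¹, hN.conj_mem k hk ⟨h, hh⟩, rfl⟩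
    have hKO : K.map H.subtype ≤ O := by
      obtain ⟨M₀, hM₀n, hM₀c, hKM₀⟩ := PComp.sn_le_normal_of
        (P := fun N : Subgroup G => (Nat.card N).Coprime p)
        (PComp.coprime_bot p) (PComp.coprime_conj p) (PComp.coprime_sup_of_le_normalizer p) hHsn
        (K.map H.subtype) (map_subtype_le K) (hnormImg K hKn)
        (by
          show (Nat.card ↥(K.map H.subtype)).Coprime p
          rw [Subgroup.card_map_of_injective (Subgroup.subtype_injective _)]; exact hKcop)
      exact hKM₀.trans (le_sSup ⟨hM₀n, hM₀c⟩)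
    have hLp : IsPGroup p ↥((L.map H.subtype).map (QuotientGroup.mk' O)) := by
      rw [isPGroup_iff_forall]
      rintro _ ⟨_, ⟨x, hx, rfl⟩, rfl⟩
      refine ⟨m, ?_⟩
      have h1 : x ^ (p ^ m) ∈ K := by rw [← hm]; exact Subgroup.pow_relIndex_mem K hx
      have h2 : ((x ^ (p ^ m) : ↥H) : G) ∈ O := hKO ⟨_, h1, rfl⟩
      rw [← map_pow, ← map_pow]
      exact (QuotientGroup.eq_one_iff _).2 h2
    obtain ⟨M, hMn, hMp, hLM⟩ := PComp.sn_le_normal_of
      (P := fun N : Subgroup G => IsPGroup p ↥(N.map (QuotientGroup.mk' O)))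
      (by
        show IsPGroup p ↥((⊥ : Subgroup G).map (QuotientGroup.mk' O))
        rw [Subgroup.map_bot]; exact IsPGroup.of_bot)
      (by
        intro N g hN
        show IsPGroup p ↥((N.map (MulAut.conj g).toMonoidHom).map (QuotientGroup.mk' O))
        have hN' : IsPGroup p ↥(N.map (QuotientGroup.mk' O)) := hN
        rw [isPGroup_iff_forall] at hN' ⊢
        rintro _ ⟨_, ⟨x, hx, rfl⟩, rfl⟩
        obtain ⟨k, hk⟩ := hN' _ ⟨x, hx, rfl⟩
        refine ⟨k, ?_⟩
        have e : (QuotientGroup.mk' O) ((MulAut.conj g).toMonoidHom x) =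
            (QuotientGroup.mk' O g) * (QuotientGroup.mk' O x) * (QuotientGroup.mk' O g)⁻¹ := by
          show (QuotientGroup.mk' O) (g * x * g⁻¹) = _
          rw [map_mul, map_mul, map_inv]
        rw [e, conj_pow, hk, mul_one, mul_inv_cancel])
      (by
        intro A B hAB hA hB
        show IsPGroup p ↥((A ⊔ B).map (QuotientGroup.mk' O))
        rw [Subgroup.map_sup]
        exact IsPGroup.to_sup_of_normal_right' hA hB (PComp.map_le_normalizer_map _ hAB))
      hHsn (L.map H.subtype) (map_subtype_le L) (hnormImg L hLn) hLp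
    set Xb : Subgroup (G ⧸ O) := M.map (QuotientGroup.mk' O) with hXb
    haveI hXbn : Xb.Normal := hMn.map _ (QuotientGroup.mk'_surjective O)
    have hXbp : IsPGroup p ↥Xb := hMp
    have hXb1 : Xb ≠ ⊥ := by
      intro h
      have h1 : M ≤ O := by
        intro x hx
        have h2 : (QuotientGroup.mk' O) x ∈ Xb := ⟨x, hx, rfl⟩
        rw [h, mem_bot] at h2
        exact (QuotientGroup.eq_one_iff x).1 h2
      have h3 : Nat.card (L.map H.subtype) ∣ Nat.card O := Subgroup.card_dvd_of_le (hLM.trans h1)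
      rw [Subgroup.card_map_of_injective (Subgroup.subtype_injective _)] at h3
      exact (Nat.Prime.coprime_iff_not_dvd hpp).1 hOcop.symm (dvd_trans hLdiv h3)
    set Zb : Subgroup (G ⧸ O) := Xb ⊓ centralizer (Xb : Set (G ⧸ O)) with hZb
    haveI hZbn : Zb.Normal := inferInstance
    obtain ⟨zb, hzbZ, hzbo⟩ : ∃ zb ∈ Zb, orderOf zb = p := by
      haveI : Nontrivial ↥Xb := (Subgroup.nontrivial_iff_ne_bot Xb).2 hXb1
      have hcen := IsPGroup.center_nontrivial hXbp
      obtain ⟨⟨z, hz⟩, hz1⟩ := exists_ne (1 : center ↥Xb)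
      have hz1' : z ≠ 1 := fun h => hz1 (Subtype.ext h)
      obtain ⟨k, hk⟩ := (IsPGroup.iff_orderOf.1 hXbp) z
      have hk1 : 1 ≤ k := by
        by_contra hlt
        have : k = 0 := by omega
        rw [this, pow_zero, orderOf_eq_one_iff] at hk
        exact hz1' hk
      refine ⟨((z ^ (p ^ (k - 1)) : ↥Xb) : G ⧸ O), ?_, ?_⟩
      · refine mem_inf.2 ⟨(z ^ (p ^ (k - 1))).2, ?_⟩
        rw [mem_centralizer_iff]
        intro x hx
        have h1 : z ^ (p ^ (k - 1)) ∈ center ↥Xb := pow_mem hz _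
        have h2 := mem_center_iff.1 h1 ⟨x, hx⟩
        exact congrArg Subtype.val h2
      · rw [Subgroup.orderOf_coe]
        have h0 : orderOf z ≠ 0 := (orderOf_pos z).ne'
        have hd : p ∣ orderOf z := by rw [hk]; exact dvd_pow_self p (by omega)
        have := orderOf_pow_orderOf_div (x := z) (n := p) h0 hd
        have hdiv' : orderOf z / p = p ^ (k - 1) := by
          rw [hk]
          conv_lhs => rw [show p ^ k / p = p ^ k / p ^ 1 by rw [pow_one]]
          exact Nat.pow_div hk1 hpp.pos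
        rwa [hdiv'] at this
    obtain ⟨y, hy⟩ := QuotientGroup.mk'_surjective O zb
    have hdy : p ∣ orderOf y := by
      have := orderOf_map_dvd (QuotientGroup.mk' O) y
      rw [hy, hzbo] at this
      exact this
    set a := y ^ (orderOf y / p) with ha
    have hoa : orderOf a = p := orderOf_pow_orderOf_div (orderOf_pos y).ne' hdy
    have haZ : (QuotientGroup.mk' O) a ∈ Zb := by
      rw [ha, map_pow, hy]; exact pow_mem hzbZ _
    have hPZ : ∀ x ∈ (P : Subgroup G), (QuotientGroup.mk' O) x ∈ Zb := by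
      intro x hx
      by_cases hx1 : x = 1
      · rw [hx1, map_one]; exact one_mem _
      · have hox : orderOf x = p := EqOrdConj.order_p x (hexp' x hx) hx1
        have h1 : Nat.card (zpowers a) = p := by rw [Nat.card_zpowers, hoa]
        have h2 : Nat.card (zpowers x) = p := by rw [Nat.card_zpowers, hox]
        obtain ⟨g, hg⟩ := hC (zpowers a) (zpowers x)
          (IsPGroup.of_card (n := 1) (by rw [h1, pow_one]))
          (IsPGroup.of_card (n := 1) (by rw [h2, pow_one])) (by rw [h1, h2])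
        have hx' : x ∈ (zpowers a).map (MulAut.conj g).toMonoidHom := hg ▸ mem_zpowers x
        obtain ⟨a', ha', hxa⟩ := Subgroup.mem_map.1 hx'
        obtain ⟨i, hi⟩ := mem_zpowers_iff.1 ha'
        have h3 : (QuotientGroup.mk' O) a' ∈ Zb := by
          rw [← hi, map_zpow]; exact zpow_mem haZ i
        have h4 : (QuotientGroup.mk' O) x =
            (QuotientGroup.mk' O g) * (QuotientGroup.mk' O a') * (QuotientGroup.mk' O g)⁻¹ := by
          rw [← hxa]
          show (QuotientGroup.mk' O) (g * a' * g⁻¹) = _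
          rw [map_mul, map_mul, map_inv]
        rw [h4]
        exact hZbn.conj_mem _ h3 _
    apply hnc
    refine ⟨⟨fun x u => ?_⟩⟩
    apply Subtype.ext
    show (x : G) * (u : G) = (u : G) * (x : G)
    have hx := hPZ x x.2
    have hu := hPZ u u.2
    have h1 : (QuotientGroup.mk' O) (u : G) * (QuotientGroup.mk' O) (x : G) =
        (QuotientGroup.mk' O) (x : G) * (QuotientGroup.mk' O) (u : G) :=
      mem_centralizer_iff.1 (mem_inf.1 hx).2 _ (mem_inf.1 hu).1
    have h2 : (x : G) * (u : G) * (x : G)⁻¹ * (u : G)⁻¹ ∈ O := by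
      rw [← QuotientGroup.eq_one_iff]
      show (QuotientGroup.mk' O) ((x : G) * (u : G) * (x : G)⁻¹ * (u : G)⁻¹) = 1
      rw [map_mul, map_mul, map_mul, map_inv, map_inv, ← h1]
      group
    have h3 : (x : G) * (u : G) * (x : G)⁻¹ * (u : G)⁻¹ ∈ (P : Subgroup G) :=
      mul_mem (mul_mem (mul_mem x.2 u.2) (inv_mem x.2)) (inv_mem u.2)
    have h4 := Local.eq_one_of_mem_pgroup_coprime P.isPGroup' hOcop h3 h2
    calc (x : G) * (u : G)
        = ((x : G) * (u : G) * (x : G)⁻¹ * (u : G)⁻¹) * ((u : G) * (x : G)) := by group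
      _ = (u : G) * (x : G) := by rw [h4, one_mul]

end Cfsg.Agent.Lib.Helper6.EqOrdPSolv
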