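import Mathlib
import Cfsg.Prelude.Def_Characters
import Cfsg.Agent.Lib.Helper3.CharAb
import Cfsg.Agent.S0158

set_option autoImplicit false

namespace Cfsg.Agent.Lib.Helper6.InvCount

open scoped ComplexConjugate
open Cfsg.Agent.Lib.Helper3.Char Cfsg.Agent.Lib.Helper3.CharCore Cfsg.Agent.Lib.Helper3.CharInt
  Cfsg.Agent.Lib.Helper3.CharArith Cfsg.Agent.Lib.Helper3.CharLinear Cfsg.Agent.Lib.Helper3.CharAb

universe v

/-- a group of order `2 ^ d` acting with stabilizers of order at most `2 ^ m`. -/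
theorem dvd_card_of_stabilizer_le {Λ X : Type*} [Group Λ] [Finite Λ] [Finite X] [MulAction Λ X]
    (d m : ℕ) (hΛ : Nat.card Λ = 2 ^ d)
    (hst : ∀ x : X, Nat.card (MulAction.stabilizer Λ x) ≤ 2 ^ m) :
    2 ^ (d - m) ∣ Nat.card X := by
  classical
  rw [Nat.card_congr (MulAction.selfEquivSigmaOrbitsQuotientStabilizer Λ X)]
  haveI : Fintype (Quotient (MulAction.orbitRel Λ X)) := Fintype.ofFinite _
  rw [Nat.card_sigma]
  apply Finset.dvd_sum
  intro ω _
  have h1 : Nat.card (Λ ⧸ MulAction.stabilizer Λ ω.out) *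
      Nat.card (MulAction.stabilizer Λ ω.out) = 2 ^ d := by
    rw [← hΛ]
    exact (Subgroup.card_eq_card_quotient_mul_card_subgroup _).symm
  have h2 : Nat.card (MulAction.stabilizer Λ ω.out) ∣ 2 ^ d := Dvd.intro_left _ h1
  obtain ⟨s, hs, hs'⟩ := (Nat.dvd_prime_pow Nat.prime_two).mp h2
  have h3 := hst ω.out
  rw [hs'] at h3 h1
  have hsm : s ≤ m := (Nat.pow_le_pow_iff_right (by norm_num)).mp h3
  have h4 : Nat.card (Λ ⧸ MulAction.stabilizer Λ ω.out) = 2 ^ (d - s) := by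
    have h5 : 2 ^ d = 2 ^ (d - s) * 2 ^ s := by rw [← pow_add]; congr 1; omega
    rw [h5] at h1
    exact Nat.eq_of_mul_eq_mul_right (by positivity) h1
  rw [h4]
  exact pow_dvd_pow 2 (by omega)

/-- the stabilizer of an irreducible character under twisting by linear characters has order at
most the square of the degree. -/
theorem stab_card_le {G : Type v} [Group G] [Fintype G] {χ : G → ℂ}
    (hχ : Cfsg.IsIrrCharacter G χ) (n : ℕ) (hn : χ 1 = (n : ℂ)) (S : Finset (G →* ℂˣ))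
    (hS : ∀ μ ∈ S, ∀ g : G, ((μ g : ℂˣ) : ℂ) * χ g = χ g) : S.card ≤ n ^ 2 := by
  classical
  have hcard : (0 : ℝ) < Nat.card G := by exact_mod_cast Nat.card_pos
  have hne : (Nat.card G : ℂ) ≠ 0 := by exact_mod_cast Nat.card_pos.ne'
  have hbound : ∀ g : G, Complex.normSq (χ g) ≤ (n : ℝ) ^ 2 := by
    obtain ⟨m, ρ, hirr, rfl⟩ := hχ
    intro g
    have h1 := rep_char_norm_le ρ g
    have h2 : ρ.character 1 = (Module.finrank ℂ (Fin m → ℂ) : ℂ) := Representation.char_one ρ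
    rw [hn] at h2
    have h3 : (n : ℕ) = Module.finrank ℂ (Fin m → ℂ) := by exact_mod_cast h2
    rw [← h3] at h1
    rw [Complex.normSq_eq_norm_sq]
    exact pow_le_pow_left₀ (norm_nonneg _) h1 2
  have hsumχ : ∑ g : G, Complex.normSq (χ g) = (Nat.card G : ℝ) := by
    have h1 := irr_inner_self hχ
    unfold Cfsg.classInner at h1
    rw [inv_mul_eq_iff_eq_mul₀ hne, mul_one] at h1
    apply Complex.ofReal_injective
    rw [Complex.ofReal_sum]
    simp only [← Complex.mul_conj]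
    rw [h1]
    simp
  have horth : ∀ μ μ' : G →* ℂˣ, ∑ g : G, ((μ g : ℂˣ) : ℂ) * conj ((μ' g : ℂˣ) : ℂ) =
      if μ = μ' then (Nat.card G : ℂ) else 0 := by
    intro μ μ'
    have h1 := irr_orthonormal (isIrr_of_hom μ) (isIrr_of_hom μ')
    unfold Cfsg.classInner at h1
    rw [inv_mul_eq_iff_eq_mul₀ hne] at h1
    rw [h1]
    by_cases h : μ = μ'
    · subst h; simp
    · rw [if_neg h, if_neg (fun hh => h (hom_injective μ μ' hh)), mul_zero]
  have hsumF : ∑ g : G, Complex.normSq (∑ μ ∈ S, ((μ g : ℂˣ) : ℂ)) =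
      (S.card : ℝ) * (Nat.card G : ℝ) := by
    apply Complex.ofReal_injective
    rw [Complex.ofReal_sum]
    have h1 : ∀ g : G, ((Complex.normSq (∑ μ ∈ S, ((μ g : ℂˣ) : ℂ)) : ℝ) : ℂ) =
        ∑ μ ∈ S, ∑ μ' ∈ S, ((μ g : ℂˣ) : ℂ) * conj ((μ' g : ℂˣ) : ℂ) := by
      intro g
      rw [← Complex.mul_conj, map_sum, Finset.sum_mul_sum]
    rw [Finset.sum_congr rfl (fun g _ => h1 g), Finset.sum_comm]
    have h2 : ∀ μ ∈ S, ∑ g : G, ∑ μ' ∈ S, ((μ g : ℂˣ) : ℂ) * conj ((μ' g : ℂˣ) : ℂ) =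
        (Nat.card G : ℂ) := by
      intro μ hμ
      rw [Finset.sum_comm, Finset.sum_congr rfl (fun μ' _ => horth μ μ'), Finset.sum_ite_eq S μ,
        if_pos hμ]
    rw [Finset.sum_congr rfl h2, Finset.sum_const, nsmul_eq_mul]
    push_cast
    ring
  have hF : ∀ g : G, χ g ≠ 0 → ∑ μ ∈ S, ((μ g : ℂˣ) : ℂ) = (S.card : ℂ) := by
    intro g hg
    have h1 : (∑ μ ∈ S, ((μ g : ℂˣ) : ℂ)) * χ g = (S.card : ℂ) * χ g := by
      rw [Finset.sum_mul, Finset.sum_congr rfl (fun μ hμ => hS μ hμ g), Finset.sum_const,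
        nsmul_eq_mul]
    exact mul_right_cancel₀ hg h1
  set T : Finset G := Finset.univ.filter (fun g => χ g ≠ 0) with hT
  have hi : (T.card : ℝ) * (S.card : ℝ) ^ 2 ≤ (S.card : ℝ) * (Nat.card G : ℝ) := by
    rw [← hsumF]
    have h1 : ∑ g ∈ T, Complex.normSq (∑ μ ∈ S, ((μ g : ℂˣ) : ℂ)) = (T.card : ℝ) * (S.card : ℝ) ^ 2 := by
      have h2 : ∀ g ∈ T, Complex.normSq (∑ μ ∈ S, ((μ g : ℂˣ) : ℂ)) = (S.card : ℝ) ^ 2 := by
        intro g hg
        rw [hT, Finset.mem_filter] at hg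
        rw [hF g hg.2, Complex.normSq_natCast, sq]
      rw [Finset.sum_congr rfl h2, Finset.sum_const, nsmul_eq_mul]
    rw [← h1]
    exact Finset.sum_le_sum_of_subset_of_nonneg (Finset.filter_subset _ _)
      (fun _ _ _ => Complex.normSq_nonneg _)
  have hii : (Nat.card G : ℝ) ≤ (T.card : ℝ) * (n : ℝ) ^ 2 := by
    rw [← hsumχ]
    have h1 : ∑ g ∈ T, Complex.normSq (χ g) = ∑ g : G, Complex.normSq (χ g) := by
      rw [hT]
      apply Finset.sum_filter_of_ne
      intro g _ hg h0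
      apply hg
      rw [h0]
      simp
    rw [← h1]
    calc ∑ g ∈ T, Complex.normSq (χ g) ≤ ∑ g ∈ T, (n : ℝ) ^ 2 :=
          Finset.sum_le_sum (fun g _ => hbound g)
      _ = (T.card : ℝ) * (n : ℝ) ^ 2 := by rw [Finset.sum_const, nsmul_eq_mul]
  have hfin : (S.card : ℝ) ≤ (n : ℝ) ^ 2 := by
    by_cases hs : (S.card : ℝ) = 0
    · rw [hs]; positivity
    · have hspos : 0 < (S.card : ℝ) := lt_of_le_of_ne (by positivity) (Ne.symm hs)
      have h3 : (T.card : ℝ) * (S.card : ℝ) ≤ (Nat.card G : ℝ) := by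
        apply le_of_mul_le_mul_right _ hspos
        calc (T.card : ℝ) * (S.card : ℝ) * (S.card : ℝ) = (T.card : ℝ) * (S.card : ℝ) ^ 2 := by ring
          _ ≤ (S.card : ℝ) * (Nat.card G : ℝ) := hi
          _ = (Nat.card G : ℝ) * (S.card : ℝ) := by ring
      have h4 : (Nat.card G : ℝ) * (S.card : ℝ) ≤ (Nat.card G : ℝ) * (n : ℝ) ^ 2 := by
        calc (Nat.card G : ℝ) * (S.card : ℝ) ≤ ((T.card : ℝ) * (n : ℝ) ^ 2) * (S.card : ℝ) :=
              mul_le_mul_of_nonneg_right hii hspos.le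
          _ = ((T.card : ℝ) * (S.card : ℝ)) * (n : ℝ) ^ 2 := by ring
          _ ≤ (Nat.card G : ℝ) * (n : ℝ) ^ 2 := mul_le_mul_of_nonneg_right h3 (by positivity)
      exact le_of_mul_le_mul_left h4 hcard
  exact_mod_cast hfin

/-- twisting by a group of characters of order `2 ^ d` that are trivial on squares: the number of
irreducible characters of degree `2 ^ e` with a given Frobenius-Schur indicator is divisible by
`2 ^ (d - 2e)`. -/
theorem dvd_card_twist {G : Type v} [Group G] [Fintype G] {Λ : Type*} [Group Λ] [Finite Λ]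
    (lam : Λ →* (G →* ℂˣ)) (hinj : Function.Injective lam)
    (hsq : ∀ (μ : Λ) (s : G), lam μ (s * s) = 1)
    (d : ℕ) (hΛ : Nat.card Λ = 2 ^ d) (e : ℕ) (c : ℂ) :
    2 ^ (d - 2 * e) ∣ Nat.card {χ : Cfsg.IrrCharacter G //
      (χ : G → ℂ) 1 = ((2 ^ e : ℕ) : ℂ) ∧
        (Nat.card G : ℂ)⁻¹ * ∑ s : G, (χ : G → ℂ) (s * s) = c} := by
  classical
  letI : MulAction Λ {χ : Cfsg.IrrCharacter G //
      (χ : G → ℂ) 1 = ((2 ^ e : ℕ) : ℂ) ∧
        (Nat.card G : ℂ)⁻¹ * ∑ s : G, (χ : G → ℂ) (s * s) = c} :=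
    { smul := fun μ x => ⟨⟨(fun g => ((lam μ g : ℂˣ) : ℂ)) * (x.1 : G → ℂ),
          lin_mul_irr (isCharacter_of_irr (isIrr_of_hom (lam μ))) (by simp) x.1.2⟩, by
            constructor
            · have h1 := x.2.1
              simp only [Pi.mul_apply, map_one, Units.val_one, one_mul]
              exact h1
            · refine Eq.trans ?_ x.2.2
              congr 1
              apply Finset.sum_congr rfl
              intro s _
              simp only [Pi.mul_apply, hsq μ s, Units.val_one, one_mul]⟩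
      one_smul := fun x => Subtype.ext (Subtype.ext (by
        funext g
        show ((lam 1 g : ℂˣ) : ℂ) * (x.1 : G → ℂ) g = (x.1 : G → ℂ) g
        simp))
      mul_smul := fun μ₁ μ₂ x => Subtype.ext (Subtype.ext (by
        funext g
        show ((lam (μ₁ * μ₂) g : ℂˣ) : ℂ) * (x.1 : G → ℂ) g =
          ((lam μ₁ g : ℂˣ) : ℂ) * (((lam μ₂ g : ℂˣ) : ℂ) * (x.1 : G → ℂ) g)
        simp [mul_assoc])) }
  apply dvd_card_of_stabilizer_le d (2 * e) hΛ
  intro x
  haveI : Fintype (MulAction.stabilizer Λ x) := Fintype.ofFinite _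
  have h1 := stab_card_le x.1.2 (2 ^ e) x.2.1
    ((Finset.univ : Finset (MulAction.stabilizer Λ x)).image (fun μ => lam μ.1)) (by
      intro μ hμ g
      rw [Finset.mem_image] at hμ
      obtain ⟨⟨ν, hν⟩, -, rfl⟩ := hμ
      have h2 : ν • x = x := hν
      have h3 := congrArg (fun y : {χ : Cfsg.IrrCharacter G //
        (χ : G → ℂ) 1 = ((2 ^ e : ℕ) : ℂ) ∧
          (Nat.card G : ℂ)⁻¹ * ∑ s : G, (χ : G → ℂ) (s * s) = c} => (y.1 : G → ℂ) g) h2
      exact h3)
  rw [Finset.card_image_of_injective _ (fun a b h => Subtype.ext (hinj h)), Finset.card_univ,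
    ← Nat.card_eq_fintype_card] at h1
  calc Nat.card (MulAction.stabilizer Λ x) ≤ (2 ^ e) ^ 2 := h1
    _ = 2 ^ (2 * e) := by rw [← pow_mul, mul_comm]

end Cfsg.Agent.Lib.Helper6.InvCount
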