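import Mathlib

namespace Cfsg.Agent.Lib.Helper6.InvSyl

open scoped Pointwise

/-- An involution acting fixed-point-freely (by conjugation) on a finite subgroup inverts it. -/
theorem fpf_inv {G : Type*} [Group G] [Finite G] (R : Subgroup G) (y : G) (hy2 : y * y = 1)
    (hyR : ∀ g ∈ R, y * g * y⁻¹ ∈ R) (hfix : ∀ g ∈ R, y * g * y⁻¹ = g → g = 1) :
    ∀ g ∈ R, y * g * y⁻¹ = g⁻¹ := by
  have hyinv : y⁻¹ = y := inv_eq_of_mul_eq_one_left hy2
  let f : ↥R → ↥R := fun g =>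
    ⟨(g : G)⁻¹ * (y * g * y⁻¹), R.mul_mem (R.inv_mem g.2) (hyR g g.2)⟩
  have hinj : Function.Injective f := by
    intro a b hab
    have h1 : (a : G)⁻¹ * (y * a * y⁻¹) = (b : G)⁻¹ * (y * b * y⁻¹) := congrArg Subtype.val hab
    have h3 : y * (a : G) * y⁻¹ = (a : G) * ((b : G)⁻¹ * (y * b * y⁻¹)) := by
      rw [← h1]; group
    have h2 : y * ((b : G) * (a : G)⁻¹) * y⁻¹ = (b : G) * (a : G)⁻¹ := by
      have e : y * ((b : G) * (a : G)⁻¹) * y⁻¹ = (y * b * y⁻¹) * (y * a * y⁻¹)⁻¹ := by group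
      rw [e, h3]; group
    have h4 := hfix _ (R.mul_mem b.2 (R.inv_mem a.2)) h2
    rw [mul_inv_eq_one] at h4
    exact Subtype.ext h4.symm
  have hsurj : Function.Surjective f := Finite.surjective_of_injective hinj
  intro g hg
  obtain ⟨a, ha⟩ := hsurj ⟨g, hg⟩
  have h1 : (a : G)⁻¹ * (y * a * y⁻¹) = g := congrArg Subtype.val ha
  rw [← h1]
  have e1 : y * ((a : G)⁻¹ * (y * a * y⁻¹)) * y⁻¹ = y * (a : G)⁻¹ * y * a * (y⁻¹ * y⁻¹) := by group
  have e2 : ((a : G)⁻¹ * (y * a * y⁻¹))⁻¹ = y * (a : G)⁻¹ * y⁻¹ * a := by group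
  rw [e1, e2, hyinv, hy2, mul_one]

/-- An involution normalizing a subgroup of odd order normalizes one of its Sylow `p`-subgroups. -/
theorem inv_sylow {G : Type*} [Group G] [Finite G] (p : ℕ) [Fact p.Prime] (C : Subgroup G)
    (hodd : Odd (Nat.card ↥C)) (y : G) (hy2 : y * y = 1) (hyC : ∀ c ∈ C, y * c * y⁻¹ ∈ C) :
    ∃ P₁ : Sylow p ↥C, ∀ c : ↥C, c ∈ P₁ → (⟨y * c * y⁻¹, hyC c c.2⟩ : ↥C) ∈ P₁ := by
  classical
  have hyinv : y⁻¹ = y := inv_eq_of_mul_eq_one_left hy2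
  have hyy : ∀ c : G, y * (y * c * y⁻¹) * y⁻¹ = c := by
    intro c
    have e : y * (y * c * y⁻¹) * y⁻¹ = (y * y) * c * (y⁻¹ * y⁻¹) := by group
    rw [e, hyinv, hy2, one_mul, mul_one]
  let φ : ↥C ≃* ↥C :=
    { toFun := fun c => ⟨y * c * y⁻¹, hyC c c.2⟩
      invFun := fun c => ⟨y * c * y⁻¹, hyC c c.2⟩
      left_inv := fun c => Subtype.ext (hyy c)
      right_inv := fun c => Subtype.ext (hyy c)
      map_mul' := fun a b => Subtype.ext (by
        show y * ((a : G) * b) * y⁻¹ = (y * a * y⁻¹) * (y * b * y⁻¹)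
        group) }
  have hφ2 : φ * φ = 1 := by
    ext c
    exact hyy c
  haveI : Fintype (Sylow p ↥C) := Fintype.ofFinite _
  let σ : Equiv.Perm (Sylow p ↥C) := MulAction.toPerm φ
  have hσ : σ ^ 2 ^ 1 = 1 := by
    rw [pow_one, pow_two]
    apply Equiv.Perm.ext
    intro P
    show φ • (φ • P) = P
    rw [← mul_smul, hφ2, one_smul]
  have hcard : ¬ 2 ∣ Fintype.card (Sylow p ↥C) := by
    rw [← Nat.card_eq_fintype_card]
    intro h2
    obtain ⟨P0⟩ : Nonempty (Sylow p ↥C) := inferInstance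
    have h3 : Nat.card (Sylow p ↥C) ∣ Nat.card ↥C :=
      (P0.card_dvd_index).trans (Subgroup.index_dvd_card _)
    exact (Nat.not_even_iff_odd.mpr hodd) (even_iff_two_dvd.mpr (h2.trans h3))
  obtain ⟨P₁, hP₁⟩ := Equiv.Perm.exists_fixed_point_of_prime (p := 2) (n := 1) hcard hσ
  refine ⟨P₁, fun c hc => ?_⟩
  have h1 : φ • P₁ = P₁ := hP₁
  have h2 : φ • c ∈ φ • (P₁ : Subgroup ↥C) := Subgroup.smul_mem_pointwise_smul c φ _ hc
  rw [← Sylow.pointwise_smul_def, h1] at h2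
  exact h2

/-- A nontrivial `p`-subgroup normalized by an element `t` with `t² = 1` contains an element of
order `p` that is fixed or inverted by `t`. -/
theorem exists_order_p_inv_or_fix {H : Type*} [Group H] [Finite H] (p : ℕ) [Fact p.Prime]
    (P : Subgroup H) (hP : IsPGroup p ↥P) (hP1 : P ≠ ⊥) (t : H) (ht2 : t * t = 1)
    (htP : ∀ g ∈ P, t * g * t⁻¹ ∈ P) :
    ∃ u : H, orderOf u = p ∧ (t * u * t⁻¹ = u ∨ t * u * t⁻¹ = u⁻¹) := by
  have hp : p.Prime := Fact.out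
  haveI : Nontrivial ↥P := (Subgroup.nontrivial_iff_ne_bot P).mpr hP1
  haveI := hP.center_nontrivial
  have hZp : IsPGroup p ↥(Subgroup.center ↥P) := hP.to_subgroup _
  have hdvd : p ∣ Nat.card ↥(Subgroup.center ↥P) := by
    rcases hZp.card_eq_or_dvd with h | h
    · exact absurd h (Finite.one_lt_card).ne'
    · exact h
  obtain ⟨z, hz⟩ := exists_prime_orderOf_dvd_card' p hdvd
  obtain ⟨v, hv⟩ : ∃ v : H, v = ((z : ↥P) : H) := ⟨_, rfl⟩
  have hvP : v ∈ P := by rw [hv]; exact (z : ↥P).2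
  have hvo : orderOf v = p := by rw [hv, Subgroup.orderOf_coe, Subgroup.orderOf_coe]; exact hz
  have hvc : ∀ g ∈ P, g * v = v * g := by
    intro g hg
    have := Subgroup.mem_center_iff.mp z.2 ⟨g, hg⟩
    rw [hv]; exact congrArg Subtype.val this
  have hv'P : t * v * t⁻¹ ∈ P := htP v hvP
  have hcomm : (t * v * t⁻¹) * v = v * (t * v * t⁻¹) := hvc _ hv'P
  have htinv : t⁻¹ = t := inv_eq_of_mul_eq_one_left ht2
  by_cases hw : v * (t * v * t⁻¹) = 1
  · refine ⟨v, hvo, Or.inr ?_⟩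
    exact (eq_inv_of_mul_eq_one_right hw)
  · refine ⟨v * (t * v * t⁻¹), ?_, Or.inl ?_⟩
    · apply orderOf_eq_prime
      · have hc : Commute v (t * v * t⁻¹) := hcomm.symm
        rw [hc.mul_pow]
        have h1 : v ^ p = 1 := by
          have := pow_orderOf_eq_one v
          rwa [hvo] at this
        have h2 : (t * v * t⁻¹) ^ p = 1 := by rw [conj_pow, h1]; simp
        rw [h1, h2, one_mul]
      · exact hw
    · have e : t * (v * (t * v * t⁻¹)) * t⁻¹ = (t * v * t⁻¹) * ((t * t) * v * (t⁻¹ * t⁻¹)) := by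
        group
      rw [e, htinv, ht2, one_mul, mul_one]
      rw [htinv] at hcomm
      exact hcomm

/-- Version modulo a normal subgroup. -/
theorem exists_mod_normal {Γ : Type*} [Group Γ] [Finite Γ] (p : ℕ) [Fact p.Prime]
    (N : Subgroup Γ) [N.Normal] (P : Subgroup Γ) (hP : IsPGroup p ↥P) (hPN : ¬ P ≤ N)
    (t : Γ) (ht2 : t * t = 1) (htP : ∀ a ∈ P, t * a * t⁻¹ ∈ P) :
    ∃ x : Γ, x ∉ N ∧ x ^ p ∈ N ∧ (t * x * t⁻¹ * x⁻¹ ∈ N ∨ t * x * t⁻¹ * x ∈ N) := by
  have hp : p.Prime := Fact.out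
  have hPbp : IsPGroup p ↥(P.map (QuotientGroup.mk' N)) := hP.map _
  have hPb1 : P.map (QuotientGroup.mk' N) ≠ ⊥ := by
    intro h
    apply hPN
    intro g hg
    have hmem : QuotientGroup.mk' N g ∈ P.map (QuotientGroup.mk' N) := ⟨g, hg, rfl⟩
    rw [h, Subgroup.mem_bot] at hmem
    exact (QuotientGroup.eq_one_iff g).mp hmem
  have hyb2 : QuotientGroup.mk' N t * QuotientGroup.mk' N t = 1 := by
    rw [← map_mul, ht2, map_one]
  have hybP : ∀ a ∈ P.map (QuotientGroup.mk' N),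
      QuotientGroup.mk' N t * a * (QuotientGroup.mk' N t)⁻¹ ∈ P.map (QuotientGroup.mk' N) := by
    rintro _ ⟨a, ha, rfl⟩
    exact ⟨t * a * t⁻¹, htP a ha, by simp⟩
  obtain ⟨u, hu, hcase⟩ := exists_order_p_inv_or_fix p _ hPbp hPb1 _ hyb2 hybP
  obtain ⟨x, rfl⟩ := QuotientGroup.mk'_surjective N u
  refine ⟨x, ?_, ?_, ?_⟩
  · intro h
    have : QuotientGroup.mk' N x = 1 := (QuotientGroup.eq_one_iff x).mpr h
    rw [this, orderOf_one] at hu
    exact hp.one_lt.ne hu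
  · have h1 : (QuotientGroup.mk' N x) ^ p = 1 := by
      have := pow_orderOf_eq_one (QuotientGroup.mk' N x)
      rwa [hu] at this
    rw [← map_pow] at h1
    exact (QuotientGroup.eq_one_iff (x ^ p)).mp h1
  · rcases hcase with h | h
    · left
      have h1 : QuotientGroup.mk' N (t * x * t⁻¹ * x⁻¹) = 1 := by
        rw [map_mul, map_mul, map_mul, map_inv, map_inv, h, mul_inv_cancel]
      exact (QuotientGroup.eq_one_iff _).mp h1
    · right
      have h1 : QuotientGroup.mk' N (t * x * t⁻¹ * x) = 1 := by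
        rw [map_mul, map_mul, map_mul, map_inv, h, inv_mul_cancel]
      exact (QuotientGroup.eq_one_iff _).mp h1

end Cfsg.Agent.Lib.Helper6.InvSyl
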