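import Mathlib

set_option autoImplicit false

namespace Cfsg.Agent.Lib.Helper6.Orbits

open MulAction

theorem card_dvd_of_free {T X : Type*} [Group T] [MulAction T X] [Finite X]
    (S : SubMulAction T X) (hfree : ∀ t : T, ∀ x ∈ S, t • x = x → t = 1) :
    Nat.card T ∣ Nat.card S := by
  have hst : ∀ y : S, stabilizer T y = ⊥ := by
    intro y
    ext t
    rw [mem_stabilizer_iff, Subgroup.mem_bot]
    constructor
    · intro h
      exact hfree t y y.2 (congrArg Subtype.val h)
    · rintro rfl
      exact one_smul _ _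
  have e := selfEquivOrbitsQuotientProd hst
  have h2 := Nat.card_congr e
  rw [Nat.card_prod] at h2
  exact Dvd.intro_left _ h2.symm

theorem dvd_card_of_orbits {H X : Type*} [Group H] [MulAction H X] [Finite X]
    (S : SubMulAction H X) (m : ℕ) (hm : ∀ x ∈ S, m ∣ (orbit H x).ncard) : m ∣ Nat.card S := by
  classical
  have hfin : Fintype (Quotient (orbitRel H S)) := Fintype.ofFinite _
  rw [Nat.card_congr (selfEquivSigmaOrbits H S), Nat.card_sigma]
  apply Finset.dvd_sum
  intro ω _
  have h1 := hm ω.out ω.out.2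
  rw [← index_stabilizer] at h1
  rw [Nat.card_coe_set_eq, ← index_stabilizer, SubMulAction.stabilizer_of_subMul]
  exact h1

theorem class_card {G : Type*} [Group G] (x : G) :
    (ConjClasses.mk x).carrier.ncard = (Subgroup.centralizer ({x} : Set G)).index := by
  have h := MulAction.index_stabilizer (G := ConjAct G) (x := x)
  rw [ConjAct.orbit_eq_carrier_conjClasses, ConjAct.stabilizer_eq_centralizer] at h
  exact h.symm

theorem closure_normal {G : Type*} [Group G] (S : Set G)
    (hS : ∀ g : G, ∀ s ∈ S, g * s * g⁻¹ ∈ S) : (Subgroup.closure S).Normal := by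
  constructor
  intro n hn g
  induction hn using Subgroup.closure_induction with
  | mem x hx => exact Subgroup.subset_closure (hS g x hx)
  | one => simp
  | mul x y _ _ hx hy =>
    have e : g * (x * y) * g⁻¹ = (g * x * g⁻¹) * (g * y * g⁻¹) := by group
    rw [e]
    exact Subgroup.mul_mem _ hx hy
  | inv x _ hx =>
    have e : g * x⁻¹ * g⁻¹ = (g * x * g⁻¹)⁻¹ := by group
    rw [e]
    exact Subgroup.inv_mem _ hx

theorem card_subMul {T X : Type*} [Group T] [MulAction T X] (S : SubMulAction T X) :
    Nat.card S = (S : Set X).ncard := Nat.card_coe_set_eq _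

theorem fixedPoints_zpowers {G X : Type*} [Group G] [MulAction G X] (x : G) :
    fixedPoints (Subgroup.zpowers x) X = fixedBy X x := by
  ext y
  constructor
  · intro h
    exact h ⟨x, Subgroup.mem_zpowers x⟩
  · intro h t
    have h1 : Subgroup.zpowers x ≤ stabilizer G y := by
      rw [Subgroup.zpowers_le]
      exact h
    exact h1 t.2

theorem card_fixedBy_modEq {G X : Type*} [Group G] [MulAction G X] [Finite X] (p : ℕ)
    [Fact p.Prime] (x : G) (k : ℕ) (hx : x ^ p ^ k = 1) :
    Nat.card X ≡ Nat.card (fixedBy X x) [MOD p] := by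
  have hpg : IsPGroup p (Subgroup.zpowers x) := by
    rintro ⟨z, hz⟩
    obtain ⟨i, rfl⟩ := Subgroup.mem_zpowers_iff.1 hz
    refine ⟨k, Subtype.ext ?_⟩
    change (x ^ i) ^ (p ^ k) = 1
    rw [← zpow_natCast, ← zpow_mul, mul_comm, zpow_mul, zpow_natCast, hx, one_zpow]
  have h := hpg.card_modEq_card_fixedPoints X
  rw [fixedPoints_zpowers] at h
  exact h

end Cfsg.Agent.Lib.Helper6.Orbits
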