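import Mathlib

set_option autoImplicit false

namespace Cfsg.Agent.Lib.Helper6.PPrime2

open MulAction

theorem exists_conj_mem_of_le_sup {G : Type*} [Group G] [Finite G] {p : ℕ} [Fact p.Prime]
    (N : Subgroup G) [hNn : N.Normal] (hN : (Nat.card N).Coprime p) (P Q : Subgroup G)
    (hQp : IsPGroup p Q) (hQle : Q ≤ N ⊔ P) : ∃ n ∈ N, ∀ q ∈ Q, n⁻¹ * q * n ∈ P := by
  classical
  have hp := (Fact.out : p.Prime)
  let X : SubMulAction Q (G ⧸ P) :=
    { carrier := {c | ∃ n ∈ N, c = QuotientGroup.mk n}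
      smul_mem' := by
        rintro q c ⟨n, hn, rfl⟩
        have hq := hQle q.2
        rw [← SetLike.mem_coe, Subgroup.normal_mul, Set.mem_mul] at hq
        obtain ⟨n₁, hn₁, u, hu, hq'⟩ := hq
        refine ⟨n₁ * (u * n * u⁻¹), N.mul_mem hn₁ (hNn.conj_mem n hn u), ?_⟩
        change (QuotientGroup.mk ((q : G) * n) : G ⧸ P) = _
        rw [QuotientGroup.eq, ← hq']
        have e : (n₁ * u * n)⁻¹ * (n₁ * (u * n * u⁻¹)) = u⁻¹ := by group
        rw [e]
        exact P.inv_mem hu }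
  have hXcard : ¬ p ∣ Nat.card X := by
    have h1 : (X : Set (G ⧸ P)) = orbit N (QuotientGroup.mk 1 : G ⧸ P) := by
      ext c
      constructor
      · rintro ⟨n, hn, rfl⟩
        refine ⟨⟨n, hn⟩, ?_⟩
        change (QuotientGroup.mk ((n : G) * 1) : G ⧸ P) = _
        rw [mul_one]
      · rintro ⟨n, rfl⟩
        refine ⟨n.1, n.2, ?_⟩
        change (QuotientGroup.mk ((n : G) * 1) : G ⧸ P) = _
        rw [mul_one]
    have h2 : Nat.card X = (stabilizer N (QuotientGroup.mk 1 : G ⧸ P)).index := by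
      rw [index_stabilizer, ← h1]
      exact Nat.card_coe_set_eq _
    intro hdiv
    rw [h2] at hdiv
    have h3 := hdiv.trans (Subgroup.index_dvd_card _)
    exact hp.one_lt.ne' (Nat.Coprime.eq_one_of_dvd hN.symm h3)
  obtain ⟨⟨c, hcX⟩, hc⟩ := IsPGroup.nonempty_fixed_point_of_prime_not_dvd_card hQp X hXcard
  obtain ⟨n, hn, rfl⟩ := hcX
  refine ⟨n, hn, ?_⟩
  intro q hq
  have h1 := hc ⟨q, hq⟩
  have h2 : (QuotientGroup.mk (q * n) : G ⧸ P) = QuotientGroup.mk n :=
    congrArg Subtype.val h1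
  rw [QuotientGroup.eq] at h2
  have h3 := P.inv_mem h2
  have e : ((q * n)⁻¹ * n)⁻¹ = n⁻¹ * q * n := by group
  rwa [e] at h3

end Cfsg.Agent.Lib.Helper6.PPrime2
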