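import Mathlib
import Cfsg.Agent.Lib.Helper1.Frob
import Cfsg.Agent.Lib.Helper6.Index
import Cfsg.Agent.Lib.Helper6.ASMax
import Cfsg.Agent.Lib.Helper6.InvSyl
import Cfsg.Agent.Lib.Helper6.DihInv

set_option autoImplicit false

namespace Cfsg.Agent.Lib.Helper6.Prim2

open Cfsg.Agent.Lib.Helper6 Cfsg.Agent.Lib.Helper1

theorem dihedral_of_max_order_two {G : Type*} [Group G] [Finite G] (H : Subgroup G)
    (hH2 : Nat.card H = 2) (hmax : IsCoatom H) (hnn : ¬ H.Normal) :
    ∃ p : ℕ, p.Prime ∧ Nonempty (G ≃* DihedralGroup p) := by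
  classical
  haveI : Fact (Nat.Prime 2) := ⟨Nat.prime_two⟩
  haveI hnt : Nontrivial ↥H := Finite.one_lt_card_iff_nontrivial.1 (by rw [hH2]; norm_num)
  obtain ⟨t', ht'⟩ := exists_ne (1 : ↥H)
  have ht'2 : orderOf t' = 2 := by
    have h1 : orderOf t' ∣ 2 := by rw [← hH2]; exact orderOf_dvd_natCard t'
    rcases (Nat.dvd_prime Nat.prime_two).1 h1 with h | h
    · exact absurd (orderOf_eq_one_iff.1 h) ht'
    · exact h
  have ht2 : orderOf (t' : G) = 2 := by rw [Subgroup.orderOf_coe]; exact ht'2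
  have htt : (t' : G) * (t' : G) = 1 := by rw [← pow_two, ← ht2, pow_orderOf_eq_one]
  have ht1 : (t' : G) ≠ 1 := fun h => ht' (Subtype.ext h)
  have hHz : H = Subgroup.zpowers (t' : G) := by
    symm
    apply Subgroup.eq_of_le_of_card_ge
    · rw [Subgroup.zpowers_le]; exact t'.2
    · rw [Nat.card_zpowers, ht2, hH2]
  have hHord : ∀ g ∈ H, orderOf g ∣ 2 := by
    intro g hg
    have h1 := orderOf_dvd_natCard (⟨g, hg⟩ : ↥H)
    rw [hH2, ← Subgroup.orderOf_coe] at h1
    exact h1
  have hNH : Subgroup.normalizer (H : Set G) = H := by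
    apply le_antisymm _ Subgroup.le_normalizer
    by_contra hc
    have hlt : H < Subgroup.normalizer (H : Set G) :=
      lt_of_le_of_ne Subgroup.le_normalizer (fun h => hc (h ▸ le_rfl))
    exact hnn (Subgroup.normalizer_eq_top_iff.1 (hmax.2 _ hlt))
  have hHp : IsPGroup 2 ↥H := IsPGroup.of_card (n := 1) (by rw [hH2, pow_one])
  obtain ⟨P, hP⟩ := hHp.exists_le_sylow
  have hPH : (P : Subgroup G) = H := by
    by_contra hc
    have hlt : H.subgroupOf (P : Subgroup G) < ⊤ := by
      rw [lt_top_iff_ne_top]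
      intro h
      rw [Subgroup.subgroupOf_eq_top] at h
      exact hc (le_antisymm h hP)
    haveI : Group.IsNilpotent ↥(P : Subgroup G) := P.isPGroup'.isNilpotent
    have hnc := normalizerCondition_of_isNilpotent (G := ↥(P : Subgroup G)) _ hlt
    obtain ⟨x, hxN, hxH⟩ := SetLike.exists_of_lt hnc
    apply hxH
    rw [Subgroup.mem_subgroupOf, ← hNH]
    apply ASMax.mem_normalizer_of_conj_le'
    intro h hh
    have h1 := (Subgroup.mem_normalizer_iff.1 hxN ⟨h, hP hh⟩).1 (Subgroup.mem_subgroupOf.2 hh)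
    exact Subgroup.mem_subgroupOf.1 h1
  have hC : ∀ Q : Subgroup G, Q ≤ (P : Subgroup G) → ∀ g ∈ Subgroup.normalizer (Q : Set G),
      (orderOf g).Coprime 2 → g ∈ Subgroup.centralizer (Q : Set G) := by
    intro Q hQ g hg hgo
    rw [hPH] at hQ
    have hQd : Nat.card Q ∣ 2 := by rw [← hH2]; exact Subgroup.card_dvd_of_le hQ
    rcases (Nat.dvd_prime Nat.prime_two).1 hQd with h | h
    · rw [Subgroup.card_eq_one] at h
      rw [h, Subgroup.mem_centralizer_iff]
      intro x hx
      rw [SetLike.mem_coe, Subgroup.mem_bot] at hx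
      rw [hx, one_mul, mul_one]
    · have hQH : Q = H := Subgroup.eq_of_le_of_card_ge hQ (by rw [h, hH2])
      rw [hQH, hNH] at hg
      have h1 := hHord g hg
      have h2 : orderOf g = 1 := by
        have h3 : orderOf g ∣ Nat.gcd (orderOf g) 2 := Nat.dvd_gcd dvd_rfl h1
        rw [Nat.Coprime.gcd_eq_one hgo] at h3
        exact Nat.dvd_one.1 h3
      rw [orderOf_eq_one_iff.1 h2]
      exact Subgroup.one_mem _
  obtain ⟨N, hNn, hNc, j, hj⟩ := Frob.exists_normal_complement_aux (p := 2) (Nat.card G) G rfl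
    (Frob.hyp_all_of_sylow P hC)
  have hcompl := Frob.isComplement'_of_coprime_index N hNc hj P
  rw [hPH] at hcompl
  have hdisj : N ⊓ H = ⊥ := disjoint_iff.1 hcompl.disjoint
  have htN : (t' : G) ∉ N := by
    intro h
    have h1 : (t' : G) ∈ N ⊓ H := ⟨h, t'.2⟩
    rw [hdisj, Subgroup.mem_bot] at h1
    exact ht1 h1
  have hfix : ∀ g ∈ N, (t' : G) * g * (t' : G)⁻¹ = g → g = 1 := by
    intro g hg hcomm
    have hgH : g ∈ H := by
      rw [← hNH]
      apply ASMax.mem_normalizer_of_conj_le'
      intro h hh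
      rw [hHz] at hh ⊢
      obtain ⟨k, rfl⟩ := Subgroup.mem_zpowers_iff.1 hh
      have h1 : g * (t' : G) * g⁻¹ = (t' : G) := by
        have h2 : (t' : G) * g = g * (t' : G) := by
          calc (t' : G) * g = (t' : G) * g * (t' : G)⁻¹ * (t' : G) := by group
            _ = g * (t' : G) := by rw [hcomm]
        rw [← h2]; group
      have h3 : g * (t' : G) ^ k * g⁻¹ = (g * (t' : G) * g⁻¹) ^ k := by
        rw [conj_zpow]
      rw [h3, h1]
      exact Subgroup.zpow_mem _ (Subgroup.mem_zpowers _) k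
    have h1 : g ∈ N ⊓ H := ⟨hg, hgH⟩
    rw [hdisj, Subgroup.mem_bot] at h1
    exact h1
  have hinv := InvSyl.fpf_inv N (t' : G) htt (fun g hg => hNn.conj_mem g hg _) hfix
  have hcardG := hcompl.card_mul
  rw [hH2] at hcardG
  have hN1 : Nat.card N ≠ 1 := by
    intro h
    rw [h, one_mul] at hcardG
    apply hmax.1
    apply Subgroup.eq_top_of_card_eq
    rw [hH2, hcardG]
  obtain ⟨p, hp, hpd⟩ := Nat.exists_prime_and_dvd hN1
  haveI : Fact p.Prime := ⟨hp⟩
  obtain ⟨x, hx⟩ := exists_prime_orderOf_dvd_card' p hpd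
  have hxp : orderOf (x : G) = p := by rw [Subgroup.orderOf_coe]; exact hx
  have hp2 : p ≠ 2 := by
    rintro rfl
    have h1 : Nat.gcd (Nat.card N) 2 = 2 := Nat.gcd_eq_right hpd
    rw [Nat.Coprime.gcd_eq_one hNc] at h1
    omega
  have hx1 : (x : G) ≠ 1 := by
    intro h
    rw [h, orderOf_one] at hxp
    exact hp.one_lt.ne hxp
  have hcl : Subgroup.closure ({(t' : G), (x : G)} : Set G) = ⊤ := by
    apply hmax.2
    apply lt_of_le_of_ne
    · have h2 : Subgroup.zpowers (t' : G) ≤ Subgroup.closure ({(t' : G), (x : G)} : Set G) := by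
        rw [Subgroup.zpowers_le]
        exact Subgroup.subset_closure (by simp)
      exact hHz.le.trans h2
    · intro h
      have h1 : (x : G) ∈ N ⊓ H := ⟨x.2, by rw [h]; exact Subgroup.subset_closure (by simp)⟩
      rw [hdisj, Subgroup.mem_bot] at h1
      exact hx1 h1
  exact ⟨p, hp, DihInv.dihedral_of_gens (t' : G) (x : G) p hp.pos hp2 ht2 hxp (hinv x x.2) hcl⟩

theorem normal_le_stabilizer_eq_bot {G Ω : Type*} [Group G] [MulAction G Ω] [FaithfulSMul G Ω]
    [MulAction.IsPretransitive G Ω] (a : Ω) (K : Subgroup G) [hK : K.Normal]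
    (hKa : K ≤ MulAction.stabilizer G a) : K = ⊥ := by
  rw [eq_bot_iff]
  intro k hk
  rw [Subgroup.mem_bot]
  apply FaithfulSMul.eq_of_smul_eq_smul (α := Ω)
  intro ω
  obtain ⟨g, rfl⟩ := MulAction.exists_smul_eq G a ω
  rw [one_smul]
  have h1 : g⁻¹ * k * g ∈ K := by
    have h3 := hK.conj_mem k hk g⁻¹
    rwa [inv_inv] at h3
  have h2 := MulAction.mem_stabilizer_iff.1 (hKa h1)
  calc k • g • a = g • ((g⁻¹ * k * g) • a) := by
        rw [← mul_smul, ← mul_smul]; congr 1; group
    _ = g • a := by rw [h2]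

theorem stab_facts {G Ω : Type*} [Group G] [Finite G] [MulAction G Ω] [FaithfulSMul G Ω]
    [Finite Ω] (hprim : MulAction.IsPreprimitive G Ω) (a b : Ω)
    (h2 : Nat.card (MulAction.orbit (MulAction.stabilizer G a) b) = 2) :
    Nat.card (MulAction.stabilizer G a) = 2 ∧ IsCoatom (MulAction.stabilizer G a) ∧
      ¬ (MulAction.stabilizer G a).Normal := by
  haveI := hprim.toIsPretransitive
  have hab : a ≠ b := by
    rintro rfl
    have h1 : MulAction.orbit (MulAction.stabilizer G a) a = {a} := by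
      ext x
      constructor
      · rintro ⟨g, rfl⟩
        exact MulAction.mem_stabilizer_iff.1 g.2
      · intro hx
        rw [Set.mem_singleton_iff] at hx
        rw [hx]
        exact MulAction.mem_orbit_self _
    rw [h1] at h2
    simp at h2
  haveI : Nontrivial Ω := ⟨⟨a, b, hab⟩⟩
  have hco : IsCoatom (MulAction.stabilizer G a) :=
    (MulAction.isCoatom_stabilizer_iff_preprimitive G a).2 hprim
  have hkey : (MulAction.stabilizer G b).subgroupOf (MulAction.stabilizer G a) =
      MulAction.stabilizer (MulAction.stabilizer G a) b := by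
    ext g
    simp only [Subgroup.mem_subgroupOf, MulAction.mem_stabilizer_iff]
    rfl
  have hrel_a : (MulAction.stabilizer G b).relIndex (MulAction.stabilizer G a) = 2 := by
    rw [Subgroup.relIndex, hkey, MulAction.index_stabilizer, ← Nat.card_coe_set_eq]
    exact h2
  obtain ⟨g, hg⟩ := MulAction.exists_smul_eq G a b
  have hcard : Nat.card (MulAction.stabilizer G b) = Nat.card (MulAction.stabilizer G a) := by
    rw [← hg, MulAction.stabilizer_smul_eq_stabilizer_map_conj]
    exact Subgroup.card_map_of_injective (MulEquiv.injective _)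
  have e1 := Index.card_eq_card_mul_relIndex (MulAction.stabilizer G a ⊓ MulAction.stabilizer G b)
    (MulAction.stabilizer G a) inf_le_left
  rw [Subgroup.inf_relIndex_left, hrel_a] at e1
  have e2 := Index.card_eq_card_mul_relIndex (MulAction.stabilizer G a ⊓ MulAction.stabilizer G b)
    (MulAction.stabilizer G b) inf_le_right
  rw [Subgroup.inf_relIndex_right] at e2
  have hrel_b : (MulAction.stabilizer G a).relIndex (MulAction.stabilizer G b) = 2 := by
    rw [hcard, e1] at e2
    exact (Nat.eq_of_mul_eq_mul_left Nat.card_pos e2).symm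
  have hKa : MulAction.stabilizer G a ≤ Subgroup.normalizer
      ((MulAction.stabilizer G a ⊓ MulAction.stabilizer G b : Subgroup G) : Set G) := by
    rw [← Subgroup.normal_subgroupOf_iff_le_normalizer inf_le_left]
    apply Subgroup.normal_of_index_eq_two
    rw [Subgroup.inf_subgroupOf_left]
    exact hrel_a
  have hKb : MulAction.stabilizer G b ≤ Subgroup.normalizer
      ((MulAction.stabilizer G a ⊓ MulAction.stabilizer G b : Subgroup G) : Set G) := by
    rw [← Subgroup.normal_subgroupOf_iff_le_normalizer inf_le_right]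
    apply Subgroup.normal_of_index_eq_two
    rw [Subgroup.inf_subgroupOf_right]
    exact hrel_b
  have hnle : ¬ MulAction.stabilizer G b ≤ MulAction.stabilizer G a := by
    intro h
    rw [← Subgroup.relIndex_eq_one] at h
    omega
  have hsup : MulAction.stabilizer G a ⊔ MulAction.stabilizer G b = ⊤ := by
    apply hco.2
    apply lt_of_le_of_ne le_sup_left
    intro h
    exact hnle (h ▸ le_sup_right)
  haveI hKn : (MulAction.stabilizer G a ⊓ MulAction.stabilizer G b).Normal := by
    rw [← Subgroup.normalizer_eq_top_iff, eq_top_iff, ← hsup]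
    exact sup_le hKa hKb
  have hKbot : MulAction.stabilizer G a ⊓ MulAction.stabilizer G b = ⊥ :=
    normal_le_stabilizer_eq_bot a _ inf_le_left
  rw [hKbot, Subgroup.card_bot, one_mul] at e1
  refine ⟨e1, hco, ?_⟩
  intro hn
  have h3 := normal_le_stabilizer_eq_bot a (MulAction.stabilizer G a) le_rfl
  rw [h3, Subgroup.card_bot] at e1
  omega

theorem main {G Ω : Type*} [Group G] [Finite G] [MulAction G Ω] [FaithfulSMul G Ω]
    [Finite Ω] (hprim : MulAction.IsPreprimitive G Ω) (a b : Ω)
    (h2 : Nat.card (MulAction.orbit (MulAction.stabilizer G a) b) = 2) :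
    Nat.card (MulAction.stabilizer G a) = 2 ∧
      ∃ p : ℕ, p.Prime ∧ Nonempty (G ≃* DihedralGroup p) := by
  obtain ⟨h1, hco, hnn⟩ := stab_facts hprim a b h2
  exact ⟨h1, dihedral_of_max_order_two _ h1 hco hnn⟩

end Cfsg.Agent.Lib.Helper6.Prim2
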