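import Mathlib
import Cfsg.Agent.Lib.Helper1.UniqP
import Cfsg.Agent.Lib.Helper6.EqOrdConj

namespace Cfsg.Agent.Lib.Helper6.SelfCent

open Subgroup Pointwise
open Cfsg.Agent.Lib.Helper6.EqOrdConj

theorem index_cent_le {Q : Type*} [Group Q] [Finite Q] {p : ℕ} (E1 : Subgroup Q)
    (hE1c : Nat.card E1 = p) (v : Q) (hvc : ∀ g : Q, v * g * v⁻¹ * g⁻¹ ∈ E1) :
    (centralizer {v} : Subgroup Q).index ≤ p := by
  classical
  set C : Subgroup Q := centralizer {v} with hCdef
  rw [Subgroup.index_eq_card]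
  let f : Q ⧸ C → E1 := Quotient.lift (s := QuotientGroup.leftRel C)
    (fun g => (⟨v * g * v⁻¹ * g⁻¹, hvc g⟩ : E1)) (by
      intro a b hab
      have hab' : a⁻¹ * b ∈ C := QuotientGroup.leftRel_apply.1 hab
      apply Subtype.ext
      show v * a * v⁻¹ * a⁻¹ = v * b * v⁻¹ * b⁻¹
      set t := a⁻¹ * b with ht
      have h1 : v * t = t * v := mem_centralizer_iff.1 hab' v (Set.mem_singleton v)
      have hb : b = a * t := by rw [ht]; group
      have h3 : t * v⁻¹ * t⁻¹ = v⁻¹ := by
        have h4 : t * v⁻¹ = v⁻¹ * t := by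
          calc t * v⁻¹ = v⁻¹ * (v * t) * v⁻¹ := by group
            _ = v⁻¹ * (t * v) * v⁻¹ := by rw [h1]
            _ = v⁻¹ * t := by group
        rw [h4, mul_inv_cancel_right]
      calc v * a * v⁻¹ * a⁻¹ = v * a * (t * v⁻¹ * t⁻¹) * a⁻¹ := by rw [h3]
        _ = v * (a * t) * v⁻¹ * (a * t)⁻¹ := by group
        _ = v * b * v⁻¹ * b⁻¹ := by rw [← hb])
  have hf : Function.Injective f := by
    intro q1 q2
    obtain ⟨a, rfl⟩ := QuotientGroup.mk_surjective q1
    obtain ⟨b, rfl⟩ := QuotientGroup.mk_surjective q2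
    intro hab
    have hab' : v * a * v⁻¹ * a⁻¹ = v * b * v⁻¹ * b⁻¹ := congrArg Subtype.val hab
    rw [QuotientGroup.eq]
    show a⁻¹ * b ∈ centralizer {v}
    rw [mem_centralizer_iff]
    intro h hh
    rw [Set.mem_singleton_iff] at hh
    rw [hh]
    have h1 : a * v⁻¹ * a⁻¹ = b * v⁻¹ * b⁻¹ := by
      have := congrArg (fun z => v⁻¹ * z) hab'
      simpa [mul_assoc] using this
    have h2 : v⁻¹ * (a⁻¹ * b) = a⁻¹ * b * v⁻¹ := by
      calc v⁻¹ * (a⁻¹ * b) = a⁻¹ * (a * v⁻¹ * a⁻¹) * b := by group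
        _ = a⁻¹ * (b * v⁻¹ * b⁻¹) * b := by rw [h1]
        _ = a⁻¹ * b * v⁻¹ := by group
    calc v * (a⁻¹ * b) = v * (a⁻¹ * b * v⁻¹) * v := by group
      _ = v * (v⁻¹ * (a⁻¹ * b)) * v := by rw [h2]
      _ = a⁻¹ * b * v := by group
  have := Nat.card_le_card_of_injective f hf
  rwa [hE1c] at this

theorem nt_odd (p m r : ℕ) [hp : Fact p.Prime] (hp2 : p ≠ 2) (hm : 1 ≤ m)
    (h1 : r ^ p ≡ 1 [MOD p ^ m]) : p * r ≡ p [MOD p ^ m] := by
  have hpp := hp.out
  have hodd : Odd p := hpp.odd_of_ne_two hp2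
  have hr1 : r ≡ 1 [MOD p] := by
    have h5 : r ^ p ≡ 1 [MOD p] := Nat.ModEq.of_dvd (dvd_pow_self p (by omega)) h1
    have h6 : r ^ p ≡ r [MOD p] := by
      rw [← ZMod.natCast_eq_natCast_iff]
      push_cast
      exact ZMod.pow_card _
    exact h6.symm.trans h5
  rcases Nat.lt_or_ge r 2 with hr | hr
  · interval_cases r
    · exfalso
      rw [zero_pow hpp.ne_zero] at h1
      have h2 : p ^ m ∣ 1 := by
        have := (Nat.modEq_iff_dvd' (by norm_num : 0 ≤ 1)).1 h1
        simpa using this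
      have h3 : p ∣ 1 := dvd_trans (dvd_pow_self p (by omega)) h2
      exact hpp.one_lt.ne' (Nat.dvd_one.1 h3)
    · rw [mul_one]
  · have hdvd : p ∣ r - 1 := (Nat.modEq_iff_dvd' (by omega : 1 ≤ r)).1 hr1.symm
    have hndvd : ¬ p ∣ r := by
      intro h
      have h3 : p ∣ r - (r - 1) := Nat.dvd_sub h hdvd
      have h4 : r - (r - 1) = 1 := by omega
      rw [h4] at h3
      exact hpp.one_lt.ne' (Nat.dvd_one.1 h3)
    have hval := padicValNat.pow_sub_pow (p := p) hodd (show 1 < r by omega) hdvd hndvd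
      (n := p) hpp.ne_zero
    rw [one_pow, padicValNat_self] at hval
    have hdvd2 : p ^ m ∣ r ^ p - 1 :=
      (Nat.modEq_iff_dvd' (Nat.one_le_pow _ _ (by omega))).1 h1.symm
    have hne : r ^ p - 1 ≠ 0 := by
      have : 2 ≤ r ^ p := le_trans hr (Nat.le_self_pow hpp.ne_zero r)
      omega
    have hm1 : m ≤ padicValNat p (r ^ p - 1) := (padicValNat_dvd_iff_le hne).1 hdvd2
    have hm2 : m - 1 ≤ padicValNat p (r - 1) := by omega
    have hdvd3 : p ^ (m - 1) ∣ r - 1 := (padicValNat_dvd_iff_le (by omega)).2 hm2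
    have hdvd4 : p ^ m ∣ p * r - p := by
      have e1 : p * r - p = p * (r - 1) := by rw [Nat.mul_sub, mul_one]
      rw [e1]
      have e2 : p ^ m = p * p ^ (m - 1) := by
        rw [← pow_succ']; congr 1; omega
      rw [e2]; exact Nat.mul_dvd_mul_left p hdvd3
    exact ((Nat.modEq_iff_dvd' (by nlinarith : p ≤ p * r)).2 hdvd4).symm

theorem sc_of_card {G : Type*} [Group G] [Finite G] {p : ℕ} [Fact p.Prime]
    (hna : ∃ a b : G, a * b ≠ b * a) (hcard : Nat.card G = p ^ 3) (H : Subgroup G)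
    (hH : ¬ IsCyclic ↥H) : centralizer (H : Set G) ≤ H := by
  classical
  have hp : p.Prime := Fact.out
  have hdvd : Nat.card H ∣ p ^ 3 := hcard ▸ Subgroup.card_subgroup_dvd_card H
  obtain ⟨i, hi, hHc⟩ := (Nat.dvd_prime_pow hp).1 hdvd
  intro x hx
  by_contra hxH
  have hi2 : i = 2 := by
    interval_cases i
    · exfalso; apply hH
      haveI : Subsingleton H := (Nat.card_eq_one_iff_unique.1 (by simpa using hHc)).1
      exact isCyclic_of_subsingleton
    · exfalso; apply hH
      exact isCyclic_of_prime_card (by simpa using hHc)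
    · rfl
    · exfalso
      have : H = ⊤ := Subgroup.eq_top_of_card_eq H (by rw [hHc, hcard])
      rw [this] at hxH
      exact hxH (mem_top x)
  subst hi2
  have hHcomm : ∀ a ∈ H, ∀ b ∈ H, a * b = b * a := by
    intro a ha b hb
    have := IsPGroup.commutative_of_card_eq_prime_sq hHc ⟨a, ha⟩ ⟨b, hb⟩
    exact congrArg Subtype.val this
  have htop : H ⊔ zpowers x = ⊤ := by
    apply Subgroup.eq_top_of_card_eq
    have hd2 : Nat.card (H ⊔ zpowers x : Subgroup G) ∣ p ^ 3 :=
      hcard ▸ Subgroup.card_subgroup_dvd_card _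
    obtain ⟨k, hk, hkc⟩ := (Nat.dvd_prime_pow hp).1 hd2
    have hlt' : Nat.card H < Nat.card (H ⊔ zpowers x : Subgroup G) := by
      by_contra h
      push_neg at h
      have h2 := Subgroup.eq_of_le_of_card_ge (le_sup_left : H ≤ H ⊔ zpowers x) h
      apply hxH
      rw [h2]
      exact (le_sup_right : zpowers x ≤ H ⊔ zpowers x) (mem_zpowers x)
    rw [hHc, hkc] at hlt'
    have h3 : 2 < k := (Nat.pow_lt_pow_iff_right hp.one_lt).1 hlt'
    have h4 : k = 3 := by omega
    rw [hkc, h4, hcard]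
  obtain ⟨a, b, hab⟩ := hna
  apply hab
  have hall := comm_sup H (zpowers x) hHcomm (comm_zpowers x) (by
    intro u hu v hv
    obtain ⟨i, rfl⟩ := mem_zpowers_iff.1 hv
    have h1 : u * x = x * u := mem_centralizer_iff.1 hx u hu
    exact (Commute.zpow_right (show Commute u x from h1) i).eq)
  exact hall a (htop ▸ mem_top a) b (htop ▸ mem_top b)

theorem sc_card {G : Type*} [Group G] [Finite G] {p : ℕ} [Fact p.Prime] (hp2 : p ≠ 2)
    (hG : IsPGroup p G) (hna : ∃ a b : G, a * b ≠ b * a)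
    (hSC : ∀ H : Subgroup G, ¬ IsCyclic ↥H → centralizer (H : Set G) ≤ H) :
    Nat.card G = p ^ 3 := by
  classical
  have hp : p.Prime := Fact.out
  haveI : Group.IsNilpotent G := hG.isNilpotent
  have hncyc : ¬ IsCyclic G := by
    intro h
    obtain ⟨a, b, hab⟩ := hna
    exact hab ((IsCyclic.commutative).is_comm.comm a b)
  have hnuniq : ¬ (∀ H K : Subgroup G, Nat.card H = p → Nat.card K = p → H = K) := by
    intro huniq
    rcases Cfsg.Agent.Lib.Helper1.UniqP.cyclic_or_quat hG huniq with h | ⟨h, -⟩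
    · exact hncyc h
    · exact hp2 h
  push_neg at hnuniq
  obtain ⟨H, K, hH, hK, hHK⟩ := hnuniq
  haveI : Nontrivial G := by
    obtain ⟨a, b, hab⟩ := hna
    exact ⟨⟨a * b, b * a, hab⟩⟩
  have hcen := IsPGroup.center_nontrivial hG
  obtain ⟨⟨z0, hz0⟩, hz01⟩ := exists_ne (1 : center G)
  have hz01' : z0 ≠ 1 := fun h => hz01 (Subtype.ext h)
  obtain ⟨j, hj⟩ := (IsPGroup.iff_orderOf.1 hG) z0
  have hj1 : 1 ≤ j := by
    by_contra hlt
    have : j = 0 := by omega
    rw [this, pow_zero, orderOf_eq_one_iff] at hj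
    exact hz01' hj
  set z := z0 ^ (p ^ (j - 1)) with hz
  have hoz : orderOf z = p := by
    have h0 : orderOf z0 ≠ 0 := (orderOf_pos z0).ne'
    have hd : p ∣ orderOf z0 := by rw [hj]; exact dvd_pow_self p (by omega)
    have := orderOf_pow_orderOf_div (x := z0) (n := p) h0 hd
    have hdiv : orderOf z0 / p = p ^ (j - 1) := by
      rw [hj]
      conv_lhs => rw [show p ^ j / p = p ^ j / p ^ 1 by rw [pow_one]]
      exact Nat.pow_div hj1 hp.pos
    rwa [hdiv] at this
  have hzc : z ∈ center G := pow_mem hz0 _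
  set Z0 : Subgroup G := zpowers z with hZ0
  have hZ0c : Nat.card Z0 = p := by rw [hZ0, Nat.card_zpowers, hoz]
  have hZ0Z : Z0 ≤ center G := zpowers_le.2 hzc
  haveI hZ0n : Z0.Normal := by
    constructor
    intro n hn g
    have := mem_center_iff.1 (hZ0Z hn) g
    rw [this, mul_inv_cancel_right]
    exact hn
  have hZ0exp : ∀ u ∈ Z0, u ^ p = 1 := by
    intro u hu
    have := pow_card_eq_one' (G := Z0) (x := ⟨u, hu⟩)
    rw [hZ0c] at this
    simpa using congrArg Subtype.val this
  have hpp3 : p * p < p ^ 3 := by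
    have := hp.one_lt
    have h4 : p ^ 3 = p * p * p := by ring
    rw [h4]; nlinarith [hp.pos]
  have hkey : ∀ y : G, orderOf y = p → y ∉ Z0 →
      (∀ x ∈ centralizer {y}, x ^ p = 1) ∧ Nat.card (centralizer {y} : Subgroup G) ≤ p * p := by
    intro y hoy hyZ
    set E : Subgroup G := Z0 ⊔ zpowers y with hE
    have hyN : y ∈ normalizer (Z0 : Set G) := by rw [normalizer_eq_top]; exact mem_top y
    have hEc : Nat.card E = p * p := by rw [hE, card_sup_zpowers Z0 y hoy hyZ hyN, hZ0c]
    have hEexp : ∀ u ∈ E, u ^ p = 1 := by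
      intro u hu
      have hu' : u ∈ ((Z0 ⊔ zpowers y : Subgroup G) : Set G) := hu
      rw [Subgroup.normal_mul] at hu'
      obtain ⟨a, ha, b, hb, rfl⟩ := Set.mem_mul.1 hu'
      have hab : Commute a b := (mem_center_iff.1 (hZ0Z ha) b).symm
      rw [hab.mul_pow, hZ0exp a ha]
      obtain ⟨i, rfl⟩ := mem_zpowers_iff.1 hb
      rw [← zpow_natCast, ← zpow_mul, mul_comm, zpow_mul, zpow_natCast, ← hoy,
        pow_orderOf_eq_one, one_zpow, mul_one]
    have hEnc : ¬ IsCyclic ↥E := by
      intro hcyc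
      obtain ⟨g, hg⟩ := hcyc.exists_generator
      have hog : orderOf g = p * p := by rw [orderOf_eq_card_of_forall_mem_zpowers hg, hEc]
      have hgp : g ^ p = 1 := by
        apply Subtype.ext
        rw [Subgroup.coe_pow]
        exact hEexp g g.2
      have h1 := orderOf_dvd_of_pow_eq_one hgp
      rw [hog] at h1
      have h2 := Nat.le_of_dvd hp.pos h1
      nlinarith [hp.one_lt]
    have hcE := hSC E hEnc
    have hle2 : centralizer {y} ≤ E := by
      intro x hx
      apply hcE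
      rw [mem_centralizer_iff]
      intro u hu
      have hle : E ≤ centralizer {x} := by
        rw [hE]
        refine sup_le ?_ ?_
        · intro a ha
          rw [mem_centralizer_iff]
          intro h hh
          rw [Set.mem_singleton_iff] at hh
          rw [hh]
          exact mem_center_iff.1 (hZ0Z ha) x
        · rw [zpowers_le, mem_centralizer_iff]
          intro h hh
          rw [Set.mem_singleton_iff] at hh
          rw [hh]
          exact (mem_centralizer_iff.1 hx y (Set.mem_singleton y)).symm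
      exact (mem_centralizer_iff.1 (hle hu) x (Set.mem_singleton x)).symm
    refine ⟨fun x hx => hEexp x (hle2 hx), ?_⟩
    rw [← hEc]
    exact Subgroup.card_le_of_le hle2
  obtain ⟨A, hAc, hAZ⟩ : ∃ A : Subgroup G, Nat.card A = p ∧ A ≠ Z0 := by
    by_cases h : H = Z0
    · exact ⟨K, hK, fun h' => hHK (h.trans h'.symm)⟩
    · exact ⟨H, hH, h⟩
  obtain ⟨a, haA, haZ⟩ : ∃ a ∈ A, a ∉ Z0 := by
    by_contra hcon
    push_neg at hcon
    exact hAZ (Subgroup.eq_of_le_of_card_ge hcon (by rw [hAc, hZ0c]))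
  have ha1 : a ≠ 1 := fun h => haZ (h ▸ one_mem _)
  have hap : a ^ p = 1 := by
    have := pow_card_eq_one' (G := A) (x := ⟨a, haA⟩)
    rw [hAc] at this
    simpa using congrArg Subtype.val this
  have hoa : orderOf a = p := order_p a hap ha1
  obtain ⟨hca_exp, hca_card⟩ := hkey a hoa haZ
  obtain ⟨n, hn⟩ := IsPGroup.iff_card.1 hG
  by_contra hne
  have hn3 : 3 ≤ n := by
    by_contra hlt
    have hn2 : n ≤ 2 := by omega
    interval_cases n
    · apply hncyc
      haveI : Subsingleton G := (Nat.card_eq_one_iff_unique.1 (by simpa using hn)).1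
      exact isCyclic_of_subsingleton
    · apply hncyc
      exact isCyclic_of_prime_card (by simpa using hn)
    · obtain ⟨a, b, hab⟩ := hna
      exact hab (IsPGroup.commutative_of_card_eq_prime_sq hn a b)
  have hn4 : 4 ≤ n := by
    by_contra hlt
    have : n = 3 := by omega
    exact hne (by rw [hn, this])
  have hCA : ¬ (⊤ : Subgroup G) ≤ Z0 := by
    intro h
    exact haZ (h (mem_top a))
  obtain ⟨w, -, hwZ, hwc⟩ := Cfsg.Agent.Lib.Helper1.UniqP.nil_step Z0 ⊤ hCA
  set C : Subgroup G := centralizer {w} with hCdef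
  have hidx : C.index ≤ p := index_cent_le Z0 hZ0c w hwc
  have hCc : p ^ 3 ≤ Nat.card C := by
    have h1 := Subgroup.card_mul_index C
    have h2 : p ^ 4 ≤ Nat.card C * p := by
      calc p ^ 4 ≤ p ^ n := Nat.pow_le_pow_right hp.pos hn4
        _ = Nat.card G := hn.symm
        _ = Nat.card C * C.index := h1.symm
        _ ≤ Nat.card C * p := Nat.mul_le_mul_left _ hidx
    have h3 : p ^ 4 = p ^ 3 * p := by ring
    rw [h3] at h2
    exact Nat.le_of_mul_le_mul_right h2 hp.pos
  have hw1 : w ≠ 1 := fun h => hwZ (h ▸ one_mem _)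
  have hwp : w ^ p ≠ 1 := by
    intro h
    have how : orderOf w = p := order_p w h hw1
    obtain ⟨-, hcard⟩ := hkey w how hwZ
    have hcard' : Nat.card C ≤ p * p := hcard
    omega
  have hCord : ∀ y ∈ C, orderOf y = p → y ∈ Z0 := by
    intro y hyC hoy
    by_contra hyZ
    obtain ⟨hexp, -⟩ := hkey y hoy hyZ
    apply hwp
    apply hexp
    rw [mem_centralizer_iff]
    intro h hh
    rw [Set.mem_singleton_iff] at hh
    rw [hh]
    exact (mem_centralizer_iff.1 hyC w (Set.mem_singleton w)).symm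
  have hZ0C : Z0 ≤ C := by
    intro u hu
    rw [hCdef, mem_centralizer_iff]
    intro h hh
    rw [Set.mem_singleton_iff] at hh
    rw [hh]
    exact mem_center_iff.1 (hZ0Z hu) w
  have huC : ∀ H K : Subgroup ↥C, Nat.card H = p → Nat.card K = p → H = K := by
    have hsub : ∀ H : Subgroup ↥C, Nat.card H = p → H = Z0.subgroupOf C := by
      intro H hH
      apply Subgroup.eq_of_le_of_card_ge
      · intro h hh
        rw [mem_subgroupOf]
        by_cases h1 : h = 1
        · rw [h1, Subgroup.coe_one]; exact one_mem _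
        · apply hCord _ h.2
          rw [Subgroup.orderOf_coe]
          apply order_p h _ h1
          have := pow_card_eq_one' (G := H) (x := ⟨h, hh⟩)
          rw [hH] at this
          simpa using congrArg Subtype.val this
      · rw [hH, Nat.card_congr (subgroupOfEquivOfLe hZ0C).toEquiv, hZ0c]
    intro H K hH hK
    rw [hsub H hH, hsub K hK]
  have hCp : IsPGroup p ↥C := hG.to_subgroup C
  have hCcyc : IsCyclic ↥C := by
    rcases Cfsg.Agent.Lib.Helper1.UniqP.cyclic_or_quat hCp huC with h | ⟨h, -⟩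
    · exact h
    · exact absurd h hp2
  obtain ⟨⟨c, hcC⟩, hcgen⟩ := hCcyc.exists_generator
  have hCz : C = zpowers c := by
    apply le_antisymm
    · intro u hu
      obtain ⟨i, hi⟩ := mem_zpowers_iff.1 (hcgen ⟨u, hu⟩)
      have : u = c ^ i := by simpa using (congrArg Subtype.val hi).symm
      rw [this]; exact zpow_mem (mem_zpowers c) i
    · exact zpowers_le.2 hcC
  have hoc : orderOf c = Nat.card C := by rw [hCz, Nat.card_zpowers]
  obtain ⟨m, hm⟩ := IsPGroup.iff_card.1 hCp
  have hm3 : 3 ≤ m := by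
    rw [hm] at hCc
    exact (Nat.pow_le_pow_iff_right hp.one_lt).1 hCc
  have haC : a ∉ C := fun h => haZ (hCord a h hoa)
  have hCn : C.Normal := by
    apply Subgroup.normal_of_index_eq_minFac_card
    have hdvd : C.index ∣ Nat.card G := Subgroup.index_dvd_card C
    rw [hn] at hdvd
    obtain ⟨i, hi, hidx2⟩ := (Nat.dvd_prime_pow hp).1 hdvd
    have hi1 : i ≤ 1 := by
      rw [hidx2] at hidx
      by_contra hlt
      have : p ^ 2 ≤ p ^ i := Nat.pow_le_pow_right hp.pos (by omega)
      nlinarith [hp.one_lt]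
    have hi0 : i ≠ 0 := by
      intro h0
      rw [h0, pow_zero] at hidx2
      rw [Subgroup.index_eq_one] at hidx2
      exact haC (hidx2 ▸ mem_top a)
    have hi1' : i = 1 := by omega
    rw [hidx2, hi1', pow_one, hn, Nat.Prime.pow_minFac hp (by omega)]
  have hconj : a * c * a⁻¹ ∈ zpowers c := by
    rw [← hCz]; exact hCn.conj_mem c hcC a
  obtain ⟨r, hr⟩ := (mem_powers_iff_mem_zpowers).2 hconj
  have hiter : ∀ k : ℕ, a ^ k * c * (a ^ k)⁻¹ = c ^ (r ^ k) := by
    intro k
    induction k with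
    | zero => simp
    | succ k ih =>
      have h1 : a ^ (k + 1) * c * (a ^ (k + 1))⁻¹ = a * (a ^ k * c * (a ^ k)⁻¹) * a⁻¹ := by
        rw [pow_succ']; group
      rw [h1, ih]
      have h2 : a * c ^ (r ^ k) * a⁻¹ = (a * c * a⁻¹) ^ (r ^ k) := conj_pow.symm
      rw [h2, ← hr, ← pow_mul, ← pow_succ']
  have hrp : c ^ (r ^ p) = c ^ 1 := by
    rw [← hiter p, hap]; simp
  have hmod : r ^ p ≡ 1 [MOD p ^ m] := by
    have := pow_eq_pow_iff_modEq.1 hrp
    rwa [hoc, hm] at this
  have hmod2 := nt_odd p m r hp2 (by omega) hmod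
  have hcomm : a * c ^ p * a⁻¹ = c ^ p := by
    have h2 : a * c ^ p * a⁻¹ = (a * c * a⁻¹) ^ p := conj_pow.symm
    rw [h2, ← hr, ← pow_mul]
    apply pow_eq_pow_iff_modEq.2
    rw [hoc, hm, mul_comm]; exact hmod2
  have hcpa : c ^ p ∈ centralizer {a} := by
    rw [mem_centralizer_iff]
    intro h hh
    rw [Set.mem_singleton_iff] at hh
    rw [hh]
    calc a * c ^ p = (a * c ^ p * a⁻¹) * a := by group
      _ = c ^ p * a := by rw [hcomm]
  have hcpp : (c ^ p) ^ p = 1 := hca_exp _ hcpa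
  rw [← pow_mul] at hcpp
  have hdvd := orderOf_dvd_of_pow_eq_one hcpp
  rw [hoc, hm] at hdvd
  have e2 : p * p = p ^ 2 := by ring
  rw [e2] at hdvd
  have := (Nat.pow_dvd_pow_iff_le_right hp.one_lt).1 hdvd
  omega

end Cfsg.Agent.Lib.Helper6.SelfCent
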