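import Mathlib

set_option autoImplicit false

namespace Cfsg.Agent.Lib.Helper6.SemiAut

/-- an element acting without fixed points on a normal subgroup: every element of the coset
`N k` is an `N`-conjugate of `k`. -/
theorem conj_of_fpf {G : Type*} [Group G] [Finite G] (N : Subgroup G) [hN : N.Normal] (k : G)
    (hfpf : ∀ u ∈ N, k * u * k⁻¹ = u → u = 1) (u : G) (hu : u ∈ N) :
    ∃ v ∈ N, v * k * v⁻¹ = u * k := by
  have hmem : ∀ v : N, (v : G) * (k * (v : G)⁻¹ * k⁻¹) ∈ N := fun v =>
    N.mul_mem v.2 (hN.conj_mem _ (N.inv_mem v.2) k)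
  have hinj : Function.Injective (fun v : N => (⟨(v : G) * (k * (v : G)⁻¹ * k⁻¹), hmem v⟩ : N)) := by
    intro v w hvw
    have h1 : (v : G) * (k * (v : G)⁻¹ * k⁻¹) = (w : G) * (k * (w : G)⁻¹ * k⁻¹) :=
      congrArg Subtype.val hvw
    have h2 : k * ((w : G)⁻¹ * (v : G)) * k⁻¹ = (w : G)⁻¹ * (v : G) := by
      have h3 : (v : G) * k * (v : G)⁻¹ = (w : G) * k * (w : G)⁻¹ := by
        have e1 : (v : G) * k * (v : G)⁻¹ = ((v : G) * (k * (v : G)⁻¹ * k⁻¹)) * k := by group
        have e2 : (w : G) * k * (w : G)⁻¹ = ((w : G) * (k * (w : G)⁻¹ * k⁻¹)) * k := by group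
        rw [e1, e2, h1]
      calc k * ((w : G)⁻¹ * (v : G)) * k⁻¹
          = (w : G)⁻¹ * ((w : G) * k * (w : G)⁻¹) * (v : G) * k⁻¹ := by group
        _ = (w : G)⁻¹ * ((v : G) * k * (v : G)⁻¹) * (v : G) * k⁻¹ := by rw [h3]
        _ = (w : G)⁻¹ * (v : G) := by group
    have h4 := hfpf _ (N.mul_mem (N.inv_mem w.2) v.2) h2
    apply Subtype.ext
    calc (v : G) = (w : G) * ((w : G)⁻¹ * (v : G)) := by group
      _ = (w : G) := by rw [h4, mul_one]
  obtain ⟨v, hv⟩ := Finite.surjective_of_injective hinj ⟨u, hu⟩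
  refine ⟨v, v.2, ?_⟩
  have h5 : (v : G) * (k * (v : G)⁻¹ * k⁻¹) = u := congrArg Subtype.val hv
  calc (v : G) * k * (v : G)⁻¹ = ((v : G) * (k * (v : G)⁻¹ * k⁻¹)) * k := by group
    _ = u * k := by rw [h5]

/-- extending an automorphism of a normal subgroup with cyclic complement. -/
theorem exists_aut_extending {G : Type*} [Group G] [Finite G] (N : Subgroup G) [hN : N.Normal]
    (x : G) (hdisj : N ⊓ Subgroup.zpowers x = ⊥) (htop : N ⊔ Subgroup.zpowers x = ⊤)
    (fn : N ≃* N) (m : ℕ) (hm : (orderOf x).Coprime m)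
    (hc : ∀ u : N, (fn (MulAut.conjNormal x u) : G) = x ^ m * (fn u : G) * (x ^ m)⁻¹) :
    ∃ φ : MulAut G, (∀ u : N, φ (u : G) = (fn u : G)) ∧ φ x = x ^ m := by
  classical
  have hcompl : N.IsComplement' (Subgroup.zpowers x) := by
    apply Subgroup.isComplement'_of_disjoint_and_mul_eq_univ (disjoint_iff.mpr hdisj)
    rw [← Subgroup.normal_mul, htop]
    rfl
  -- the power claim
  have hpow : ∀ (j : ℕ) (u : N), (fn (MulAut.conjNormal (x ^ j) u) : G) =
      (x ^ j) ^ m * (fn u : G) * ((x ^ j) ^ m)⁻¹ := by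
    intro j
    induction j with
    | zero => intro u; simp
    | succ j ih =>
      intro u
      rw [pow_succ', map_mul, MulAut.mul_apply, hc, ih]
      have e : (x * x ^ j) ^ m = x ^ m * (x ^ j) ^ m := by
        rw [← pow_succ', ← pow_mul, ← pow_mul, ← pow_add]
        congr 1
        ring
      rw [e]
      group
  let fg : Subgroup.zpowers x →* G := MonoidHom.mk' (fun k => (k : G) ^ m) (by
    intro a b
    have hab : Commute (a : G) (b : G) := by
      obtain ⟨i, hi⟩ := Subgroup.mem_zpowers_iff.mp a.2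
      obtain ⟨j, hj⟩ := Subgroup.mem_zpowers_iff.mp b.2
      rw [← hi, ← hj]
      exact (Commute.refl x).zpow_zpow i j
    show ((a : G) * (b : G)) ^ m = (a : G) ^ m * (b : G) ^ m
    exact hab.mul_pow m)
  have hfg : ∀ k : Subgroup.zpowers x, fg k = (k : G) ^ m := fun k => rfl
  let e := SemidirectProduct.mulEquivSubgroup hcompl
  have hcomp : ∀ k : Subgroup.zpowers x,
      (N.subtype.comp fn.toMonoidHom).comp
        ((((N.normalizerMonoidHom).comp (Subgroup.inclusion (N.normalizer_eq_top ▸ le_top)))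
          k).toMonoidHom) =
      (MulAut.conj (fg k)).toMonoidHom.comp (N.subtype.comp fn.toMonoidHom) := by
    intro k
    ext u
    obtain ⟨j, hj⟩ := (mem_powers_iff_mem_zpowers).mpr k.2
    have hj' : x ^ j = (k : G) := hj
    have h1 := hpow j u
    simp only [MonoidHom.comp_apply, MulEquiv.coe_toMonoidHom, Subgroup.coe_subtype,
      MulAut.conj_apply, hfg]
    rw [← hj', ← h1]
    congr 2
    apply Subtype.ext
    simp [hj']
  let ψ : N ⋊[(N.normalizerMonoidHom).comp (Subgroup.inclusion (N.normalizer_eq_top ▸ le_top))]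
      (Subgroup.zpowers x) →* G :=
    SemidirectProduct.lift (N.subtype.comp fn.toMonoidHom) fg hcomp
  have hψinj : Function.Injective ψ := by
    rw [injective_iff_map_eq_one]
    intro a ha
    have h1 : (fn a.left : G) * (a.right : G) ^ m = 1 := ha
    have h2 : (fn a.left : G) ∈ N ⊓ Subgroup.zpowers x := by
      refine ⟨(fn a.left).2, ?_⟩
      have h3 : (fn a.left : G) = ((a.right : G) ^ m)⁻¹ := eq_inv_of_mul_eq_one_left h1
      rw [h3]
      exact Subgroup.inv_mem _ (Subgroup.pow_mem _ a.right.2 m)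
    rw [hdisj, Subgroup.mem_bot] at h2
    have h4 : a.left = 1 := by
      have : fn a.left = 1 := Subtype.ext h2
      simpa using this
    have h5 : (a.right : G) ^ m = 1 := by rw [h2, one_mul] at h1; exact h1
    have h6 : orderOf (a.right : G) ∣ 1 := by
      have hd1 : orderOf (a.right : G) ∣ m := orderOf_dvd_of_pow_eq_one h5
      have hd2 : orderOf (a.right : G) ∣ orderOf x := orderOf_dvd_of_mem_zpowers a.right.2
      have := Nat.dvd_gcd hd2 hd1
      rwa [Nat.Coprime.gcd_eq_one hm] at this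
    have h7 : (a.right : G) = 1 := orderOf_eq_one_iff.mp (Nat.dvd_one.mp h6)
    ext
    · rw [h4]; rfl
    · rw [h7]; rfl
  have hφinj : Function.Injective (ψ.comp e.symm.toMonoidHom) := by
    intro a b hab
    exact e.symm.injective (hψinj hab)
  refine ⟨MulEquiv.ofBijective (ψ.comp e.symm.toMonoidHom)
    ⟨hφinj, Finite.surjective_of_injective hφinj⟩, ?_, ?_⟩
  · intro u
    show ψ (e.symm (u : G)) = (fn u : G)
    have h1 : e.symm (u : G) = SemidirectProduct.inl u := by
      rw [MulEquiv.symm_apply_eq]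
      simp [e]
    rw [h1]
    simp [ψ]
  · show ψ (e.symm x) = x ^ m
    have h1 : e.symm x = SemidirectProduct.inr (⟨x, Subgroup.mem_zpowers x⟩ : Subgroup.zpowers x) := by
      rw [MulEquiv.symm_apply_eq]
      simp [e]
    rw [h1]
    simp [ψ, hfg]

end Cfsg.Agent.Lib.Helper6.SemiAut
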