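import Mathlib
import Cfsg.Agent.Lib.Helper6.TateAux

namespace Cfsg.Agent.Lib.Helper6.Tate2

open Subgroup
open scoped commutatorElement

theorem main {G : Type*} [Group G] [Finite G] {p : ℕ} [Fact p.Prime] (P : Sylow p G)
    (hN : Cfsg.HasNormalPComplement p ↥(Subgroup.normalizer ((P : Subgroup G) : Set G)))
    (Q : Subgroup G)
    (h1 : (commutator ↥(P : Subgroup G)).map (P : Subgroup G).subtype ≤ Q)
    (h2 : Q ≤ (frattini ↥(P : Subgroup G)).map (P : Subgroup G).subtype) :
    Cfsg.HasNormalPComplement p ↥(Subgroup.normalizer (Q : Set G)) := by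
  classical
  have hQP : Q ≤ (P : Subgroup G) := h2.trans (Subgroup.map_subtype_le _)
  have hcomm : ∀ u ∈ (P : Subgroup G), ∀ x ∈ (P : Subgroup G), u * x * u⁻¹ * x⁻¹ ∈ Q := by
    intro u hu x hx
    apply h1
    refine Subgroup.mem_map.2 ⟨⁅(⟨u, hu⟩ : (P : Subgroup G)), ⟨x, hx⟩⁆, ?_, ?_⟩
    · rw [_root_.commutator_def]
      exact Subgroup.commutator_mem_commutator (Subgroup.mem_top _) (Subgroup.mem_top _)
    · rw [commutatorElement_def]; rfl
  have hconjQ : ∀ u ∈ (P : Subgroup G), ∀ q ∈ Q, u * q * u⁻¹ ∈ Q := by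
    intro u hu q hq
    have := hcomm u hu q (hQP hq)
    have h3 : u * q * u⁻¹ = (u * q * u⁻¹ * q⁻¹) * q := by group
    rw [h3]; exact mul_mem this hq
  have hPM : (P : Subgroup G) ≤ normalizer (Q : Set G) := by
    intro u hu
    rw [mem_normalizer_iff]
    intro h
    constructor
    · exact hconjQ u hu h
    · intro hh
      have := hconjQ u⁻¹ (inv_mem hu) _ hh
      have h3 : u⁻¹ * (u * h * u⁻¹) * u⁻¹⁻¹ = h := by group
      rwa [h3] at this
  have hF : ∀ g ∈ normalizer ((P : Subgroup G) : Set G), ∀ x ∈ (P : Subgroup G),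
      g * x * g⁻¹ * x⁻¹ ∈ Q := by
    obtain ⟨P1, K1, hK1n, hK1P1⟩ := hN
    have hPn : (P : Subgroup G) ≤ normalizer ((P : Subgroup G) : Set G) := le_normalizer
    set Pn : Sylow p (normalizer ((P : Subgroup G) : Set G)) := P.subtype hPn with hPn'
    have hPnn : (Pn : Subgroup (normalizer ((P : Subgroup G) : Set G))).Normal := by
      rw [hPn', Sylow.coe_subtype]; exact Subgroup.normal_in_normalizer
    haveI := Sylow.unique_of_normal Pn hPnn
    have hP1 : P1 = Pn := Subsingleton.elim _ _
    have hP1c : (P1 : Subgroup (normalizer ((P : Subgroup G) : Set G))) =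
        (P : Subgroup G).subgroupOf (normalizer ((P : Subgroup G) : Set G)) := by
      rw [hP1, hPn', Sylow.coe_subtype]
    have hP1n : (P1 : Subgroup (normalizer ((P : Subgroup G) : Set G))).Normal := hP1 ▸ hPnn
    have hdisj : Disjoint K1 (P1 : Subgroup (normalizer ((P : Subgroup G) : Set G))) :=
      hK1P1.isCompl.disjoint
    intro g hg x hx
    obtain ⟨⟨k, u⟩, hku⟩ := hK1P1.2 (⟨g, hg⟩ : normalizer ((P : Subgroup G) : Set G))
    have huP1 : ∀ w : normalizer ((P : Subgroup G) : Set G),
        w ∈ (P1 : Subgroup (normalizer ((P : Subgroup G) : Set G))) → (w : G) ∈ (P : Subgroup G) := by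
      intro w hw
      rw [hP1c] at hw
      exact Subgroup.mem_subgroupOf.1 hw
    have hu : ((u.1 : normalizer ((P : Subgroup G) : Set G)) : G) ∈ (P : Subgroup G) :=
      huP1 u.1 u.2
    set x' : normalizer ((P : Subgroup G) : Set G) := ⟨x, hPn hx⟩ with hx'def
    have hx' : x' ∈ (P1 : Subgroup (normalizer ((P : Subgroup G) : Set G))) := by
      rw [hP1c]; exact Subgroup.mem_subgroupOf.2 hx
    have hux : u.1 * x' * u.1⁻¹ ∈ (P1 : Subgroup (normalizer ((P : Subgroup G) : Set G))) :=
      hP1n.conj_mem _ hx' _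
    have hc : Commute k.1 (u.1 * x' * u.1⁻¹) :=
      Subgroup.commute_of_normal_of_disjoint K1 P1 hK1n hP1n hdisj _ _ k.2 hux
    have hg' : g = ((k.1 : normalizer ((P : Subgroup G) : Set G)) : G) *
        ((u.1 : normalizer ((P : Subgroup G) : Set G)) : G) := by
      have := congrArg Subtype.val hku
      exact this.symm
    have hc' : ((k.1 : normalizer ((P : Subgroup G) : Set G)) : G) *
        (((u.1 : normalizer ((P : Subgroup G) : Set G)) : G) * x *
          ((u.1 : normalizer ((P : Subgroup G) : Set G)) : G)⁻¹) =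
        (((u.1 : normalizer ((P : Subgroup G) : Set G)) : G) * x *
          ((u.1 : normalizer ((P : Subgroup G) : Set G)) : G)⁻¹) *
        ((k.1 : normalizer ((P : Subgroup G) : Set G)) : G) := congrArg Subtype.val hc.eq
    generalize ((k.1 : normalizer ((P : Subgroup G) : Set G)) : G) = kk at hg' hc'
    generalize hue : ((u.1 : normalizer ((P : Subgroup G) : Set G)) : G) = uu at hg' hc' hu
    have : g * x * g⁻¹ * x⁻¹ = uu * x * uu⁻¹ * x⁻¹ := by
      rw [hg', mul_inv_rev]
      calc kk * uu * x * (uu⁻¹ * kk⁻¹) * x⁻¹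
          = (kk * (uu * x * uu⁻¹)) * kk⁻¹ * x⁻¹ := by group
        _ = ((uu * x * uu⁻¹) * kk) * kk⁻¹ * x⁻¹ := by rw [hc']
        _ = _ := by group
    rw [this]
    exact hcomm _ hu x hx
  set S : Sylow p (normalizer (Q : Set G)) := P.subtype hPM with hS
  have hSc : (S : Subgroup (normalizer (Q : Set G))) =
      (P : Subgroup G).subgroupOf (normalizer (Q : Set G)) := Sylow.coe_subtype _ _
  set QM : Subgroup (normalizer (Q : Set G)) := Q.subgroupOf (normalizer (Q : Set G)) with hQM
  haveI : QM.Normal := Subgroup.normal_in_normalizer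
  apply Cfsg.Agent.Lib.Helper6.TateAux.tate_aux S QM
  · intro q hq
    rw [hSc]; exact Subgroup.mem_subgroupOf.2 (hQP (Subgroup.mem_subgroupOf.1 hq))
  · intro K hKS hSK
    set KP : Subgroup (P : Subgroup G) :=
      (K.map (normalizer (Q : Set G)).subtype).subgroupOf (P : Subgroup G) with hKP
    have htop : KP ⊔ frattini (P : Subgroup G) = ⊤ := by
      rw [eq_top_iff]
      intro x _
      have hxM : (x : G) ∈ normalizer (Q : Set G) := hPM x.2
      have hxS : (⟨(x : G), hxM⟩ : normalizer (Q : Set G)) ∈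
          (S : Subgroup (normalizer (Q : Set G))) := by
        rw [hSc]; exact Subgroup.mem_subgroupOf.2 x.2
      have hmem := hSK hxS
      rw [← SetLike.mem_coe, Subgroup.normal_mul] at hmem
      obtain ⟨q, hq, k, hk, hqk⟩ := Set.mem_mul.1 hmem
      have hqQ : (q : G) ∈ Q := Subgroup.mem_subgroupOf.1 hq
      obtain ⟨q', hq', hq'q⟩ := Subgroup.mem_map.1 (h2 hqQ)
      have hkP : (k : G) ∈ (P : Subgroup G) := by
        have := hKS hk
        rw [hSc] at this
        exact Subgroup.mem_subgroupOf.1 this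
      have hxe : x = q' * ⟨(k : G), hkP⟩ := by
        apply Subtype.ext
        have h3 : (q : G) * (k : G) = (x : G) := congrArg Subtype.val hqk
        have h4 : ((q' : (P : Subgroup G)) : G) = (q : G) := hq'q
        rw [Subgroup.coe_mul, h4]
        exact h3.symm
      rw [hxe]
      refine mul_mem (mem_sup_right hq') (mem_sup_left ?_)
      rw [hKP, Subgroup.mem_subgroupOf]
      exact Subgroup.mem_map.2 ⟨k, hk, rfl⟩
    have hKPtop : KP = ⊤ := frattini_nongenerating htop
    intro s hs
    have hsP : (s : G) ∈ (P : Subgroup G) := by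
      rw [hSc] at hs; exact Subgroup.mem_subgroupOf.1 hs
    have hmem : (⟨(s : G), hsP⟩ : (P : Subgroup G)) ∈ KP := by rw [hKPtop]; trivial
    rw [hKP, Subgroup.mem_subgroupOf] at hmem
    obtain ⟨k, hk, hks⟩ := Subgroup.mem_map.1 hmem
    have : k = s := Subtype.ext hks
    rw [← this]; exact hk
  · intro g hg x hx
    have hxP : (x : G) ∈ (P : Subgroup G) := by
      rw [hSc] at hx; exact Subgroup.mem_subgroupOf.1 hx
    have hgN : (g : G) ∈ normalizer ((P : Subgroup G) : Set G) := by
      apply Cfsg.Agent.Lib.Helper6.TateAux.mem_normalizer_of_conj_le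
      intro y hy
      have hyS : (⟨y, hPM hy⟩ : normalizer (Q : Set G)) ∈
          (S : Subgroup (normalizer (Q : Set G))) := by
        rw [hSc]; exact Subgroup.mem_subgroupOf.2 hy
      have := (mem_normalizer_iff.1 hg _).1 hyS
      rw [hSc] at this
      exact Subgroup.mem_subgroupOf.1 this
    rw [hQM, Subgroup.mem_subgroupOf]
    exact hF g hgN x hxP

end Cfsg.Agent.Lib.Helper6.Tate2
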