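import Mathlib
import Cfsg.Prelude.Def_Transfer
import Cfsg.Agent.Lib.Helper6.CycGrp
import Cfsg.Agent.Lib.Helper6.SemiAut

set_option autoImplicit false

namespace Cfsg.Agent.Lib.Helper6.ThreeOrbB

theorem orbit_mk_eq {G : Type*} [Group G] (g h : G) :
    (Quotient.mk'' g : MulAction.orbitRel.Quotient (MulAut G) G) = Quotient.mk'' h ↔
      ∃ φ : MulAut G, φ h = g := by
  rw [Quotient.eq'']
  show g ∈ MulAction.orbit (MulAut G) h ↔ _
  rw [MulAction.mem_orbit_iff]
  rfl

theorem backward {G : Type*} [Group G] [Finite G] (p q n : ℕ) [hp : Fact p.Prime]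
    [hq : Fact q.Prime] (hpq : p ≠ q) (hn : 1 ≤ n) (hcard : Nat.card G = p ^ n * q)
    (hP : ∀ P : Sylow p G, (P : Subgroup G).Normal ∧
      Cfsg.IsElementaryAbelian p (P : Subgroup G))
    (hord : orderOf (p : ZMod q) = q - 1)
    (hfpf : ∀ x y : G, orderOf x = q → orderOf y = p → x * y * x⁻¹ ≠ y) :
    Nat.card (MulAction.orbitRel.Quotient (MulAut G) G) = 3 := by
  classical
  obtain ⟨P⟩ : Nonempty (Sylow p G) := inferInstance
  obtain ⟨hPn, hPc, hPe⟩ := hP P
  set N : Subgroup G := (P : Subgroup G) with hN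
  haveI := hPn
  have hpq' : ¬ p ∣ q := fun h => hpq ((Nat.prime_dvd_prime_iff_eq hp.out hq.out).mp h)
  have hqp' : ¬ q ∣ p := fun h => hpq ((Nat.prime_dvd_prime_iff_eq hq.out hp.out).mp h).symm
  have hcop : Nat.Coprime p q := (Nat.coprime_primes hp.out hq.out).mpr hpq
  have hNcard : Nat.card N = p ^ n := by
    rw [hN, Sylow.card_eq_multiplicity, hcard]
    congr 1
    rw [Nat.factorization_mul (pow_ne_zero _ hp.out.ne_zero) hq.out.ne_zero]
    simp [hp.out.factorization_self, Nat.factorization_eq_zero_of_not_dvd hpq']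
  obtain ⟨x, hx⟩ := exists_prime_orderOf_dvd_card' (G := G) q (by rw [hcard]; exact dvd_mul_left q _)
  have hxq : x ^ q = 1 := by rw [← hx]; exact pow_orderOf_eq_one x
  have hx1 : x ≠ 1 := by
    intro h
    rw [h, orderOf_one] at hx
    exact hq.out.one_lt.ne hx
  have hordN : ∀ a ∈ N, a ≠ 1 → orderOf a = p := fun a ha ha1 =>
    orderOf_eq_prime (hPe a ha) ha1
  have hKcard : Nat.card (Subgroup.zpowers x) = q := by rw [Nat.card_zpowers, hx]
  have hordK : ∀ k ∈ Subgroup.zpowers x, k ≠ 1 → orderOf k = q := by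
    intro k hk hk1
    have h1 : orderOf k ∣ q := by rw [← hx]; exact orderOf_dvd_of_mem_zpowers hk
    rcases (Nat.dvd_prime hq.out).mp h1 with h | h
    · exact absurd (orderOf_eq_one_iff.mp h) hk1
    · exact h
  have hcompl : N.IsComplement' (Subgroup.zpowers x) :=
    Subgroup.isComplement'_of_coprime (by rw [hNcard, hKcard, hcard])
      (by rw [hNcard, hKcard]; exact Nat.Coprime.pow_left n hcop)
  have hdisj : N ⊓ Subgroup.zpowers x = ⊥ := hcompl.isCompl.inf_eq_bot
  have htop : N ⊔ Subgroup.zpowers x = ⊤ := hcompl.sup_eq_top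
  have hfix : ∀ k ∈ Subgroup.zpowers x, k ≠ 1 → ∀ u ∈ N, k * u * k⁻¹ = u → u = 1 := by
    intro k hk hk1 u hu hku
    by_contra hu1
    exact hfpf k u (hordK k hk hk1) (hordN u hu hu1) hku
  letI : CommGroup N :=
    { (inferInstance : Group N) with mul_comm := fun a b => hPc.is_comm.comm a b }
  have hirr : Irreducible (Polynomial.cyclotomic q (ZMod p)) := by
    apply ZMod.irreducible_of_dvd_cyclotomic_of_natDegree hpq' dvd_rfl
    rw [Polynomial.natDegree_cyclotomic, Nat.totient_prime hq.out, ← orderOf_units,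
      ZMod.coe_unitOfCoprime, hord]
  set c : N ≃* N := MulAut.conjNormal x with hc
  have hcq : c ^ q = 1 := by rw [hc, ← map_pow, hxq, map_one]
  have hcfix : ∀ a : N, c a = a → a = 1 := by
    intro a ha
    have h1 : x * (a : G) * x⁻¹ = (a : G) := by
      have h2 := congrArg Subtype.val ha
      simpa [hc] using h2
    exact Subtype.ext (hfix x (Subgroup.mem_zpowers x) hx1 a a.2 h1)
  have hexpN' : ∀ a : N, a ^ p = 1 := fun a => Subtype.ext (by simpa using hPe a a.2)
  obtain ⟨hA, hB⟩ := CycGrp.exists_auts hexpN' hirr c hcq hcfix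
  have hA' : ∀ u u' : G, u ∈ N → u' ∈ N → u ≠ 1 → u' ≠ 1 → ∃ φ : MulAut G, φ u = u' := by
    intro u u' hu hu' hu1 hu'1
    obtain ⟨L, hLu, hL⟩ := hA ⟨u, hu⟩ ⟨u', hu'⟩ (fun h => hu1 (congrArg Subtype.val h))
      (fun h => hu'1 (congrArg Subtype.val h))
    obtain ⟨φ, hφN, -⟩ := SemiAut.exists_aut_extending N x hdisj htop L 1
      (Nat.coprime_one_right _) (by
        intro w
        rw [hL w]
        simp [hc])
    refine ⟨φ, ?_⟩
    have h1 := hφN ⟨u, hu⟩
    rw [hLu] at h1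
    exact h1
  obtain ⟨S, hS⟩ := hB p hqp'
  obtain ⟨φS, -, hφSx⟩ := SemiAut.exists_aut_extending N x hdisj htop S p
    (by rw [hx]; exact hcop.symm) (by
      intro w
      have e : c ^ p = MulAut.conjNormal (x ^ p) := by rw [hc, map_pow]
      rw [hS w, e, MulAut.conjNormal_apply])
  have hpows : ∀ j : ℕ, ∃ ψ : MulAut G, ψ x = x ^ (p ^ j) := by
    intro j
    induction j with
    | zero => exact ⟨1, by simp⟩
    | succ j ih =>
      obtain ⟨ψ, hψ⟩ := ih
      refine ⟨φS * ψ, ?_⟩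
      rw [MulAut.mul_apply, hψ, map_pow, hφSx, ← pow_mul, pow_succ']
  have hgen : ∀ i : ℕ, 1 ≤ i → i < q → ∃ j : ℕ, x ^ (p ^ j) = x ^ i := by
    intro i hi1 hiq
    have hcop_i : Nat.Coprime i q :=
      Nat.Coprime.symm ((Nat.Prime.coprime_iff_not_dvd hq.out).mpr
        (Nat.not_dvd_of_pos_of_lt hi1 hiq))
    have hupord : orderOf (ZMod.unitOfCoprime p hcop) = Nat.card (ZMod q)ˣ := by
      rw [← orderOf_units, ZMod.coe_unitOfCoprime, hord, Nat.card_eq_fintype_card,
        ZMod.card_units_eq_totient, Nat.totient_prime hq.out]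
    have hmem : ZMod.unitOfCoprime i hcop_i ∈ Subgroup.zpowers (ZMod.unitOfCoprime p hcop) := by
      have h1 : Subgroup.zpowers (ZMod.unitOfCoprime p hcop) = ⊤ := by
        apply Subgroup.eq_top_of_card_eq
        rw [Nat.card_zpowers, hupord]
      rw [h1]; trivial
    obtain ⟨j, hj⟩ := (mem_powers_iff_mem_zpowers).mpr hmem
    refine ⟨j, ?_⟩
    have hj' : (ZMod.unitOfCoprime p hcop) ^ j = ZMod.unitOfCoprime i hcop_i := hj
    have h1 : ((p ^ j : ℕ) : ZMod q) = (i : ZMod q) := by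
      have h2 := congrArg (fun u : (ZMod q)ˣ => (u : ZMod q)) hj'
      simpa using h2
    rw [ZMod.natCast_eq_natCast_iff] at h1
    rw [pow_eq_pow_iff_modEq, hx]
    exact h1
  have hB' : ∀ g : G, g ∉ N → ∃ φ : MulAut G, φ x = g := by
    intro g hg
    have hgtop : g ∈ N ⊔ Subgroup.zpowers x := by rw [htop]; trivial
    rw [Subgroup.mem_sup_of_normal_left] at hgtop
    obtain ⟨u, hu, k, hk, rfl⟩ := hgtop
    have hk1 : k ≠ 1 := by
      rintro rfl
      apply hg
      simpa using hu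
    obtain ⟨v, hv, hvk⟩ := SemiAut.conj_of_fpf N k
      (fun w hw hkw => hfix k hk hk1 w hw hkw) u hu
    obtain ⟨i, hi⟩ := (mem_powers_iff_mem_zpowers).mpr hk
    have hi' : x ^ i = k := hi
    have hi'' : x ^ (i % q) = k := by rw [← hx, pow_mod_orderOf, hi']
    have hi1 : 1 ≤ i % q := by
      by_contra h0
      have h00 : i % q = 0 := by omega
      rw [h00, pow_zero] at hi''
      exact hk1 hi''.symm
    obtain ⟨j, hj⟩ := hgen (i % q) hi1 (Nat.mod_lt _ hq.out.pos)
    obtain ⟨ψ, hψ⟩ := hpows j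
    refine ⟨MulAut.conj v * ψ, ?_⟩
    rw [MulAut.mul_apply, hψ, hj, hi'', MulAut.conj_apply, hvk]
  obtain ⟨u₀, hu₀N, hu₀1⟩ : ∃ u₀ : G, u₀ ∈ N ∧ u₀ ≠ 1 := by
    have h1 : 1 < Nat.card N := by
      rw [hNcard]
      exact Nat.one_lt_pow (by omega) hp.out.one_lt
    haveI : Nontrivial N := Finite.one_lt_card_iff_nontrivial.mp h1
    obtain ⟨a, ha1⟩ := exists_ne (1 : N)
    exact ⟨a, a.2, fun h => ha1 (Subtype.ext h)⟩
  have hxN : x ∉ N := by
    intro hxN
    have h1 := hordN x hxN hx1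
    rw [hx] at h1
    exact hpq h1.symm
  have hall : (Set.univ : Set (MulAction.orbitRel.Quotient (MulAut G) G)) =
      {Quotient.mk'' 1, Quotient.mk'' u₀, Quotient.mk'' x} := by
    ext c
    simp only [Set.mem_univ, true_iff, Set.mem_insert_iff, Set.mem_singleton_iff]
    induction c using Quotient.inductionOn' with
    | h g =>
      by_cases hg1 : g = 1
      · left; rw [hg1]
      · by_cases hgN : g ∈ N
        · right; left
          rw [orbit_mk_eq]
          exact hA' u₀ g hu₀N hgN hu₀1 hg1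
        · right; right
          rw [orbit_mk_eq]
          exact hB' g hgN
  have hne1 : (Quotient.mk'' 1 : MulAction.orbitRel.Quotient (MulAut G) G) ≠ Quotient.mk'' u₀ := by
    rw [Ne, orbit_mk_eq]
    rintro ⟨φ, hφ⟩
    apply hu₀1
    simpa using hφ
  have hne2 : (Quotient.mk'' 1 : MulAction.orbitRel.Quotient (MulAut G) G) ≠ Quotient.mk'' x := by
    rw [Ne, orbit_mk_eq]
    rintro ⟨φ, hφ⟩
    apply hx1
    simpa using hφ
  have hne3 : (Quotient.mk'' u₀ : MulAction.orbitRel.Quotient (MulAut G) G) ≠ Quotient.mk'' x := by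
    rw [Ne, orbit_mk_eq]
    rintro ⟨φ, hφ⟩
    have h1 : orderOf (φ x) = orderOf x := MulEquiv.orderOf_eq φ x
    rw [hφ, hordN u₀ hu₀N hu₀1, hx] at h1
    exact hpq h1
  rw [← Set.ncard_univ, hall, Set.ncard_eq_three]
  exact ⟨_, _, _, hne1, hne2, hne3, rfl⟩

end Cfsg.Agent.Lib.Helper6.ThreeOrbB
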