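import Mathlib
import Cfsg.Prelude.Def_Transfer
import Cfsg.Agent.S0144
import Cfsg.Agent.Lib.Helper6.CycGrp
import Cfsg.Agent.Lib.Helper6.ThreeOrbB

set_option autoImplicit false

namespace Cfsg.Agent.Lib.Helper6.ThreeOrbF

/-- restriction of an automorphism to an invariant subgroup. -/
def restrictAut {G : Type*} [Group G] (D : Subgroup G)
    (hD : ∀ (φ : MulAut G) (g : G), g ∈ D → φ g ∈ D) (φ : MulAut G) : D ≃* D where
  toFun u := ⟨φ u, hD φ u u.2⟩
  invFun u := ⟨φ⁻¹ u, hD φ⁻¹ u u.2⟩
  left_inv u := Subtype.ext (by simp)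
  right_inv u := Subtype.ext (by simp)
  map_mul' u v := Subtype.ext (by simp)

theorem restrictAut_coe {G : Type*} [Group G] (D : Subgroup G)
    (hD : ∀ (φ : MulAut G) (g : G), g ∈ D → φ g ∈ D) (φ : MulAut G) (u : D) :
    ((restrictAut D hD φ u : D) : G) = φ u := rfl

/-- the norm argument: a noncyclic abelian group of exponent `s` cannot act without fixed
points. -/
theorem norm_arg {G : Type*} [Group G] [Finite G] (r s : ℕ) [hr : Fact r.Prime]
    [hs : Fact s.Prime] (hrs : r ≠ s) (D : Subgroup G) [hDn : D.Normal]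
    (hDcomm : ∀ a ∈ D, ∀ b ∈ D, a * b = b * a) (hDexp : ∀ g ∈ D, g ^ r = 1)
    (hfpf : ∀ x y : G, orderOf x = s → y ∈ D → x * y * x⁻¹ = y → y = 1)
    (z w : G) (hzw : Commute z w)
    (hz : ∀ j : ℕ, 1 ≤ j → j < s → orderOf (z ^ j) = s)
    (hw : ∀ i : ℕ, orderOf (z ^ i * w) = s) : D = ⊥ := by
  classical
  letI : CommGroup D :=
    { (inferInstance : Group D) with mul_comm := fun a b => Subtype.ext (hDcomm a a.2 b b.2) }
  let ρ : G →* AddMonoid.End (Additive D) :=
    { toFun := fun g => (MulEquiv.toAdditive (MulAut.conjNormal g : D ≃* D)).toAddMonoidHom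
      map_one' := by
        apply AddMonoidHom.ext
        intro v
        show Additive.ofMul ((MulAut.conjNormal (1 : G) : D ≃* D) v.toMul) = v
        rw [map_one]
        rfl
      map_mul' := fun g h => by
        apply AddMonoidHom.ext
        intro v
        show Additive.ofMul ((MulAut.conjNormal (g * h) : D ≃* D) v.toMul) =
          Additive.ofMul ((MulAut.conjNormal g : D ≃* D)
            ((MulAut.conjNormal h : D ≃* D) v.toMul))
        rw [map_mul]
        rfl }
  have hρ : ∀ (g : G) (v : Additive D),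
      ρ g v = Additive.ofMul ((MulAut.conjNormal g : D ≃* D) v.toMul) := fun g v => rfl
  -- norms vanish
  have hnrm : ∀ g : G, orderOf g = s → ∑ j ∈ Finset.range s, (ρ g) ^ j = 0 := by
    intro g hg
    have hes : (ρ g) ^ s = 1 := by
      rw [← map_pow, ← hg, pow_orderOf_eq_one, map_one]
    have h1 : ρ g * ∑ j ∈ Finset.range s, (ρ g) ^ j = ∑ j ∈ Finset.range s, (ρ g) ^ (j + 1) := by
      rw [Finset.mul_sum]
      apply Finset.sum_congr rfl
      intro j _
      rw [pow_succ']
    have h2 : ∑ j ∈ Finset.range s, (ρ g) ^ (j + 1) + 1 =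
        ∑ j ∈ Finset.range s, (ρ g) ^ j + (ρ g) ^ s := by
      rw [← Finset.sum_range_succ, Finset.sum_range_succ', pow_zero]
    have h3 : ρ g * ∑ j ∈ Finset.range s, (ρ g) ^ j = ∑ j ∈ Finset.range s, (ρ g) ^ j := by
      rw [h1]
      rw [hes] at h2
      exact add_right_cancel h2
    apply AddMonoidHom.ext
    intro v
    have h4 : ρ g ((∑ j ∈ Finset.range s, (ρ g) ^ j) v) = (∑ j ∈ Finset.range s, (ρ g) ^ j) v := by
      have h5 := congrArg (fun f : AddMonoid.End (Additive D) => f v) h3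
      exact h5
    rw [hρ] at h4
    have h6 := congrArg Additive.toMul h4
    have h7 : g * ((Additive.toMul ((∑ j ∈ Finset.range s, (ρ g) ^ j) v) : D) : G) * g⁻¹ =
        ((Additive.toMul ((∑ j ∈ Finset.range s, (ρ g) ^ j) v) : D) : G) := by
      have h8 := congrArg Subtype.val h6
      simpa using h8
    have h9 := hfpf g _ hg (Subtype.mem _) h7
    have h10 : Additive.toMul ((∑ j ∈ Finset.range s, (ρ g) ^ j) v) = 1 := Subtype.ext h9
    exact congrArg Additive.ofMul h10
  have hab : Commute (ρ z) (ρ w) := by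
    show ρ z * ρ w = ρ w * ρ z
    rw [← map_mul, ← map_mul, hzw.eq]
  -- the double sum
  have hsum : ∑ i ∈ Finset.range s, ∑ j ∈ Finset.range s, ((ρ z) ^ i * ρ w) ^ j =
      (s : AddMonoid.End (Additive D)) := by
    rw [Finset.sum_comm]
    have hterm : ∀ j ∈ Finset.range s, ∑ i ∈ Finset.range s, ((ρ z) ^ i * ρ w) ^ j =
        (∑ i ∈ Finset.range s, ((ρ z) ^ j) ^ i) * (ρ w) ^ j := by
      intro j _
      rw [Finset.sum_mul]
      apply Finset.sum_congr rfl
      intro i _
      rw [(hab.pow_left i).mul_pow, ← pow_mul, ← pow_mul, mul_comm]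
    rw [Finset.sum_congr rfl hterm]
    rw [Finset.sum_eq_single 0]
    · simp
    · intro j hj hj0
      rw [Finset.mem_range] at hj
      have h1 := hnrm (z ^ j) (hz j (by omega) hj)
      rw [map_pow] at h1
      rw [h1, zero_mul]
    · intro h0
      exfalso
      apply h0
      rw [Finset.mem_range]
      exact hs.out.pos
  have hzero : ∑ i ∈ Finset.range s, ∑ j ∈ Finset.range s, ((ρ z) ^ i * ρ w) ^ j = 0 := by
    apply Finset.sum_eq_zero
    intro i _
    have h1 := hnrm (z ^ i * w) (hw i)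
    rw [map_mul, map_pow] at h1
    exact h1
  rw [hzero] at hsum
  rw [eq_bot_iff]
  intro y hy
  rw [Subgroup.mem_bot]
  have h1 : ((s : AddMonoid.End (Additive D))) (Additive.ofMul (⟨y, hy⟩ : D)) = 0 := by
    rw [← hsum]; rfl
  have h2 : (⟨y, hy⟩ : D) ^ s = 1 := by
    have h3 : s • (Additive.ofMul (⟨y, hy⟩ : D)) = 0 := by
      simpa using h1
    exact congrArg Additive.toMul h3
  have h4 : y ^ s = 1 := by
    have := congrArg Subtype.val h2
    simpa using this
  have h5 : orderOf y ∣ Nat.gcd r s :=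
    Nat.dvd_gcd (orderOf_dvd_of_pow_eq_one (hDexp y hy)) (orderOf_dvd_of_pow_eq_one h4)
  rw [(Nat.coprime_primes hr.out hs.out).mpr hrs] at h5
  exact orderOf_eq_one_iff.mp (Nat.dvd_one.mp h5)

end Cfsg.Agent.Lib.Helper6.ThreeOrbF
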