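import Mathlib
import Cfsg.Prelude.Def_Transfer
import Cfsg.Agent.Lib.Helper6.CycGrp
import Cfsg.Agent.Lib.Helper6.ThreeOrbF

set_option autoImplicit false

namespace Cfsg.Agent.Lib.Helper6.ThreeOrbC

open Cfsg.Agent.Lib.Helper6

theorem core {G : Type*} [Group G] [Finite G] (r s : ℕ) [hr : Fact r.Prime] [hs : Fact s.Prime]
    (hrs : r ≠ s)
    (E1 : ∀ g : G, g = 1 ∨ orderOf g = r ∨ orderOf g = s)
    (E2 : ∀ g h : G, orderOf g = r → orderOf h = r → ∃ φ : MulAut G, φ g = h)
    (E3 : ∀ g h : G, orderOf g = s → orderOf h = s → ∃ φ : MulAut G, φ g = h)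
    (E4 : ∃ b : G, orderOf b = s)
    (E6 : ∃ α β : ℕ, Nat.card G = r ^ α * s ^ β)
    (D : Subgroup G) (hDinv : ∀ (φ : MulAut G) (g : G), g ∈ D → φ g ∈ D) (hDtop : D ≠ ⊤)
    (d : G) (hdD : d ∈ D) (hdr : orderOf d = r) :
    ∃ n : ℕ, 1 ≤ n ∧ Nat.card G = r ^ n * s ∧
      (∀ P : Sylow r G, (P : Subgroup G).Normal ∧ Cfsg.IsElementaryAbelian r (P : Subgroup G)) ∧
      orderOf (r : ZMod s) = s - 1 ∧
      ∀ x y : G, orderOf x = s → orderOf y = r → x * y * x⁻¹ ≠ y := by
  classical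
  have hrs' : ¬ r ∣ s := fun h => hrs ((Nat.prime_dvd_prime_iff_eq hr.out hs.out).mp h)
  have hsr' : ¬ s ∣ r := fun h => hrs ((Nat.prime_dvd_prime_iff_eq hs.out hr.out).mp h).symm
  have hcop : Nat.Coprime r s := (Nat.coprime_primes hr.out hs.out).mpr hrs
  have hd1 : d ≠ 1 := by
    intro h
    rw [h, orderOf_one] at hdr
    exact hr.out.one_lt.ne hdr
  -- D contains all elements of order r
  have hDr : ∀ g : G, orderOf g = r → g ∈ D := by
    intro g hg
    obtain ⟨φ, hφ⟩ := E2 d g hdr hg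
    rw [← hφ]
    exact hDinv φ d hdD
  have hDs : ∀ g : G, orderOf g = s → g ∉ D := by
    intro g hg hgD
    apply hDtop
    rw [eq_top_iff]
    intro h _
    rcases E1 h with h1 | h1 | h1
    · rw [h1]; exact one_mem D
    · exact hDr h h1
    · obtain ⟨φ, hφ⟩ := E3 g h hg h1
      rw [← hφ]
      exact hDinv φ g hgD
  have hDord : ∀ g ∈ D, g ≠ 1 → orderOf g = r := by
    intro g hg hg1
    rcases E1 g with h1 | h1 | h1
    · exact absurd h1 hg1
    · exact h1
    · exact absurd hg (hDs g h1)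
  have hDexp : ∀ g ∈ D, g ^ r = 1 := by
    intro g hg
    by_cases hg1 : g = 1
    · rw [hg1, one_pow]
    · rw [← hDord g hg hg1]; exact pow_orderOf_eq_one g
  haveI hDn : D.Normal := ⟨fun g hg x => by
    have := hDinv (MulAut.conj x) g hg
    rwa [MulAut.conj_apply] at this⟩
  have hDp : IsPGroup r D := fun g => ⟨1, Subtype.ext (by simpa using hDexp g g.2)⟩
  have hPD : ∀ P : Sylow r G, (P : Subgroup G) = D := by
    intro P
    have hle : (P : Subgroup G) ≤ D := by
      intro g hg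
      rcases E1 g with h1 | h1 | h1
      · rw [h1]; exact one_mem D
      · exact hDr g h1
      · exfalso
        obtain ⟨k, hk⟩ := P.isPGroup' ⟨g, hg⟩
        have hk' : g ^ (r ^ k) = 1 := by
          have := congrArg Subtype.val hk
          simpa using this
        have h2 : s ∣ r ^ k := by rw [← h1]; exact orderOf_dvd_of_pow_eq_one hk'
        exact hsr' (hs.out.dvd_of_dvd_pow h2)
    exact (P.is_maximal' hDp hle).symm
  haveI hDnt : Nontrivial D := ⟨⟨⟨d, hdD⟩, 1, fun h => hd1 (congrArg Subtype.val h)⟩⟩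
  obtain ⟨z, hzD, hz1, hzc⟩ : ∃ z : G, z ∈ D ∧ z ≠ 1 ∧ ∀ b ∈ D, z * b = b * z := by
    haveI : Nontrivial (Subgroup.center D) := hDp.center_nontrivial
    obtain ⟨z, hz⟩ := exists_ne (1 : Subgroup.center D)
    refine ⟨((z : D) : G), (z : D).2, ?_, ?_⟩
    · intro h
      apply hz
      apply Subtype.ext
      apply Subtype.ext
      exact h
    · intro b hb
      have h1 := Subgroup.mem_center_iff.mp z.2 ⟨b, hb⟩
      have h2 := congrArg Subtype.val h1
      simpa using h2.symm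
  have hDcomm : ∀ a ∈ D, ∀ b ∈ D, a * b = b * a := by
    intro a ha b hb
    by_cases ha1 : a = 1
    · rw [ha1, one_mul, mul_one]
    · obtain ⟨φ, hφ⟩ := E2 z a (hDord z hzD hz1) (hDord a ha ha1)
      have h1 := hzc (φ⁻¹ b) (hDinv φ⁻¹ b hb)
      have h2 := congrArg φ h1
      rw [map_mul, map_mul, hφ] at h2
      simpa using h2
  have hfpf : ∀ x y : G, orderOf x = s → y ∈ D → x * y * x⁻¹ = y → y = 1 := by
    intro x y hx hy hxy
    by_contra hy1
    have hyr := hDord y hy hy1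
    have hc : Commute x y := by
      show x * y = y * x
      calc x * y = x * y * x⁻¹ * x := by group
        _ = y * x := by rw [hxy]
    have h1 := hc.orderOf_mul_eq_mul_orderOf_of_coprime (by rw [hx, hyr]; exact hcop.symm)
    rw [hx, hyr] at h1
    have hs1 := hs.out.one_lt
    have hr1 := hr.out.one_lt
    rcases E1 (x * y) with h2 | h2 | h2
    · rw [h2, orderOf_one] at h1
      nlinarith
    · rw [h2] at h1
      nlinarith
    · rw [h2] at h1
      nlinarith
  obtain ⟨α, β, hcard⟩ := E6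
  obtain ⟨P⟩ : Nonempty (Sylow r G) := inferInstance
  have hDcard : Nat.card D = r ^ α := by
    rw [← hPD P, Sylow.card_eq_multiplicity, hcard]
    congr 1
    rw [Nat.factorization_mul (pow_ne_zero _ hr.out.ne_zero) (pow_ne_zero _ hs.out.ne_zero)]
    simp [hr.out.factorization_self, Nat.factorization_eq_zero_of_not_dvd hrs']
  have hα : 1 ≤ α := by
    by_contra h0
    have hα0 : α = 0 := by omega
    have h1 : orderOf d ∣ Nat.card D := Subgroup.orderOf_dvd_natCard D hdD
    rw [hdr, hDcard, hα0, pow_zero] at h1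
    exact hr.out.one_lt.ne' (Nat.dvd_one.mp h1)
  obtain ⟨b, hb⟩ := E4
  have hβ1 : 1 ≤ β := by
    by_contra h0
    have hβ0 : β = 0 := by omega
    have h1 : orderOf b ∣ Nat.card G := orderOf_dvd_natCard b
    rw [hb, hcard, hβ0, pow_zero, mul_one] at h1
    exact hsr' (hs.out.dvd_of_dvd_pow h1)
  have hβ : β = 1 := by
    by_contra hβ2
    obtain ⟨S₀⟩ : Nonempty (Sylow s G) := inferInstance
    have hS₀card : Nat.card (S₀ : Subgroup G) = s ^ β := by
      rw [Sylow.card_eq_multiplicity, hcard]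
      congr 1
      rw [Nat.factorization_mul (pow_ne_zero _ hr.out.ne_zero) (pow_ne_zero _ hs.out.ne_zero)]
      simp [hs.out.factorization_self, Nat.factorization_eq_zero_of_not_dvd hsr']
    have hS₀ord : ∀ g ∈ (S₀ : Subgroup G), g ≠ 1 → orderOf g = s := by
      intro g hg hg1
      rcases E1 g with h1 | h1 | h1
      · exact absurd h1 hg1
      · exfalso
        have h2 : r ∣ s ^ β := by
          rw [← h1, ← hS₀card]
          exact Subgroup.orderOf_dvd_natCard _ hg
        exact hrs' (hr.out.dvd_of_dvd_pow h2)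
      · exact h1
    haveI : Nontrivial (S₀ : Subgroup G) := by
      apply Finite.one_lt_card_iff_nontrivial.mp
      rw [hS₀card]
      exact Nat.one_lt_pow (by omega) hs.out.one_lt
    haveI : Nontrivial (Subgroup.center (S₀ : Subgroup G)) := S₀.isPGroup'.center_nontrivial
    obtain ⟨z₀, hz₀⟩ := exists_ne (1 : Subgroup.center (S₀ : Subgroup G))
    obtain ⟨zz, hzzS, hzz1, hzzc⟩ : ∃ zz : G, zz ∈ (S₀ : Subgroup G) ∧ zz ≠ 1 ∧
        ∀ b ∈ (S₀ : Subgroup G), zz * b = b * zz := by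
      refine ⟨((z₀ : (S₀ : Subgroup G)) : G), (z₀ : (S₀ : Subgroup G)).2, ?_, ?_⟩
      · intro h
        apply hz₀
        apply Subtype.ext
        apply Subtype.ext
        exact h
      · intro b hb
        have h1 := Subgroup.mem_center_iff.mp z₀.2 ⟨b, hb⟩
        have h2 := congrArg Subtype.val h1
        simpa using h2.symm
    have hzzord : orderOf zz = s := hS₀ord zz hzzS hzz1
    obtain ⟨w, hwS, hwz⟩ : ∃ w ∈ (S₀ : Subgroup G), w ∉ Subgroup.zpowers zz := by
      by_contra hcon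
      push_neg at hcon
      have hle : (S₀ : Subgroup G) ≤ Subgroup.zpowers zz := hcon
      have h1 := Subgroup.card_le_of_le hle
      rw [hS₀card, Nat.card_zpowers, hzzord] at h1
      have h2 : s ^ 2 ≤ s ^ β := Nat.pow_le_pow_right hs.out.pos (by omega)
      have := hs.out.one_lt
      nlinarith
    have hDbot := ThreeOrbF.norm_arg r s hrs D hDcomm hDexp hfpf zz w (hzzc w hwS) (by
      intro j hj1 hjs
      apply hS₀ord _ (pow_mem hzzS j)
      intro h
      have h3 := orderOf_dvd_of_pow_eq_one h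
      rw [hzzord] at h3
      exact absurd (Nat.le_of_dvd (by omega) h3) (by omega)) (by
      intro i
      apply hS₀ord _ (mul_mem (pow_mem hzzS i) hwS)
      intro h
      apply hwz
      have h3 : w = (zz ^ i)⁻¹ := eq_inv_of_mul_eq_one_right h
      rw [h3]
      exact inv_mem (Subgroup.npow_mem_zpowers zz i))
    rw [hDbot, Subgroup.mem_bot] at hdD
    exact hd1 hdD
  have hcard' : Nat.card G = r ^ α * s := by rw [hcard, hβ, pow_one]
  have hbs : b ^ s = 1 := by rw [← hb]; exact pow_orderOf_eq_one b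
  have hKcard : Nat.card (Subgroup.zpowers b) = s := by rw [Nat.card_zpowers, hb]
  have hcompl : D.IsComplement' (Subgroup.zpowers b) :=
    Subgroup.isComplement'_of_coprime (by rw [hDcard, hKcard, hcard'])
      (by rw [hDcard, hKcard]; exact Nat.Coprime.pow_left α hcop)
  have htop : D ⊔ Subgroup.zpowers b = ⊤ := hcompl.sup_eq_top
  letI : CommGroup D :=
    { (inferInstance : Group D) with mul_comm := fun a b => Subtype.ext (hDcomm a a.2 b b.2) }
  set c : D ≃* D := MulAut.conjNormal b with hc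
  have hcs : c ^ s = 1 := by rw [hc, ← map_pow, hbs, map_one]
  have hcfix : ∀ a : D, c a = a → a = 1 := by
    intro a ha
    have h1 : b * (a : G) * b⁻¹ = (a : G) := by
      have h2 := congrArg Subtype.val ha
      simpa [hc] using h2
    exact Subtype.ext (hfpf b a hb a.2 h1)
  have hexpD : ∀ a : D, a ^ r = 1 := fun a => Subtype.ext (by simpa using hDexp a a.2)
  have hcpow : ∀ (i : ℕ) (u : D), (((c ^ i) u : D) : G) = b ^ i * u * (b ^ i)⁻¹ := by
    intro i u
    have e : c ^ i = MulAut.conjNormal (b ^ i) := by rw [hc, map_pow]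
    rw [e, MulAut.conjNormal_apply]
  have hc1 : ∀ a : D, ((c a : D) : G) = b * a * b⁻¹ := by
    intro a
    rw [hc, MulAut.conjNormal_apply]
  have G1 : ∀ i : ℕ, 1 ≤ i → i < s → ∃ L : D ≃* D, ∀ a, L (c a) = (c ^ i) (L a) := by
    intro i hi1 his
    have hbi : orderOf (b ^ i) = s :=
      (Nat.Coprime.orderOf_pow (by
        rw [hb]
        exact (Nat.Prime.coprime_iff_not_dvd hs.out).mpr (Nat.not_dvd_of_pos_of_lt hi1 his))).trans hb
    obtain ⟨φ, hφ⟩ := E3 b (b ^ i) hb hbi
    refine ⟨ThreeOrbF.restrictAut D hDinv φ, ?_⟩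
    intro a
    apply Subtype.ext
    rw [ThreeOrbF.restrictAut_coe, hcpow, ThreeOrbF.restrictAut_coe, hc1, map_mul, map_mul,
      map_inv, hφ]
  have G2 : ∀ w₁ w₂ : D, w₁ ≠ 1 → w₂ ≠ 1 → ∃ (i : ℕ) (L : D ≃* D), L w₁ = w₂ ∧
      ∀ a, L (c a) = (c ^ i) (L a) := by
    intro w₁ w₂ hw₁ hw₂
    have ho₁ : orderOf (w₁ : G) = r := hDord w₁ w₁.2 (fun h => hw₁ (Subtype.ext h))
    have ho₂ : orderOf (w₂ : G) = r := hDord w₂ w₂.2 (fun h => hw₂ (Subtype.ext h))
    obtain ⟨φ, hφ⟩ := E2 w₁ w₂ ho₁ ho₂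
    have hmem : φ b ∈ D ⊔ Subgroup.zpowers b := by rw [htop]; trivial
    rw [Subgroup.mem_sup_of_normal_left] at hmem
    obtain ⟨u₀, hu₀, k, hk, huk⟩ := hmem
    obtain ⟨i, hi⟩ := (mem_powers_iff_mem_zpowers).mpr hk
    have hi' : b ^ i = k := hi
    refine ⟨i, ThreeOrbF.restrictAut D hDinv φ, Subtype.ext ?_, ?_⟩
    · rw [ThreeOrbF.restrictAut_coe]; exact hφ
    · intro a
      apply Subtype.ext
      rw [ThreeOrbF.restrictAut_coe, hcpow, ThreeOrbF.restrictAut_coe, hc1, map_mul, map_mul,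
        map_inv, ← huk, ← hi']
      have h2 : b ^ i * φ a * (b ^ i)⁻¹ ∈ D := hDn.conj_mem _ (hDinv φ a a.2) _
      have h3 := hDcomm u₀ hu₀ _ h2
      calc u₀ * b ^ i * φ a * (u₀ * b ^ i)⁻¹ = u₀ * (b ^ i * φ a * (b ^ i)⁻¹) * u₀⁻¹ := by group
        _ = b ^ i * φ a * (b ^ i)⁻¹ := by rw [h3]; group
  have hirr := CycGrp.irreducible_of_transitive hrs hexpD c hcs hcfix G1 G2
  have hdeg := Polynomial.natDegree_of_dvd_cyclotomic_of_irreducible (K := ZMod r) (p := r)
    (f := 1) (n := s) (by simp) (by simpa using hcop) dvd_rfl hirr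
  rw [Polynomial.natDegree_cyclotomic, Nat.totient_prime hs.out] at hdeg
  have hord : orderOf (r : ZMod s) = s - 1 := by
    rw [hdeg, ← orderOf_units, ZMod.coe_unitOfCoprime]
    simp
  refine ⟨α, hα, hcard', ?_, hord, ?_⟩
  · intro P
    rw [hPD P]
    exact ⟨hDn, ⟨⟨fun a b => Subtype.ext (hDcomm a a.2 b b.2)⟩⟩, hDexp⟩
  · intro x y hx hy hxy
    have hyD := hDr y hy
    have hy1 := hfpf x y hx hyD hxy
    rw [hy1, orderOf_one] at hy
    exact hr.out.one_lt.ne hy

end Cfsg.Agent.Lib.Helper6.ThreeOrbC
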