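import Mathlib
import Cfsg.Prelude.Def_Transfer
import Cfsg.Agent.S0144
import Cfsg.Agent.Lib.Helper6.ThreeOrbB
import Cfsg.Agent.Lib.Helper6.ThreeOrbC

set_option autoImplicit false

namespace Cfsg.Agent.Lib.Helper6.ThreeOrbG

open Cfsg.Agent.Lib.Helper6
open scoped commutatorElement

theorem forward {G : Type*} [Group G] [Finite G] (hnpp : ¬ IsPrimePow (Nat.card G))
    (hnt : Nat.card G ≠ 1)
    (h3 : Nat.card (MulAction.orbitRel.Quotient (MulAut G) G) = 3) :
    ∃ (p q n : ℕ) (_ : Fact p.Prime) (_ : Fact q.Prime), p ≠ q ∧ 1 ≤ n ∧ Nat.card G = p ^ n * q ∧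
      (∀ P : Sylow p G, (P : Subgroup G).Normal ∧ Cfsg.IsElementaryAbelian p (P : Subgroup G)) ∧
      orderOf (p : ZMod q) = q - 1 ∧
      ∀ x y : G, orderOf x = q → orderOf y = p → x * y * x⁻¹ ≠ y := by
  classical
  have hpos : 0 < Nat.card G := Nat.card_pos
  obtain ⟨p, hp_def⟩ : ∃ p : ℕ, p = (Nat.card G).minFac := ⟨_, rfl⟩
  have hp : p.Prime := by rw [hp_def]; exact Nat.minFac_prime hnt
  haveI hpF : Fact p.Prime := ⟨hp⟩
  obtain ⟨k, m, hpm, hkm⟩ := Nat.exists_eq_pow_mul_and_not_dvd hpos.ne' p hp.ne_one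
  have hm1 : m ≠ 1 := by
    rintro rfl
    apply hnpp
    rw [hkm, mul_one]
    have hk0 : k ≠ 0 := by
      rintro rfl
      rw [pow_zero, mul_one] at hkm
      exact hnt hkm
    exact hp.isPrimePow.pow hk0
  obtain ⟨q, hq_def⟩ : ∃ q : ℕ, q = m.minFac := ⟨_, rfl⟩
  have hq : q.Prime := by rw [hq_def]; exact Nat.minFac_prime hm1
  haveI hqF : Fact q.Prime := ⟨hq⟩
  have hqm : q ∣ m := by rw [hq_def]; exact Nat.minFac_dvd m
  have hpq : p ≠ q := by
    intro h
    apply hpm
    rw [h]; exact hqm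
  have hpG : p ∣ Nat.card G := by rw [hp_def]; exact Nat.minFac_dvd _
  have hqG : q ∣ Nat.card G := by rw [hkm]; exact dvd_mul_of_dvd_right hqm _
  obtain ⟨a, ha⟩ := exists_prime_orderOf_dvd_card' (G := G) p hpG
  obtain ⟨b, hb⟩ := exists_prime_orderOf_dvd_card' (G := G) q hqG
  have ha1 : a ≠ 1 := by
    intro h
    rw [h, orderOf_one] at ha
    exact hp.one_lt.ne ha
  have hb1 : b ≠ 1 := by
    intro h
    rw [h, orderOf_one] at hb
    exact hq.one_lt.ne hb
  have hne1 : (Quotient.mk'' 1 : MulAction.orbitRel.Quotient (MulAut G) G) ≠ Quotient.mk'' a := by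
    rw [Ne, ThreeOrbB.orbit_mk_eq]
    rintro ⟨φ, hφ⟩
    apply ha1
    simpa using hφ
  have hne2 : (Quotient.mk'' 1 : MulAction.orbitRel.Quotient (MulAut G) G) ≠ Quotient.mk'' b := by
    rw [Ne, ThreeOrbB.orbit_mk_eq]
    rintro ⟨φ, hφ⟩
    apply hb1
    simpa using hφ
  have hne3 : (Quotient.mk'' a : MulAction.orbitRel.Quotient (MulAut G) G) ≠ Quotient.mk'' b := by
    rw [Ne, ThreeOrbB.orbit_mk_eq]
    rintro ⟨φ, hφ⟩
    have h1 : orderOf (φ b) = orderOf b := MulEquiv.orderOf_eq φ b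
    rw [hφ, ha, hb] at h1
    exact hpq h1
  have hset : ({Quotient.mk'' 1, Quotient.mk'' a, Quotient.mk'' b} :
      Set (MulAction.orbitRel.Quotient (MulAut G) G)) = Set.univ := by
    apply Set.eq_of_subset_of_ncard_le (Set.subset_univ _)
    rw [Set.ncard_univ, h3]
    exact (Set.ncard_eq_three.mpr ⟨_, _, _, hne1, hne2, hne3, rfl⟩).ge
  have hcls : ∀ g : G, g = 1 ∨ (∃ φ : MulAut G, φ a = g) ∨ (∃ φ : MulAut G, φ b = g) := by
    intro g
    have h1 : (Quotient.mk'' g : MulAction.orbitRel.Quotient (MulAut G) G) ∈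
        ({Quotient.mk'' 1, Quotient.mk'' a, Quotient.mk'' b} :
          Set (MulAction.orbitRel.Quotient (MulAut G) G)) := by
      rw [hset]; trivial
    simp only [Set.mem_insert_iff, Set.mem_singleton_iff] at h1
    rcases h1 with h1 | h1 | h1
    · left
      rw [ThreeOrbB.orbit_mk_eq] at h1
      obtain ⟨φ, hφ⟩ := h1
      rw [← hφ, map_one]
    · right; left
      exact (ThreeOrbB.orbit_mk_eq g a).mp h1
    · right; right
      exact (ThreeOrbB.orbit_mk_eq g b).mp h1
  have E1 : ∀ g : G, g = 1 ∨ orderOf g = p ∨ orderOf g = q := by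
    intro g
    rcases hcls g with h | ⟨φ, hφ⟩ | ⟨φ, hφ⟩
    · left; exact h
    · right; left
      rw [← hφ, MulEquiv.orderOf_eq φ a, ha]
    · right; right
      rw [← hφ, MulEquiv.orderOf_eq φ b, hb]
  have E2 : ∀ g h : G, orderOf g = p → orderOf h = p → ∃ φ : MulAut G, φ g = h := by
    intro g h hg hh
    have key : ∀ g : G, orderOf g = p → ∃ φ : MulAut G, φ a = g := by
      intro g hg
      rcases hcls g with h | h | ⟨φ, hφ⟩
      · rw [h, orderOf_one] at hg
        exact absurd hg hp.one_lt.ne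
      · exact h
      · rw [← hφ, MulEquiv.orderOf_eq φ b, hb] at hg
        exact absurd hg.symm hpq
    obtain ⟨φ₁, hφ₁⟩ := key g hg
    obtain ⟨φ₂, hφ₂⟩ := key h hh
    refine ⟨φ₂ * φ₁⁻¹, ?_⟩
    rw [MulAut.mul_apply, ← hφ₁, MulAut.inv_apply_self, hφ₂]
  have E3 : ∀ g h : G, orderOf g = q → orderOf h = q → ∃ φ : MulAut G, φ g = h := by
    intro g h hg hh
    have key : ∀ g : G, orderOf g = q → ∃ φ : MulAut G, φ b = g := by
      intro g hg
      rcases hcls g with h | ⟨φ, hφ⟩ | h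
      · rw [h, orderOf_one] at hg
        exact absurd hg hq.one_lt.ne
      · rw [← hφ, MulEquiv.orderOf_eq φ a, ha] at hg
        exact absurd hg hpq
      · exact h
    obtain ⟨φ₁, hφ₁⟩ := key g hg
    obtain ⟨φ₂, hφ₂⟩ := key h hh
    refine ⟨φ₂ * φ₁⁻¹, ?_⟩
    rw [MulAut.mul_apply, ← hφ₁, MulAut.inv_apply_self, hφ₂]
  -- the order
  have hmpos : m ≠ 0 := by
    rintro rfl
    rw [mul_zero] at hkm
    exact hpos.ne' hkm
  obtain ⟨j, m', hqm', hjm⟩ := Nat.exists_eq_pow_mul_and_not_dvd hmpos q hq.ne_one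
  have hm'1 : m' = 1 := by
    by_contra hm'
    have ht : (m'.minFac).Prime := Nat.minFac_prime hm'
    have htm : m'.minFac ∣ m' := Nat.minFac_dvd m'
    have htG : m'.minFac ∣ Nat.card G := by
      rw [hkm, hjm]
      exact dvd_mul_of_dvd_right (dvd_mul_of_dvd_right htm _) _
    haveI : Fact (m'.minFac).Prime := ⟨ht⟩
    obtain ⟨t, ht'⟩ := exists_prime_orderOf_dvd_card' (G := G) m'.minFac htG
    rcases E1 t with h | h | h
    · rw [h, orderOf_one] at ht'
      exact ht.one_lt.ne ht'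
    · rw [h] at ht'
      apply hpm
      rw [hjm, ht']
      exact dvd_mul_of_dvd_right htm _
    · rw [h] at ht'
      apply hqm'
      rw [ht']
      exact htm
  have hcard2 : Nat.card G = p ^ k * q ^ j := by rw [hkm, hjm, hm'1, mul_one]
  haveI hsolv : Group.IsSolvable G := Cfsg.Agent.S0144.result p q k j hp hq hcard2
  haveI hnontriv : Nontrivial G := by
    apply Finite.one_lt_card_iff_nontrivial.mp
    omega
  have hDtop : commutator G ≠ ⊤ := (Group.IsSolvable.commutator_lt_top_of_nontrivial G).ne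
  have hDinv : ∀ (φ : MulAut G) (g : G), g ∈ commutator G → φ g ∈ commutator G := by
    intro φ g hg
    haveI : (commutator G).Characteristic := by
      rw [commutator_def]; infer_instance
    have h1 := (Subgroup.characteristic_iff_le_comap.mp inferInstance φ) hg
    exact h1
  have hDbot : commutator G ≠ ⊥ := by
    intro hbot
    have h1 : ⁅a, b⁆ ∈ commutator G := by
      rw [commutator_def]
      exact Subgroup.commutator_mem_commutator (Subgroup.mem_top a) (Subgroup.mem_top b)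
    rw [hbot, Subgroup.mem_bot, commutatorElement_eq_one_iff_commute] at h1
    have h2 := h1.orderOf_mul_eq_mul_orderOf_of_coprime
      (by rw [ha, hb]; exact (Nat.coprime_primes hp hq).mpr hpq)
    rw [ha, hb] at h2
    have hp1 := hp.one_lt
    have hq1 := hq.one_lt
    rcases E1 (a * b) with h | h | h
    · rw [h, orderOf_one] at h2
      nlinarith
    · rw [h] at h2
      nlinarith
    · rw [h] at h2
      nlinarith
  obtain ⟨d, hdD, hd1⟩ : ∃ d ∈ commutator G, d ≠ 1 := by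
    by_contra hcon
    push_neg at hcon
    exact hDbot ((Subgroup.eq_bot_iff_forall _).mpr hcon)
  rcases E1 d with h | h | h
  · exact absurd h hd1
  · obtain ⟨n, hn, hcard, hP, hord, hfpf⟩ :=
      ThreeOrbC.core p q hpq E1 E2 E3 ⟨b, hb⟩ ⟨k, j, hcard2⟩ (commutator G) hDinv hDtop d hdD h
    exact ⟨p, q, n, hpF, hqF, hpq, hn, hcard, hP, hord, hfpf⟩
  · obtain ⟨n, hn, hcard, hP, hord, hfpf⟩ :=
      ThreeOrbC.core q p hpq.symm (fun g => by
        rcases E1 g with h | h | h
        · exact Or.inl h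
        · exact Or.inr (Or.inr h)
        · exact Or.inr (Or.inl h)) E3 E2 ⟨a, ha⟩ ⟨j, k, by rw [hcard2, mul_comm]⟩
        (commutator G) hDinv hDtop d hdD h
    exact ⟨q, p, n, hqF, hpF, hpq.symm, hn, hcard, hP, hord, hfpf⟩

end Cfsg.Agent.Lib.Helper6.ThreeOrbG
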